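import Cfsg.Agent.IsometryClasses.Labels
import Cfsg.Agent.LinAlg.Witt.Bases

/-!
# The atoms of isometries
-/

set_option autoImplicit false
set_option linter.style.haveILetI false

namespace CfsgLib.IsometryClasses

open Polynomial Module

variable {F : Type*} [Field F] {H : F[X]}

theorem isUnit_mk_of_isCoprime {p : F[X]} (h : IsCoprime p H) : IsUnit (AdjoinRoot.mk H p) := by
  obtain ⟨a, b, hab⟩ := h
  refine IsUnit.of_mul_eq_one (AdjoinRoot.mk H a) ?_
  have := congrArg (AdjoinRoot.mk H) hab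
  rw [map_add, map_mul, map_mul, AdjoinRoot.mk_self, mul_zero, add_zero, map_one] at this
  rw [mul_comm, this]

theorem isCoprime_sq_sub_one (h : Lab.IsGenAtom H) : IsCoprime (X * X - 1 : F[X]) H := by
  have h1 : ∀ a : F, H.eval a ≠ 0 → IsCoprime (X - C a) H := fun a ha =>
    (irreducible_X_sub_C a).coprime_iff_not_dvd.2 fun hd => ha (dvd_iff_isRoot.1 hd)
  rw [show (X * X - 1 : F[X]) = (X - C 1) * (X - C (-1)) by rw [C_1, map_neg, C_1]; ring]
  exact (h1 1 h.1.2.1).mul_left (h1 (-1) h.1.2.2)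

theorem isUnit_root_sub_rinv (h : Lab.IsGenAtom H) (hH : Recip H) :
    IsUnit (AdjoinRoot.root H - rinv H) := by
  have hu := isUnit_mk_of_isCoprime (isCoprime_sq_sub_one h)
  rw [map_sub, map_mul, map_one, AdjoinRoot.mk_X,
    show AdjoinRoot.root H * AdjoinRoot.root H - 1 = AdjoinRoot.root H * (AdjoinRoot.root H - rinv H) by
      rw [mul_sub, root_mul_rinv hH.coeff_zero]] at hu
  exact isUnit_of_mul_isUnit_right hu

theorem sig_swap {P Q : F[X]} (hH : Recip (P * Q)) (hP0 : P.coeff 0 ≠ 0)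
    (hPQ : Q * C (P.coeff 0) = P.reverse) :
    ∃ w, IsUnit w ∧ sig hH (AdjoinRoot.mk _ P) = w * AdjoinRoot.mk _ Q := by
  let : Invertible (AdjoinRoot.root (P * Q)) :=
    ⟨rinv _, (mul_comm _ _).trans (root_mul_rinv hH.coeff_zero), root_mul_rinv hH.coeff_zero⟩
  have h : aeval (rinv (P * Q)) P.reverse * AdjoinRoot.root (P * Q) ^ P.natDegree =
      AdjoinRoot.mk (P * Q) P := by
    rw [← AdjoinRoot.aeval_eq]
    exact eval₂_reverse_mul_pow (algebraMap F (AdjoinRoot (P * Q))) (AdjoinRoot.root (P * Q)) P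
  rw [← hPQ, ← sig_mk hH] at h
  have h2 := congrArg (sig hH) h
  rw [map_mul, sig_sig, map_mul, map_pow, sig_root, AdjoinRoot.mk_C] at h2
  refine ⟨AdjoinRoot.of (P * Q) (P.coeff 0) * rinv (P * Q) ^ P.natDegree, ?_, by rw [← h2]; ring⟩
  exact ((IsUnit.mk0 _ hP0).map _).mul
    ((IsUnit.of_mul_eq_one _ ((mul_comm _ _).trans (root_mul_rinv hH.coeff_zero))).pow _)

theorem isCoprime_of_ne {P Q : F[X]} (hP : Irreducible P) (hQ : Irreducible Q) (hPm : P.Monic)
    (hQm : Q.Monic) (hne : P ≠ Q) : IsCoprime P Q :=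
  hP.coprime_iff_not_dvd.2 fun hd => hne (eq_of_monic_of_associated hPm hQm (hP.associated_of_dvd hQ hd))

section Split

variable {P Q : F[X]}

theorem coeff_zero_left (hH : Recip (P * Q)) : P.coeff 0 ≠ 0 := fun h =>
  hH.coeff_zero (by rw [mul_coeff_zero, h, zero_mul])

theorem atomCond_split (hP : Irreducible P) (hQ : Irreducible Q) (hco : IsCoprime P Q)
    (hH : Recip (P * Q)) (hPQ : Q * C (P.coeff 0) = P.reverse) : AtomCond hH := by
  obtain ⟨w, hw, hwP⟩ := sig_swap hH (coeff_zero_left hH) hPQ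
  obtain ⟨w', hw'⟩ := hw.exists_left_inv
  have hwQ : sig hH (AdjoinRoot.mk _ Q) = sig hH w' * AdjoinRoot.mk _ P := by
    rw [← sig_sig hH (AdjoinRoot.mk _ P), hwP, ← map_mul, ← mul_assoc, hw', one_mul]
  intro e he
  obtain ⟨p, rfl⟩ := AdjoinRoot.mk_surjective e
  have key : ∀ s : F[X], ¬ P ∣ s → ¬ Q ∣ s → IsUnit (AdjoinRoot.mk (P * Q) s) := fun s h1 h2 =>
    isUnit_mk_of_isCoprime (((hP.coprime_iff_not_dvd).2 h1).mul_left ((hQ.coprime_iff_not_dvd).2 h2)).symm
  have hse : sig hH (AdjoinRoot.mk _ p) ≠ 0 := fun h0 => he (by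
    rw [← sig_sig hH (AdjoinRoot.mk _ p), h0, map_zero])
  have hboth : ∀ s : F[X], AdjoinRoot.mk (P * Q) s ≠ 0 → P ∣ s → ¬ Q ∣ s := fun s hs h1 h2 =>
    hs (AdjoinRoot.mk_eq_zero.2 (hco.mul_dvd h1 h2))
  by_cases h : P ∣ p ∨ Q ∣ p
  swap
  · push Not at h
    obtain ⟨c, hc⟩ := (key p h.1 h.2).exists_left_inv
    exact ⟨c, 0, by rw [zero_mul, add_zero, hc]⟩
  suffices hs : IsUnit (AdjoinRoot.mk (P * Q) p + sig hH (AdjoinRoot.mk _ p)) by
    obtain ⟨c, hc⟩ := hs.exists_left_inv
    exact ⟨c, c, by rw [← mul_add, hc]⟩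
  rcases h with hd | hd
  · obtain ⟨r, rfl⟩ := hd
    obtain ⟨t, ht⟩ := AdjoinRoot.mk_surjective (w * sig hH (AdjoinRoot.mk (P * Q) r))
    have hst : sig hH (AdjoinRoot.mk _ (P * r)) = AdjoinRoot.mk _ (Q * t) := by
      rw [map_mul, map_mul, hwP, map_mul, ht]; ring
    rw [hst] at hse ⊢
    have h1 : ¬ P ∣ Q * t := fun e => hboth _ hse e (dvd_mul_right _ _)
    have h2 : ¬ Q ∣ P * r := hboth _ he (dvd_mul_right _ _)
    rw [← map_add]
    exact key _ (fun e => h1 ((dvd_add_right (dvd_mul_right _ _)).1 e))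
      (fun e => h2 ((dvd_add_left (dvd_mul_right _ _)).1 e))
  · obtain ⟨r, rfl⟩ := hd
    obtain ⟨t, ht⟩ := AdjoinRoot.mk_surjective (sig hH w' * sig hH (AdjoinRoot.mk (P * Q) r))
    have hst : sig hH (AdjoinRoot.mk _ (Q * r)) = AdjoinRoot.mk _ (P * t) := by
      rw [map_mul, map_mul, hwQ, map_mul, ht]; ring
    rw [hst] at hse ⊢
    have h1 : ¬ Q ∣ P * t := hboth _ hse (dvd_mul_right _ _)
    have h2 : ¬ P ∣ Q * r := fun e => hboth _ he e (dvd_mul_right _ _)
    rw [← map_add]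
    exact key _ (fun e => h2 ((dvd_add_left (dvd_mul_right _ _)).1 e))
      (fun e => h1 ((dvd_add_right (dvd_mul_right _ _)).1 e))

theorem normSurj_split (hP : Irreducible P) (hQ : Irreducible Q) (hne : P ≠ Q) (hPm : P.Monic)
    (hQm : Q.Monic) (hH : Recip (P * Q)) (hPQ : Q * C (P.coeff 0) = P.reverse) : NormSurj hH := by
  intro r _ hrs
  obtain ⟨w, hw, hwP⟩ := sig_swap hH (coeff_zero_left hH) hPQ
  obtain ⟨w', hw'⟩ := hw.exists_left_inv
  have hwQ : sig hH (AdjoinRoot.mk _ Q) = sig hH w' * AdjoinRoot.mk _ P := by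
    rw [← sig_sig hH (AdjoinRoot.mk _ P), hwP, ← map_mul, ← mul_assoc, hw', one_mul]
  have hco : IsCoprime P Q := isCoprime_of_ne hP hQ hPm hQm hne
  obtain ⟨a, b, hab⟩ := hco
  set mP : AdjoinRoot (P * Q) := AdjoinRoot.mk _ P
  set mQ : AdjoinRoot (P * Q) := AdjoinRoot.mk _ Q
  set u : AdjoinRoot (P * Q) := AdjoinRoot.mk _ b * mQ with hu
  have h0 : mP * mQ = 0 := by rw [← map_mul, AdjoinRoot.mk_self]
  have hu' : 1 - u = AdjoinRoot.mk _ a * mP := by
    have := congrArg (AdjoinRoot.mk (P * Q)) hab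
    rw [map_add, map_mul, map_mul, map_one] at this
    rw [hu]; linear_combination -this
  have e1 : u * sig hH u = 0 := by
    rw [hu, map_mul, hwQ]
    linear_combination (AdjoinRoot.mk _ b * sig hH (AdjoinRoot.mk _ b) * sig hH w') * h0
  have e2 : (1 - u) * (1 - sig hH u) = 0 := by
    rw [← map_one (sig hH), ← map_sub, map_one, hu', map_mul, hwP]
    linear_combination (AdjoinRoot.mk _ a * sig hH (AdjoinRoot.mk _ a) * w) * h0
  refine ⟨u * r + (1 - u), ?_⟩
  rw [map_add, map_mul, map_sub, map_one, hrs]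
  linear_combination (r * r - r) * e1 + (1 - r) * e2

end Split

theorem atomCond_irreducible (hi : Irreducible H) (hH : Recip H) : AtomCond hH := by
  haveI : Fact (Irreducible H) := ⟨hi⟩
  exact fun e he => ⟨e⁻¹, 0, by rw [zero_mul, add_zero, inv_mul_cancel₀ he]⟩

theorem normSurj_irreducible [Finite F] (hi : Irreducible H) (hH : Recip H) (h : Lab.IsGenAtom H) :
    NormSurj hH := by
  haveI : Fact (Irreducible H) := ⟨hi⟩
  haveI := finite_adjoinRoot hH.monic
  intro r _ hrs
  have hne : (sig hH).toRingHom ≠ RingHom.id (AdjoinRoot H) := fun e => by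
    have h1 := RingHom.congr_fun e (AdjoinRoot.root H)
    rw [AlgHom.toRingHom_eq_coe, RingHom.coe_coe, sig_root, RingHom.id_apply] at h1
    have hu := isUnit_root_sub_rinv h hH
    rw [← h1, sub_self] at hu
    exact not_isUnit_zero hu
  obtain ⟨a, ha⟩ := CfsgLib.LinAlg.Witt.exists_norm_eq (sig hH).toRingHom hne (sig_sig hH) hrs
  exact ⟨a, by rw [mul_comm]; exact ha⟩

theorem atomCond_of_isGenAtom (hH : Recip H) (h : Lab.IsGenAtom H) : AtomCond hH := by
  rcases h.2 with hi | ⟨P, Q, hPm, hQm, hP, hQ, hne, rfl, hPQ⟩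
  · exact atomCond_irreducible hi hH
  · exact atomCond_split hP hQ (isCoprime_of_ne hP hQ hPm hQm hne) hH hPQ

theorem normSurj_of_isGenAtom [Finite F] (hH : Recip H) (h : Lab.IsGenAtom H) : NormSurj hH := by
  rcases h.2 with hi | ⟨P, Q, hPm, hQm, hP, hQ, hne, rfl, hPQ⟩
  · exact normSurj_irreducible hi hH h
  · exact normSurj_split hP hQ hne hPm hQm hH hPQ

/-! ### Existence of an atom -/

/-- The monic normalisation of the reversed polynomial. -/
noncomputable def star (P : F[X]) : F[X] := C (P.coeff 0)⁻¹ * P.reverse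

theorem star_spec {P : F[X]} (hm : P.Monic) (h0 : P.coeff 0 ≠ 0) :
    (star P).Monic ∧ star P * C (P.coeff 0) = P.reverse ∧ (star P).natDegree = P.natDegree ∧
      (star P).coeff 0 = (P.coeff 0)⁻¹ ∧ (star P).reverse = C (P.coeff 0)⁻¹ * P ∧
      (Irreducible P → Irreducible (star P)) := by
  have hlt : P.natTrailingDegree = 0 := natTrailingDegree_eq_zero.2 (Or.inr h0)
  have hrr : ∀ p : F[X], p.coeff 0 ≠ 0 → p.reverse.reverse = p := fun p hp => by
    have ht : p.natTrailingDegree = 0 := natTrailingDegree_eq_zero.2 (Or.inr hp)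
    have hd : p.reverse.natDegree = p.natDegree := by rw [reverse_natDegree, ht, Nat.sub_zero]
    ext n
    rw [coeff_reverse, coeff_reverse, hd, revAt_invol]
  have hd : P.reverse.natDegree = P.natDegree := by rw [reverse_natDegree, hlt, Nat.sub_zero]
  have hu : IsUnit (C (P.coeff 0)⁻¹) := isUnit_C.2 (IsUnit.mk0 _ (inv_ne_zero h0))
  refine ⟨?_, ?_, ?_, ?_, ?_, ?_⟩
  · rw [star, Monic, leadingCoeff_mul, leadingCoeff_C, reverse_leadingCoeff, trailingCoeff, hlt,
      inv_mul_cancel₀ h0]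
  · rw [star, mul_comm, ← mul_assoc, ← C_mul, mul_inv_cancel₀ h0, C_1, one_mul]
  · rw [star, natDegree_C_mul (inv_ne_zero h0), hd]
  · rw [star, coeff_C_mul, coeff_zero_reverse, hm.leadingCoeff, mul_one]
  · rw [star, reverse_mul_of_domain, reverse_C, hrr P h0]
  · intro hP
    refine (irreducible_isUnit_mul hu).2 ⟨?_, ?_⟩
    · intro hr
      apply hP.not_isUnit
      rw [isUnit_iff_degree_eq_zero, degree_eq_natDegree hm.ne_zero] at *
      rw [degree_eq_natDegree (by rw [ne_eq, reverse_eq_zero]; exact hm.ne_zero), hd] at hr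
      exact hr
    · intro a b hab
      have h1 : P = a.reverse * b.reverse := by rw [← reverse_mul_of_domain, ← hab, hrr P h0]
      have ha0 : a.coeff 0 ≠ 0 := fun e => by
        have := congrArg (fun p : F[X] => p.coeff 0) hab
        simp only [coeff_zero_reverse, hm.leadingCoeff, mul_coeff_zero, e, zero_mul] at this
        exact one_ne_zero this
      have hb0 : b.coeff 0 ≠ 0 := fun e => by
        have := congrArg (fun p : F[X] => p.coeff 0) hab
        simp only [coeff_zero_reverse, hm.leadingCoeff, mul_coeff_zero, e, mul_zero] at this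
        exact one_ne_zero this
      have aux : ∀ p : F[X], p.coeff 0 ≠ 0 → IsUnit p.reverse → IsUnit p := fun p hp hu => by
        rw [← hrr p hp]
        obtain ⟨c, hc, hce⟩ := Polynomial.isUnit_iff.1 hu
        rw [← hce, reverse_C]
        exact isUnit_C.2 hc
      exact (hP.isUnit_or_isUnit h1).imp (aux a ha0) (aux b hb0)

variable {V : Type*} [AddCommGroup V] [Module F V]

/-- Every isometry of a non-zero space has an atom with non-trivial kernel. -/
theorem exists_atom [Finite F] [FiniteDimensional F V] [Nontrivial V] (g : V ≃ₗ[F] V) :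
    ∃ H : F[X], Recip H ∧ H.natDegree ≠ 0 ∧
      (Lab.IsGenAtom H ∨ ∃ c : F, c * c = 1 ∧ H = X - C c) ∧ kill g H ≠ ⊥ := by
  set E := endo g
  have hint : IsIntegral F E := Algebra.IsIntegral.isIntegral E
  obtain ⟨P, hP, hPm, hPd⟩ : ∃ P : F[X], Irreducible P ∧ P.Monic ∧ P ∣ minpoly F E := by
    obtain ⟨P, hPm, hP, hPd⟩ := exists_monic_irreducible_factor (minpoly F E) (minpoly.not_isUnit F E)
    exact ⟨P, hP, hPm, hPd⟩
  have hker : LinearMap.ker (aeval E P) ≠ ⊥ := by
    intro hb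
    obtain ⟨R, hR⟩ := hPd
    have h0 : aeval E P * aeval E R = 0 := by rw [← map_mul, ← hR, minpoly.aeval]
    have hR0 : aeval E R = 0 := LinearMap.ext fun x =>
      LinearMap.ker_eq_bot.1 hb ((LinearMap.congr_fun h0 x).trans (map_zero _).symm)
    have hRne : R ≠ 0 := fun e => minpoly.ne_zero hint (by rw [hR, e, mul_zero])
    have := minpoly.degree_le_of_ne_zero F E hRne hR0
    rw [hR, degree_mul, degree_eq_natDegree hP.ne_zero, degree_eq_natDegree hRne] at this
    have h1 : P.natDegree + R.natDegree ≤ R.natDegree := by exact_mod_cast this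
    have h2 := hP.natDegree_pos
    omega
  have hP0 : P.coeff 0 ≠ 0 := by
    intro h0
    have hdX : X ∣ P := X_dvd_iff.2 h0
    obtain rfl : X = P := eq_of_monic_of_associated monic_X hPm
      (irreducible_X.associated_of_dvd hP hdX)
    exact hker (by rw [aeval_X]; exact LinearMap.ker_eq_bot.2 g.injective)
  obtain ⟨hSm, hSr, hSd, hS0, hSrev, hSi⟩ := star_spec hPm hP0
  have h1eval : ∀ a : F, a * a = 1 → P.eval a = 0 → P = X - C a := fun a _ ha =>
    (eq_of_monic_of_associated (monic_X_sub_C a) hPm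
      ((irreducible_X_sub_C a).associated_of_dvd hP (dvd_iff_isRoot.2 ha))).symm
  by_cases hs : star P = P
  · have hrec : Recip P := ⟨hPm, hP0, by rw [← hSr, hs, mul_comm]⟩
    refine ⟨P, hrec, hP.natDegree_pos.ne', ?_, hker⟩
    by_cases h1 : P.eval 1 = 0
    · exact Or.inr ⟨1, one_mul 1, h1eval 1 (one_mul 1) h1⟩
    · by_cases h2 : P.eval (-1) = 0
      · exact Or.inr ⟨-1, by ring, h1eval (-1) (by ring) h2⟩
      · exact Or.inl ⟨⟨hP.natDegree_pos.ne', h1, h2⟩, Or.inl hP⟩
  · have hrec : Recip (P * star P) := by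
      refine ⟨hPm.mul hSm, by rw [mul_coeff_zero, hS0]; exact mul_ne_zero hP0 (inv_ne_zero hP0), ?_⟩
      rw [reverse_mul_of_domain, hSrev, mul_coeff_zero, hS0, mul_inv_cancel₀ hP0, C_1, one_mul, ← hSr]
      have hc : C (P.coeff 0) * C (P.coeff 0)⁻¹ = (1 : F[X]) := by rw [← C_mul, mul_inv_cancel₀ hP0, C_1]
      linear_combination (P * star P) * hc
    have hnr : ∀ a : F, a * a = 1 → P.eval a ≠ 0 ∧ (star P).eval a ≠ 0 := by
      intro a ha
      have key : P.eval a ≠ 0 := by
        intro he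
        apply hs
        have hPa := h1eval a ha he
        rw [star, hPa, coeff_sub, coeff_X_zero, coeff_C_zero, zero_sub]
        have hr : (X - C a).reverse = 1 - C a * X := by
          have hx : reflect 1 (X : F[X]) = 1 := by
            simp
          rw [reverse, natDegree_X_sub_C, reflect_sub, hx, reflect_C, pow_one]
        rw [hr, inv_neg, inv_eq_of_mul_eq_one_right ha, map_neg]
        linear_combination (X : F[X]) * (by rw [← C_mul, ha, C_1] : C a * C a = (1 : F[X]))
      refine ⟨key, fun he => key ?_⟩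
      have hi := hSi hP
      have hSa : star P = X - C a := (eq_of_monic_of_associated (monic_X_sub_C a) hSm
        ((irreducible_X_sub_C a).associated_of_dvd hi (dvd_iff_isRoot.2 he))).symm
      let : Invertible a := ⟨a, ha, ha⟩
      have hh := eval₂_reverse_mul_pow (RingHom.id F) a P
      rw [show ⅟a = a from rfl, ← hSr, hSa] at hh
      simp only [eval₂_mul, eval₂_sub, eval₂_X, eval₂_C, RingHom.id_apply, sub_self, zero_mul] at hh
      rw [eval, ← hh]
    refine ⟨P * star P, hrec, ?_, Or.inl ⟨⟨?_, ?_, ?_⟩, Or.inr ⟨P, star P, hPm, hSm, hP, hSi hP,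
      Ne.symm hs, rfl, hSr⟩⟩, ?_⟩
    · rw [hPm.natDegree_mul hSm]; have := hP.natDegree_pos; omega
    · rw [hPm.natDegree_mul hSm]; have := hP.natDegree_pos; omega
    · rw [eval_mul]; exact mul_ne_zero (hnr 1 (one_mul 1)).1 (hnr 1 (one_mul 1)).2
    · rw [eval_mul]; exact mul_ne_zero (hnr (-1) (by ring)).1 (hnr (-1) (by ring)).2
    · refine fun e => hker (le_bot_iff.1 (le_trans ?_ e.le))
      rw [kill, mul_comm, map_mul]
      exact LinearMap.ker_le_ker_comp _ _

end CfsgLib.IsometryClasses
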