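import Cfsg.Agent.IsometryClasses.Atoms

/-!
# Every isometry has a normal form
-/

set_option autoImplicit false
set_option linter.style.haveILetI false

namespace CfsgLib.IsometryClasses

open Polynomial Module

variable {F : Type*} [Field F] {V : Type*} [AddCommGroup V] [Module F V] {ε : F}
  {B : LinearMap.BilinForm F V} {g : V ≃ₗ[F] V} {H : F[X]} {k : ℕ}

theorem IsEps.eq_zero_comm (hE : IsEps ε B g) {x y : V} (h : B x y = 0) : B y x = 0 := by
  rw [hE.symm x y, h, mul_zero]

theorem B_psi_aeval (hE : IsEps ε B g) {f : F[X]} (hf : Recip f) {x : V} (hx : x ∈ kill g f) (z : V)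
    (p : F[X]) (a : AdjoinRoot f) :
    B (psi g hf.monic x a) (aeval (endo g) p z) =
      B (psi g hf.monic x (a * sig hf (AdjoinRoot.mk f p))) z := by
  induction p using Polynomial.induction_on generalizing a with
  | C c =>
    rw [aeval_C, AdjoinRoot.mk_C, ← AdjoinRoot.algebraMap_eq, AlgHom.commutes, Module.algebraMap_end_apply,
      mul_comm, ← Algebra.smul_def, map_smul, map_smul, map_smul]
    rfl
  | add p q hp hq => simp only [map_add, mul_add, LinearMap.add_apply, hp, hq]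
  | monomial n c ih =>
    have hsplit : C c * X ^ (n + 1) = X * (C c * X ^ n) := by ring
    have ha : psi g hf.monic x a = g (psi g hf.monic x (rinv f * a)) := by
      rw [← psi_root hf.monic hx, ← mul_assoc, root_mul_rinv hf.coeff_zero, one_mul]
    rw [hsplit, map_mul (aeval (endo g)) X, aeval_X, Module.End.mul_apply, ha]
    show B (g _) (g _) = _
    rw [hE.iso, ih, map_mul (AdjoinRoot.mk f) X, AdjoinRoot.mk_X, map_mul (sig hf) (AdjoinRoot.root f), sig_root]
    congr 2
    ring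

theorem exists_atomData [FiniteDimensional F V] (hE : IsEps ε B g) (hH : Recip H)
    (hne : kill g H ≠ ⊥) :
    ∃ k, k ≠ 0 ∧ (∃ x ∈ kill g (H ^ k), psi g (hH.pow k).monic x (top H k) ≠ 0) ∧
      ∀ x ∈ kill g (H ^ k), (∀ y ∈ kill g (H ^ k), B x y = 0) → x = 0 := by
  classical
  set f := aeval (endo g) H with hf
  have hkill : ∀ n, kill g (H ^ n) = LinearMap.ker (f ^ n) := fun n => by rw [kill, map_pow]
  have hex : ∃ n, LinearMap.ker (f ^ n) = LinearMap.ker (f ^ (n + 1)) := by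
    obtain ⟨n, -, hn⟩ := Module.End.exists_ker_pow_eq_ker_pow_succ f
    exact ⟨n, hn⟩
  set k := Nat.find hex with hk
  have hkeq : LinearMap.ker (f ^ k) = LinearMap.ker (f ^ (k + 1)) := Nat.find_spec hex
  have hk0 : k ≠ 0 := by
    intro h0
    rw [h0, pow_zero, zero_add, pow_one, Module.End.one_eq_id, LinearMap.ker_id] at hkeq
    exact hne hkeq.symm
  refine ⟨k, hk0, ?_, ?_⟩
  · have hlt : LinearMap.ker (f ^ (k - 1)) ≠ LinearMap.ker (f ^ k) := by
      have h1 := Nat.find_min hex (show k - 1 < k by omega)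
      rwa [show k - 1 + 1 = k by omega] at h1
    by_contra hc
    push Not at hc
    refine hlt (le_antisymm (fun x hx => ?_) fun x hx => ?_)
    · rw [LinearMap.mem_ker] at hx ⊢
      rw [show k = 1 + (k - 1) by omega, pow_add, Module.End.mul_apply, hx, map_zero]
    · have hx' : x ∈ kill g (H ^ k) := (hkill k).symm ▸ hx
      have h1 := hc x hx'
      rw [top, psi_mk _ hx', map_pow] at h1
      exact h1
  · intro x hx h
    refine hE.nondeg x fun y => ?_
    obtain ⟨a, b, ha, hb, rfl⟩ : ∃ a b, a ∈ LinearMap.ker (f ^ k) ∧ b ∈ LinearMap.range (f ^ k) ∧ a + b = y := by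
      have hd : Disjoint (LinearMap.ker (f ^ k)) (LinearMap.range (f ^ k)) := by
        rw [Submodule.disjoint_def]
        rintro z hz ⟨w, rfl⟩
        rw [LinearMap.mem_ker, ← Module.End.mul_apply, ← pow_add] at hz
        have hw : w ∈ LinearMap.ker (f ^ (k + k)) := hz
        rwa [← Module.End.ker_pow_constant hkeq k] at hw
      have hc : IsCompl (LinearMap.ker (f ^ k)) (LinearMap.range (f ^ k)) :=
        ⟨hd, codisjoint_iff.2 (Submodule.eq_top_of_disjoint _ _
          (by rw [add_comm, LinearMap.finrank_range_add_finrank_ker]) hd)⟩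
      have hy : y ∈ LinearMap.ker (f ^ k) ⊔ LinearMap.range (f ^ k) := hc.sup_eq_top ▸ Submodule.mem_top
      obtain ⟨a, ha, b, hb, hab⟩ := Submodule.mem_sup.1 hy
      exact ⟨a, b, ha, hb, hab⟩
    obtain ⟨z, rfl⟩ := hb
    have h1 : B x ((f ^ k) z) = 0 := by
      rw [hf, ← map_pow]
      conv_lhs => rw [← psi_one (hH.pow k).monic hx]
      rw [B_psi_aeval hE (hH.pow k) hx, AdjoinRoot.mk_self, map_zero, mul_zero, map_zero, map_zero,
        LinearMap.zero_apply]
    rw [map_add, h a ((hkill k).symm ▸ ha), h1, add_zero]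

theorem Phi_symm_fun (hE : IsEps ε B g) {f : F[X]} (hf : Recip f) {x : V} (hx : x ∈ kill g f)
    (a : AdjoinRoot f) :
    Phi B g hf.monic x x (sig hf a) = ε * Phi B g hf.monic x x a := Phi_symm hE hf hx hx a

theorem goodFun_Phi (hE : IsEps ε B g) (hH : Recip H) (hA : AtomCond hH) (hk : k ≠ 0) {x : V}
    (hx : x ∈ kill g (H ^ k)) (hne : ∃ b, Phi B g (hH.pow k).monic x x (top H k * b) ≠ 0) :
    GoodFun ε hH k (Phi B g (hH.pow k).monic x x) :=
  ⟨Phi_symm_fun hE _ hx, nd_of_top hH hA hk (Phi_symm_fun hE _ hx) hne⟩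

theorem eq_zero_of_polar (hE : IsEps ε B g) (hH : Recip H)
    (hnd : ∀ x ∈ kill g (H ^ k), (∀ y ∈ kill g (H ^ k), B x y = 0) → x = 0) {a : AdjoinRoot (H ^ k)}
    (h : ∀ x ∈ kill g (H ^ k), Phi B g (hH.pow k).monic x x a = 0) {x : V} (hx : x ∈ kill g (H ^ k)) :
    psi g (hH.pow k).monic x (a + ε • sig (hH.pow k) a) = 0 := by
  refine hnd _ (psi_mem _ hx _) fun y hy => ?_
  rw [← Phi_apply (B := B), map_add, map_smul, smul_eq_mul, ← Phi_symm hE (hH.pow k) hx hy (sig _ a), sig_sig]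
  have := h (x + y) (add_mem hx hy)
  rw [Phi_add_left, Phi_add_right, Phi_add_right, h x hx, h y hy, zero_add, add_zero] at this
  exact this

theorem exists_good_gen (hE : IsEps ε B g) (hH : Recip H) (hat : Lab.IsGenAtom H) (hk : k ≠ 0)
    (hne : ∃ x ∈ kill g (H ^ k), psi g (hH.pow k).monic x (top H k) ≠ 0)
    (hnd : ∀ x ∈ kill g (H ^ k), (∀ y ∈ kill g (H ^ k), B x y = 0) → x = 0) :
    ∃ x ∈ kill g (H ^ k), GoodFun ε hH k (Phi B g (hH.pow k).monic x x) := by
  obtain ⟨x0, hx0, hx0'⟩ := hne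
  by_contra hc
  push Not at hc
  set hf := hH.pow k
  set σ := sig hf with hσ
  have h0 : ∀ b, ∀ x ∈ kill g (H ^ k), Phi B g hf.monic x x (top H k * b) = 0 := fun b x hx => by
    by_contra hb
    exact hc x hx (goodFun_Phi hE hH (atomCond_of_isGenAtom hH hat) hk hx ⟨b, hb⟩)
  obtain ⟨w, hw, hwt⟩ := sig_pow hf hH (k - 1)
  have hu : IsUnit (AdjoinRoot.root (H ^ k) - rinv (H ^ k)) := by
    refine isUnit_of_red hk ?_
    rw [map_sub, ← AdjoinRoot.mk_X, red_mk, AdjoinRoot.mk_X]
    have h1 := congrArg (red H k hk) (sig_root hf)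
    rw [red_sig hH, ← AdjoinRoot.mk_X, red_mk, AdjoinRoot.mk_X, sig_root] at h1
    rw [← h1]
    exact isUnit_root_sub_rinv hat hH
  have e1 := eq_zero_of_polar hE hH hnd (h0 1) hx0
  have e2 := eq_zero_of_polar hE hH hnd (h0 (AdjoinRoot.root _)) hx0
  obtain ⟨u, hu'⟩ := hu.exists_left_inv
  apply hx0'
  have key : top H k = u * (AdjoinRoot.root _ * 0 + (top H k * AdjoinRoot.root _ +
      ε • σ (top H k * AdjoinRoot.root _)) - rinv _ * (top H k * 1 + ε • σ (top H k * 1))) := by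
    rw [map_mul, map_mul, map_one, hσ, sig_root, Algebra.smul_def, Algebra.smul_def]
    linear_combination (-(top H k)) * hu'
  rw [key, mul_zero, zero_add, mul_sub, map_sub, ← psi_psi hf.monic hx0, e2, ← mul_assoc,
    ← psi_psi hf.monic hx0, e1, map_zero]
  simp

theorem exists_pair_ne (hE : IsEps ε B g) (hH : Recip H)
    (hne : ∃ x ∈ kill g (H ^ k), psi g (hH.pow k).monic x (top H k) ≠ 0)
    (hnd : ∀ x ∈ kill g (H ^ k), (∀ y ∈ kill g (H ^ k), B x y = 0) → x = 0) :
    ∃ x ∈ kill g (H ^ k), ∃ y ∈ kill g (H ^ k), Phi B g (hH.pow k).monic x y (top H k) ≠ 0 := by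
  obtain ⟨x, hx, hx'⟩ := hne
  by_contra hc
  push Not at hc
  exact hx' (hnd _ (psi_mem _ hx _) fun y hy => hc x hx y hy)

theorem exists_diag_ne (hE : IsEps ε B g) (h2 : (2 : F) ≠ 0) {c : F} (hc : c * c = 1)
    (hH : Recip (X - C c)) (hk : k ≠ 0) (hεs : ε = (-1) ^ (k - 1))
    (hne : ∃ x ∈ kill g ((X - C c) ^ k), psi g (hH.pow k).monic x (top (X - C c) k) ≠ 0)
    (hnd : ∀ x ∈ kill g ((X - C c) ^ k), (∀ y ∈ kill g ((X - C c) ^ k), B x y = 0) → x = 0) :
    ∃ x ∈ kill g ((X - C c) ^ k), Phi B g (hH.pow k).monic x x (top (X - C c) k) ≠ 0 := by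
  obtain ⟨x0, hx0, hx0'⟩ := hne
  by_contra hcon
  push Not at hcon
  have h := eq_zero_of_polar hE hH hnd hcon hx0
  rw [sig_top_linear hc hH hk, smul_smul, ← hεs] at h
  have hee : ε * ε = 1 := by rw [hεs, ← mul_pow, neg_one_mul, neg_neg, one_pow]
  rw [hee, one_smul, map_add, ← two_smul F (psi g (hH.pow k).monic x0 (top (X - C c) k)),
    smul_eq_zero] at h
  exact hx0' (h.resolve_left h2)

theorem top_linear_scalar {c : F} (hk : k ≠ 0) (b : AdjoinRoot ((X - C c) ^ k)) :
    ∃ t : F, top (X - C c) k * b = t • top (X - C c) k := by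
  obtain ⟨t, ht⟩ := exists_red_scalar hk b
  have h0 := top_mul hk (show red (X - C c) k hk (b - algebraMap F _ t) = 0 by
    rw [map_sub, ht, AlgHom.commutes, sub_self])
  rw [mul_sub, sub_eq_zero] at h0
  exact ⟨t, by rw [h0, Algebra.smul_def, mul_comm]⟩

/-- Values of the sign forms of single generators of type `l` in the whole space. -/
def HasValue (B : LinearMap.BilinForm F V) (g : V ≃ₗ[F] V) (l : Lab F) (hm : l.modulus.Monic) (t : F) :
    Prop :=
  ∃ x ∈ kill g l.modulus, Phi B g hm x x (top l.H l.k) = t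

/-- The choice of one piece. -/
theorem exists_piece [Finite F] [FiniteDimensional F V] [Nontrivial V] (h2 : (2 : F) ≠ 0)
    (hε : ε * ε = 1) (hE : IsEps ε B g) :
    ∃ (l : Lab F) (hl : l.Valid ε) (xs : Fin l.gens → V), (∀ j, xs j ∈ kill g l.modulus) ∧
      (∀ i j, Phi B g hl.monic (xs i) (xs j) = l.gram ε i j) ∧
      (l.dbl = false → l.SingleP ε (l.single ε)) ∧
      (l.sq = false → ∀ t, HasValue B g l hl.monic t → t = 0 ∨ ¬ IsSquare t) := by
  have hε0 : ε ≠ 0 := fun h => by rw [h, mul_zero] at hε; exact zero_ne_one hε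
  obtain ⟨H, hH, hdeg, hkind, hne⟩ := exists_atom g
  obtain ⟨k, hk, hne', hnd⟩ := exists_atomData hE hH hne
  rcases hkind with hat | ⟨c, hc, rfl⟩
  · obtain ⟨x, hx, hgood⟩ := exists_good_gen hE hH hat hk hne' hnd
    let l : Lab F := ⟨k, H, false, true⟩
    have hl : l.Valid ε := ⟨hk, hH, hdeg, Or.inl ⟨hat, rfl, rfl⟩⟩
    have hlin : ∀ c : F, H = X - C c → c ≠ 1 ∧ c ≠ -1 := fun c e =>
      ⟨fun e1 => hat.1.2.1 (by rw [e, e1]; simp), fun e1 => hat.1.2.2 (by rw [e, e1]; simp)⟩
    have hvac : ∀ c : F, H = X - C c → False := fun c e => by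
      have h3 := hH.coeff_zero_sq
      rw [e, coeff_sub, coeff_X_zero, coeff_C_zero, zero_sub, neg_mul_neg] at h3
      rcases mul_self_eq_one_iff.1 h3 with h4 | h4
      · exact (hlin c e).1 h4
      · exact (hlin c e).2 h4
    have hP : l.SingleP ε (Phi B g hl.monic x x) := ⟨fun _ => hgood, fun c e => (hvac c e).elim⟩
    have hS : l.SingleP ε (l.single ε) := Classical.epsilon_spec ⟨_, hP⟩
    obtain ⟨b, -, hb⟩ := exists_scale_gen h2 hε0 hH hdeg (normSurj_of_isGenAtom hH hat) hk hgood (hS.1 hH)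
    refine ⟨l, hl, fun _ => psi g hl.monic x b, fun _ => psi_mem _ hx _, fun i j => ?_, fun _ => hS,
      fun h => absurd h (by simp [l])⟩
    refine LinearMap.ext fun a => ?_
    rw [Phi_psi hE (hH.pow k) hx hx, ← hb]
    simp [Lab.gram, l]
  · have hs : ε = (-1) ^ (k - 1) ∨ ε * (-1) ^ (k - 1) = -1 := by
      rcases neg_one_pow_eq_or F (k - 1) with h | h <;> rw [h] <;>
        rcases mul_self_eq_one_iff.1 hε with h' | h' <;> rw [h'] <;> simp
    rcases hs with hεs | hεs
    · obtain ⟨x1, hx1, hx1'⟩ := exists_diag_ne hE h2 hc hH hk hεs hne' hnd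
      classical
      obtain ⟨x, hx, hx0, s, hsq, hs⟩ : ∃ x ∈ kill g ((X - C c) ^ k),
          Phi B g (hH.pow k).monic x x (top (X - C c) k) ≠ 0 ∧ ∃ s : Bool,
            (IsSquare (Phi B g (hH.pow k).monic x x (top (X - C c) k)) ↔ s = true) ∧
            (s = false → ∀ t, HasValue B g ⟨k, X - C c, false, s⟩ (hH.pow k).monic t →
              t = 0 ∨ ¬ IsSquare t) := by
        by_cases h : ∃ x ∈ kill g ((X - C c) ^ k), Phi B g (hH.pow k).monic x x (top (X - C c) k) ≠ 0 ∧
            IsSquare (Phi B g (hH.pow k).monic x x (top (X - C c) k))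
        · obtain ⟨x, hx, h0, hq⟩ := h
          exact ⟨x, hx, h0, true, iff_of_true hq rfl, fun e => absurd e (by simp)⟩
        · push Not at h
          refine ⟨x1, hx1, hx1', false, iff_of_false (h x1 hx1 hx1') (by simp), ?_⟩
          rintro - t ⟨x, hx, rfl⟩
          by_cases h0 : Phi B g (hH.pow k).monic x x (top (X - C c) k) = 0
          · exact Or.inl h0
          · exact Or.inr (h x hx h0)
      let l : Lab F := ⟨k, X - C c, false, s⟩
      have hl : l.Valid ε := ⟨hk, hH, hdeg, Or.inr ⟨c, hc, rfl, Or.inl ⟨rfl, hεs⟩⟩⟩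
      have hgood : GoodFun ε hH k (Phi B g (hH.pow k).monic x x) :=
        goodFun_Phi hE hH (atomCond_linear hH) hk hx ⟨1, by rwa [mul_one]⟩
      have hP : l.SingleP ε (Phi B g hl.monic x x) := ⟨fun _ => hgood, fun _ _ => hsq⟩
      have hS : l.SingleP ε (l.single ε) := Classical.epsilon_spec ⟨_, hP⟩
      obtain ⟨b, -, hb⟩ := exists_scale_linear h2 hε0 hH hk hgood (hS.1 hH)
        (hsq.trans (hS.2 c rfl).symm)
      refine ⟨l, hl, fun _ => psi g hl.monic x b, fun _ => psi_mem _ hx _, fun i j => ?_, fun _ => hS, hs⟩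
      refine LinearMap.ext fun a => ?_
      rw [Phi_psi hE (hH.pow k) hx hx, ← hb]
      simp [Lab.gram, l]
    · obtain ⟨x, hx, y, hy, hxy⟩ := exists_pair_ne hE hH hne' hnd
      let l : Lab F := ⟨k, X - C c, true, true⟩
      have hl : l.Valid ε := ⟨hk, hH, hdeg, Or.inr ⟨c, hc, rfl, Or.inr ⟨rfl, rfl, hεs⟩⟩⟩
      obtain ⟨δ, hδ⟩ := exists_isPairFun (k := k) h2 hc hH hk
      have hPair : l.PairP l.pair := Classical.epsilon_spec (p := l.PairP) ⟨δ, fun _ => hδ.1, hδ.2⟩
      obtain ⟨x', hx', y', hy', h00, h11, h01, h10⟩ :=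
        exists_hyperbolic h2 hE hH hk hεs (δ := l.pair) ⟨hPair.1 hH, hPair.2⟩ hx hy hxy
      refine ⟨l, hl, fun j => if (j : ℕ) = 0 then x' else y',
        fun j => by show ite _ _ _ ∈ _; split_ifs <;> assumption, fun i j => ?_,
        fun h => absurd h (by simp [l]), fun h => absurd h (by simp [l])⟩
      have h01' : Phi B g (hH.pow k).monic x' y' = l.pair := LinearMap.ext h01
      have h10' : Phi B g (hH.pow k).monic y' x' = -l.pair := LinearMap.ext h10
      have hi : (i : ℕ) < 2 := i.2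
      have hj : (j : ℕ) < 2 := j.2
      rw [Lab.gram, if_pos (show l.dbl = true from rfl)]
      dsimp only
      by_cases i0 : (i : ℕ) = 0 <;> by_cases j0 : (j : ℕ) = 0
      · rw [if_pos i0, if_pos j0, if_pos (i0.trans j0.symm)]; exact h00
      · rw [if_pos i0, if_neg j0, if_neg (by omega), if_pos i0]; exact h01'
      · rw [if_neg i0, if_pos j0, if_neg (by omega), if_neg i0]; exact h10'
      · rw [if_neg i0, if_neg j0, if_pos (by omega)]; exact h11

end CfsgLib.IsometryClasses
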