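import Cfsg.Agent.IsometryClasses.Quot

/-!
# Counting self-reciprocal polynomials
-/

set_option autoImplicit false
set_option linter.style.haveILetI false

namespace CfsgLib.IsometryClasses

open Polynomial

variable {F : Type*} [Field F]

/-- Self-reciprocal polynomials of given degree and constant term. -/
def recipSet (F : Type*) [Field F] (d : ℕ) (c : F) : Set F[X] :=
  {g | Recip g ∧ g.natDegree = d ∧ g.coeff 0 = c}

/-- Self-reciprocal polynomials of given degree. -/
def recipDeg (F : Type*) [Field F] (d : ℕ) : Set F[X] := {g | Recip g ∧ g.natDegree = d}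

theorem Recip.coeff_rev {g : F[X]} (hg : Recip g) {i : ℕ} (hi : i ≤ g.natDegree) :
    g.coeff (g.natDegree - i) = g.coeff 0 * g.coeff i := by
  have h := congrArg (fun p : F[X] => p.coeff i) hg.rev
  simp only [coeff_reverse, coeff_C_mul, revAt_le hi] at h
  exact h

theorem finite_deg_le [Finite F] (d : ℕ) : {g : F[X] | g.natDegree ≤ d}.Finite := by
  have : {g : F[X] | g.natDegree ≤ d} ⊆ (fun f : Fin (d + 1) → F => ∑ i : Fin (d + 1), monomial (i : ℕ) (f i)) '' Set.univ := by
    intro g hg
    refine ⟨fun i => g.coeff i, trivial, ?_⟩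
    conv_rhs => rw [g.as_sum_range' (d + 1) (by simp only [Set.mem_setOf_eq] at hg; omega)]
    exact (Finset.sum_range (fun i => monomial i (g.coeff i))).symm
  exact (Set.finite_univ.image _).subset this

theorem finite_recipDeg [Finite F] (d : ℕ) : (recipDeg F d).Finite :=
  (finite_deg_le d).subset fun _ hg => hg.2.le

theorem ncard_recipSet_le [Fintype F] (h2 : (2 : F) ≠ 0) (d e : ℕ) (c : F)
    (h : ∀ i, 0 < i → i < d → i ≤ e ∨ d - i ≤ e ∨ (2 * i = d ∧ c = -1)) :
    (recipSet F d c).ncard ≤ Fintype.card F ^ e := by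
  have hcard : (Set.univ : Set (Fin e → F)).ncard = Fintype.card F ^ e := by
    rw [Set.ncard_univ, Nat.card_eq_fintype_card, Fintype.card_fun, Fintype.card_fin]
  rw [← hcard]
  refine Set.ncard_le_ncard_of_injOn (fun g => fun i : Fin e => g.coeff (i + 1)) (fun _ _ => trivial) ?_
    Set.finite_univ
  rintro g ⟨hg, hgd, hgc⟩ g' ⟨hg', hgd', hgc'⟩ he
  have hsmall : ∀ i, i ≤ e → g.coeff i = g'.coeff i := fun i hi => by
    rcases i with _ | i
    · rw [hgc, hgc']
    · exact congrFun he ⟨i, hi⟩
  ext i
  rcases lt_trichotomy i d with hi | hi | hi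
  · rcases Nat.eq_zero_or_pos i with rfl | hi0
    · exact hsmall 0 (Nat.zero_le _)
    · rcases h i hi0 hi with h1 | h1 | ⟨h1, hc⟩
      · exact hsmall i h1
      · have e1 := hg.coeff_rev (i := d - i) (by omega)
        have e2 := hg'.coeff_rev (i := d - i) (by omega)
        rw [hgd, show d - (d - i) = i by omega, hsmall _ h1, hgc] at e1
        rw [hgd', show d - (d - i) = i by omega, hgc'] at e2
        rw [e1, e2]
      · have zero : ∀ p : F[X], Recip p → p.natDegree = d → p.coeff 0 = c → p.coeff i = 0 := by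
          intro p hp hpd hpc
          have e1 := hp.coeff_rev (i := i) (by omega)
          rw [hpd, show d - i = i by omega, hpc, hc] at e1
          have : (2 : F) * p.coeff i = 0 := by linear_combination e1
          exact (mul_eq_zero.1 this).resolve_left h2
        rw [zero g hg hgd hgc, zero g' hg' hgd' hgc']
  · subst hi
    have e1 := hg.monic.coeff_natDegree
    have e2 := hg'.monic.coeff_natDegree
    rw [hgd] at e1
    rw [hgd'] at e2
    rw [e1, e2]
  · rw [coeff_eq_zero_of_natDegree_lt (by omega), coeff_eq_zero_of_natDegree_lt (by omega)]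

/-- The coefficients of `1 / (1 - q s ^ 2)`. -/
def evenPow (q d : ℕ) : ℕ := if Even d then q ^ (d / 2) else 0

/-- The same, shifted. -/
def evenPowShift (q j d : ℕ) : ℕ := if j ≤ d then evenPow q (d - j) else 0

/-- The coefficients of `(1 + s) ^ 2 / (1 - q s ^ 2)`. -/
def recipBound (q d : ℕ) : ℕ := evenPowShift q 0 d + 2 * evenPowShift q 1 d + evenPowShift q 2 d

theorem recipDeg_eq (d : ℕ) : recipDeg F d = recipSet F d 1 ∪ recipSet F d (-1) := by
  ext g
  constructor
  · rintro ⟨hg, hd⟩
    rcases mul_self_eq_one_iff.1 hg.coeff_zero_sq with h | h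
    exacts [Or.inl ⟨hg, hd, h⟩, Or.inr ⟨hg, hd, h⟩]
  · rintro (⟨hg, hd, -⟩ | ⟨hg, hd, -⟩) <;> exact ⟨hg, hd⟩

theorem ncard_recipDeg_le [Fintype F] (h2 : (2 : F) ≠ 0) (d : ℕ) :
    (recipDeg F d).ncard ≤ recipBound (Fintype.card F) d := by
  set q := Fintype.card F
  rcases Nat.even_or_odd' d with ⟨e, rfl | rfl⟩
  · rcases e with _ | e
    · refine le_trans (Set.ncard_le_one_iff_subset_singleton (finite_recipDeg 0) |>.2 ⟨1, ?_⟩) ?_
      · intro g hg
        exact eq_one_of_monic_natDegree_zero hg.1.monic hg.2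
      · simp [recipBound, evenPowShift, evenPow]
    · refine (Set.ncard_le_ncard (recipDeg_eq _).le ?_).trans ((Set.ncard_union_le _ _).trans ?_)
      · exact ((finite_recipDeg _).subset (fun g hg => ⟨hg.1, hg.2.1⟩)).union
          ((finite_recipDeg _).subset (fun g hg => ⟨hg.1, hg.2.1⟩))
      · have h1 := ncard_recipSet_le (F := F) h2 (2 * (e + 1)) (e + 1) 1 (fun i _ _ => by omega)
        have h3 := ncard_recipSet_le (F := F) h2 (2 * (e + 1)) e (-1) (fun i hi hi' => by
          by_cases h : 2 * i = 2 * (e + 1)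
          · exact Or.inr (Or.inr ⟨h, rfl⟩)
          · omega)
        have e1 : evenPowShift q 0 (2 * (e + 1)) = q ^ (e + 1) := by
          simp [evenPowShift, evenPow]
        have e2 : evenPowShift q 2 (2 * (e + 1)) = q ^ e := by
          rw [evenPowShift, if_pos (by omega), evenPow, show 2 * (e + 1) - 2 = 2 * e by omega]
          simp
        rw [recipBound, e1, e2]
        rw [show Fintype.card F = q from rfl] at h1 h3
        omega
  · refine (Set.ncard_le_ncard (recipDeg_eq _).le ?_).trans ((Set.ncard_union_le _ _).trans ?_)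
    · exact ((finite_recipDeg _).subset (fun g hg => ⟨hg.1, hg.2.1⟩)).union
        ((finite_recipDeg _).subset (fun g hg => ⟨hg.1, hg.2.1⟩))
    · have h1 := ncard_recipSet_le (F := F) h2 (2 * e + 1) e 1 (fun i _ _ => by omega)
      have h3 := ncard_recipSet_le (F := F) h2 (2 * e + 1) e (-1) (fun i _ _ => by omega)
      have e1 : evenPowShift q 1 (2 * e + 1) = q ^ e := by
        simp [evenPowShift, evenPow]
      rw [recipBound, e1]
      rw [show Fintype.card F = q from rfl] at h1 h3
      omega

theorem Recip.of_mul {a b : F[X]} (ha : Recip a) (hab : Recip (a * b)) : Recip b := by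
  have hbm : b.Monic := ha.monic.of_mul_monic_left hab.monic
  have h := hab.rev
  rw [reverse_mul_of_domain, ha.rev, mul_coeff_zero, C_mul] at h
  refine ⟨hbm, fun h0 => hab.coeff_zero (by rw [mul_coeff_zero, h0, mul_zero]), ?_⟩
  refine mul_left_cancel₀ (mul_ne_zero (C_ne_zero.2 ha.coeff_zero) ha.ne_zero) ?_
  linear_combination h

end CfsgLib.IsometryClasses
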