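import Cfsg.Agent.IsometryClasses.Atoms
import Cfsg.Agent.IsometryClasses.RecipCount

/-!
# Sets of labels of one level
-/

set_option autoImplicit false
set_option linter.style.haveILetI false

namespace CfsgLib.IsometryClasses

open Polynomial

variable {F : Type*} [Field F] {ε : F}

open scoped Classical

/-- The weight of a label. -/
noncomputable def Lab.wt (l : Lab F) : ℕ := l.k * l.level.natDegree

/-- The multisets of labels which occur. -/
def LabOK (ε : F) (L : Multiset (Lab F)) : Prop :=
  ∀ l ∈ L, l.Valid ε ∧ (l.sq = false → L.count l = 1)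

/-- The number of times an irreducible polynomial divides. -/
noncomputable def mult (P g : F[X]) : ℕ := (UniqueFactorizationMonoid.normalizedFactors g).count P

theorem mult_mul {P a b : F[X]} (ha : a ≠ 0) (hb : b ≠ 0) : mult P (a * b) = mult P a + mult P b := by
  rw [mult, UniqueFactorizationMonoid.normalizedFactors_mul ha hb, Multiset.count_add]; rfl

theorem mult_pow {P a : F[X]} (n : ℕ) : mult P (a ^ n) = n * mult P a := by
  rw [mult, UniqueFactorizationMonoid.normalizedFactors_pow, Multiset.count_nsmul]; rfl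

theorem mult_prod {P : F[X]} {ι : Type*} (f : ι → F[X]) (hf : ∀ i, f i ≠ 0) (L : Multiset ι) :
    mult P (L.map f).prod = (L.map fun i => mult P (f i)).sum := by
  induction L using Multiset.induction_on with
  | empty => simp [mult]
  | cons a L ih =>
    rw [Multiset.map_cons, Multiset.prod_cons, mult_mul (hf a) (Multiset.prod_ne_zero (by simp [hf])), ih,
      Multiset.map_cons, Multiset.sum_cons]

theorem mult_pos {P g : F[X]} (hP : Irreducible P) (hPm : P.Monic) (hg : g ≠ 0) (h : P ∣ g) :
    0 < mult P g := by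
  rw [mult, Multiset.count_pos, UniqueFactorizationMonoid.mem_normalizedFactors_iff' hg]
  exact ⟨hP, hPm.normalize_eq_self, h⟩

theorem mult_eq_zero {P g : F[X]} (h : ¬ P ∣ g) : mult P g = 0 :=
  Multiset.count_eq_zero.2 fun hm => h (UniqueFactorizationMonoid.dvd_of_mem_normalizedFactors hm)

theorem star_eq_self {P : F[X]} (hP : Recip P) : star P = P := by
  rw [star, hP.rev, ← mul_assoc, ← C_mul, inv_mul_cancel₀ hP.coeff_zero, C_1, one_mul]

theorem star_eq_of {P Q : F[X]} (hP : P.coeff 0 ≠ 0) (h : Q * C (P.coeff 0) = P.reverse) : star P = Q := by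
  rw [star, ← h, mul_comm, mul_assoc, ← C_mul, mul_inv_cancel₀ hP, C_1, mul_one]

theorem star_star {P : F[X]} (hm : P.Monic) (h0 : P.coeff 0 ≠ 0) : star (star P) = P := by
  obtain ⟨-, -, -, h4, h5, -⟩ := star_spec hm h0
  rw [star, h4, h5, ← mul_assoc, ← C_mul, inv_inv, mul_inv_cancel₀ h0, C_1, one_mul]

/-- A monic irreducible divisor determines the atom. -/
theorem atom_eq_of_dvd {H H' P : F[X]} (hH : Recip H) (hH' : Recip H')
    (hk : Lab.IsGenAtom H ∨ ∃ c : F, c * c = 1 ∧ H = X - C c)
    (hk' : Lab.IsGenAtom H' ∨ ∃ c : F, c * c = 1 ∧ H' = X - C c)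
    (hP : Irreducible P) (hPm : P.Monic) (hd : P ∣ H) (hd' : P ∣ H') : H = H' := by
  have lin : ∀ (A : F[X]) (c : F), A.Monic → Irreducible A → P ∣ A → A = P := fun A _ hA hAi h =>
    (eq_of_monic_of_associated hPm hA (hP.associated_of_dvd hAi h)).symm
  have key : ∀ K : F[X], Recip K → (Lab.IsGenAtom K ∨ ∃ c : F, c * c = 1 ∧ K = X - C c) → P ∣ K →
      (K = P ∧ star P = P) ∨ (K = P * star P ∧ star P ≠ P) := by
    intro K hK hKk hPK
    have irr : Irreducible K → (K = P ∧ star P = P) := fun hi => by
      have e := lin K 0 hK.monic hi hPK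
      exact ⟨e, e ▸ star_eq_self hK⟩
    rcases hKk with hg | ⟨c, -, rfl⟩
    swap
    · exact Or.inl (irr (irreducible_X_sub_C c))
    rcases hg.2 with hi | ⟨A, B, hAm, hBm, hA, hB, hne, rfl, hAB⟩
    · exact Or.inl (irr hi)
    have hA0 := coeff_zero_left hK
    have hs := star_eq_of hA0 hAB
    rcases hP.prime.dvd_or_dvd hPK with h | h
    · obtain rfl := lin A 0 hAm hA h
      exact Or.inr ⟨by rw [hs], hs ▸ hne.symm⟩
    · obtain rfl := lin B 0 hBm hB h
      have hss : star B = A := by rw [← hs, star_star hAm hA0]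
      exact Or.inr ⟨by rw [hss, mul_comm], hss ▸ hne⟩
  rcases key H hH hk hd with ⟨e, hs⟩ | ⟨e, hs⟩ <;> rcases key H' hH' hk' hd' with ⟨e', hs'⟩ | ⟨e', hs'⟩
  · rw [e, e']
  · exact absurd hs hs'
  · exact absurd hs' hs
  · rw [e, e']

theorem Lab.Valid.kind' {l : Lab F} (h : l.Valid ε) :
    Lab.IsGenAtom l.H ∨ ∃ c : F, c * c = 1 ∧ l.H = X - C c := by
  rcases h.kind with ⟨h1, -⟩ | ⟨c, h1, h2, -⟩
  exacts [Or.inl h1, Or.inr ⟨c, h1, h2⟩]

theorem isGenAtom_not_linear {H : F[X]} (h : Lab.IsGenAtom H) {c : F} (hc : c * c = 1) : H ≠ X - C c := by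
  rintro rfl
  rcases mul_self_eq_one_iff.1 hc with rfl | rfl
  · exact h.1.2.1 (by simp)
  · exact h.1.2.2 (by simp)

theorem Lab.Valid.dbl_eq {l l' : Lab F} (h2 : (2 : F) ≠ 0) (h : l.Valid ε) (h' : l'.Valid ε) (hk : l.k = l'.k) (hH : l.H = l'.H) :
    l.dbl = l'.dbl := by
  have h11 : (1 : F) ≠ -1 := fun e => h2 (by linear_combination e)
  have hss : ∀ n : ℕ, ((-1 : F) ^ n) * (-1) ^ n = 1 := fun n => by rw [← mul_pow, neg_one_mul, neg_neg, one_pow]
  rcases h.kind with ⟨hg, hd, -⟩ | ⟨c, hc, hl, hcase⟩
  · rcases h'.kind with ⟨-, hd', -⟩ | ⟨c, hc, hl, -⟩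
    · rw [hd, hd']
    · exact absurd (hH.trans hl) (isGenAtom_not_linear hg hc)
  · rcases h'.kind with ⟨hg, -⟩ | ⟨c', -, -, hcase'⟩
    · exact absurd (hH.symm.trans hl) (isGenAtom_not_linear hg hc)
    · rw [hk] at hcase
      rcases hcase with ⟨hd, he⟩ | ⟨hd, -, he⟩ <;> rcases hcase' with ⟨hd', he'⟩ | ⟨hd', -, he'⟩
      · rw [hd, hd']
      · rw [he, hss] at he'; exact absurd he' h11
      · rw [he', hss] at he; exact absurd he h11
      · rw [hd, hd']

/-- The level polynomial of a multiset of labels. -/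
noncomputable def levelPoly (L : Multiset (Lab F)) : F[X] := (L.map Lab.level).prod

/-- Whether the non-square single generator with eigenvalue `c` occurs. -/
noncomputable def hasMinus (k : ℕ) (c : F) (L : Multiset (Lab F)) : Bool :=
  decide ((⟨k, X - C c, false, false⟩ : Lab F) ∈ L)

theorem level_injective (h2 : (2 : F) ≠ 0) {k : ℕ} {L L' : Multiset (Lab F)} (hL : LabOK ε L)
    (hL' : LabOK ε L') (hkL : ∀ l ∈ L, l.k = k) (hkL' : ∀ l ∈ L', l.k = k)
    (hg : levelPoly L = levelPoly L') (hp : hasMinus k 1 L = hasMinus k 1 L')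
    (hm : hasMinus k (-1) L = hasMinus k (-1) L') : L = L' := by
  have hneg : ∀ l : Lab F, l.sq = false → L.count l = L'.count l := by
    intro l hl
    have hin : l ∈ L ↔ l ∈ L' := by
      have aux : ∀ (M : Multiset (Lab F)), LabOK ε M → (∀ l ∈ M, l.k = k) → l ∈ M →
          l = ⟨k, X - C 1, false, false⟩ ∨ l = ⟨k, X - C (-1), false, false⟩ := by
        intro M hM hkM hlM
        obtain ⟨kk, H, d, s⟩ := l
        simp only at hl
        subst hl
        have hkk := hkM _ hlM
        simp only at hkk
        subst hkk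
        rcases (hM _ hlM).1.kind with ⟨-, -, h⟩ | ⟨c, hc, hH, ⟨hd, -⟩ | ⟨-, h, -⟩⟩
        · exact absurd h (by simp)
        · simp only at hH hd
          subst hH hd
          rcases mul_self_eq_one_iff.1 hc with rfl | rfl
          exacts [Or.inl rfl, Or.inr rfl]
        · exact absurd h (by simp)
      simp only [hasMinus, decide_eq_decide] at hp hm
      constructor
      · intro h
        rcases aux L hL hkL h with rfl | rfl
        exacts [hp.1 h, hm.1 h]
      · intro h
        rcases aux L' hL' hkL' h with rfl | rfl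
        exacts [hp.2 h, hm.2 h]
    by_cases h : l ∈ L
    · rw [(hL l h).2 hl, (hL' l (hin.1 h)).2 hl]
    · rw [Multiset.count_eq_zero.2 h, Multiset.count_eq_zero.2 fun h' => h (hin.2 h')]
  refine Multiset.ext.2 fun l => ?_
  by_cases hs : l.sq = false
  · exact hneg l hs
  by_cases hmem : l ∈ L ∨ l ∈ L'
  swap
  · push Not at hmem
    rw [Multiset.count_eq_zero.2 hmem.1, Multiset.count_eq_zero.2 hmem.2]
  have hv : l.Valid ε ∧ l.k = k := hmem.elim (fun h => ⟨(hL l h).1, hkL l h⟩) fun h => ⟨(hL' l h).1, hkL' l h⟩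
  obtain ⟨P, hPm, hP, hPd⟩ := exists_monic_irreducible_factor l.H
    (fun hu => hv.1.deg (natDegree_eq_zero_of_isUnit hu))
  have hpos : 0 < mult P l.level := mult_pos hP hPm (pow_ne_zero _ hv.1.recip.ne_zero)
    (hPd.trans (dvd_pow_self _ (by rw [Lab.gens]; split_ifs <;> omega)))
  set m : Lab F := ⟨l.k, l.H, l.dbl, false⟩ with hmdef
  have hsum : ∀ M : Multiset (Lab F), LabOK ε M → (∀ l ∈ M, l.k = k) →
      mult P (levelPoly M) = mult P l.level * (M.count l + M.count m) := by
    intro M hM hkM
    have hne : ∀ x ∈ M, x.level ≠ 0 := fun x hx => pow_ne_zero _ (hM x hx).1.recip.ne_zero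
    have hmp : mult P (levelPoly M) = (M.map fun x => mult P x.level).sum := by
      clear hM hkM
      induction M using Multiset.induction_on with
      | empty => simp [levelPoly, mult]
      | cons a M ih =>
        rw [levelPoly, Multiset.map_cons, Multiset.prod_cons,
          mult_mul (hne a (Multiset.mem_cons_self _ _)) (Multiset.prod_ne_zero (by
            simp only [Multiset.mem_map, not_exists, not_and]
            exact fun x hx => hne x (Multiset.mem_cons_of_mem hx))),
          Multiset.map_cons, Multiset.sum_cons]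
        exact congrArg _ (ih fun x hx => hne x (Multiset.mem_cons_of_mem hx))
    have hterm : ∀ x ∈ M, mult P x.level =
        mult P l.level * (if x = l then 1 else 0) + mult P l.level * (if x = m then 1 else 0) := by
      intro x hx
      by_cases hxH : P ∣ x.H
      · have hH : x.H = l.H :=
          atom_eq_of_dvd (hM x hx).1.recip hv.1.recip (hM x hx).1.kind' hv.1.kind' hP hPm hxH hPd
        have hk : x.k = l.k := (hkM x hx).trans hv.2.symm
        have hd : x.dbl = l.dbl := (hM x hx).1.dbl_eq h2 hv.1 hk hH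
        have hlev : x.level = l.level := by rw [Lab.level, Lab.level, Lab.gens, Lab.gens, hd, hH]
        have hlm : l ≠ m := fun e => hs (by rw [e])
        rcases Bool.eq_false_or_eq_true x.sq with hx' | hx'
        · have e : x = l := Lab.ext hk hH hd (hx'.trans (by simpa using hs : l.sq = true).symm)
          subst e
          simp [hlm]
        · have e : x = m := Lab.ext hk hH hd hx'
          subst e
          rw [hlev, if_neg (Ne.symm hlm), if_pos rfl, mul_zero, zero_add, mul_one]
      · have n1 : x ≠ l := fun e => hxH (e ▸ hPd)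
        have n2 : x ≠ m := fun e => hxH (e ▸ hPd)
        rw [mult_eq_zero (g := x.level) (fun h => hxH (hP.prime.dvd_of_dvd_pow h)), if_neg n1, if_neg n2,
          mul_zero, add_zero]
    have hcount : ∀ z : Lab F, (M.map fun x => if x = z then 1 else 0).sum = M.count z := by
      intro z
      clear hM hkM hne hmp hterm
      induction M using Multiset.induction_on with
      | empty => simp
      | cons a M ih =>
        rw [Multiset.map_cons, Multiset.sum_cons, Multiset.count_cons, ih]
        by_cases e : a = z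
        · subst e; simp [add_comm]
        · rw [if_neg e, if_neg (Ne.symm e)]; simp
    rw [hmp, Multiset.map_congr rfl hterm, Multiset.sum_map_add, Multiset.sum_map_mul_left,
      Multiset.sum_map_mul_left, hcount, hcount, mul_add]
  have h := (hsum L hL hkL).symm.trans ((congrArg (mult P) hg).trans (hsum L' hL' hkL'))
  have := Nat.eq_of_mul_eq_mul_left hpos h
  rw [hneg m rfl] at this
  omega

theorem levelPoly_spec {k : ℕ} {L : Multiset (Lab F)} (hL : LabOK ε L) (hk : ∀ l ∈ L, l.k = k) :
    Recip (levelPoly L) ∧ (L.map Lab.wt).sum = k * (levelPoly L).natDegree ∧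
      ((∀ l ∈ L, l.level.coeff 0 = 1 ∧ Even l.level.natDegree) →
        (levelPoly L).coeff 0 = 1 ∧ Even (levelPoly L).natDegree) := by
  induction L using Multiset.induction_on with
  | empty => exact ⟨by simpa [levelPoly] using Recip.one, by simp [levelPoly], fun _ => by simp [levelPoly]⟩
  | cons a L ih =>
    have hLm : LabOK ε L := fun x hx => ⟨(hL x (Multiset.mem_cons_of_mem hx)).1, fun e => by
      have h1 := (hL x (Multiset.mem_cons_of_mem hx)).2 e
      rw [Multiset.count_cons] at h1
      have h0 : 0 < L.count x := Multiset.count_pos.2 hx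
      omega⟩
    obtain ⟨h1, h2, h3⟩ := ih hLm fun x hx => hk x (Multiset.mem_cons_of_mem hx)
    have e : levelPoly (a ::ₘ L) = a.level * levelPoly L := by simp [levelPoly]
    have ha : Recip a.level := (hL a (Multiset.mem_cons_self _ _)).1.recip.pow _
    refine ⟨e ▸ ha.mul h1, ?_, fun h => ?_⟩
    · rw [Multiset.map_cons, Multiset.sum_cons, h2, e, ha.monic.natDegree_mul h1.monic, mul_add, Lab.wt,
        hk a (Multiset.mem_cons_self _ _)]
    · obtain ⟨e1, e2⟩ := h3 fun x hx => h x (Multiset.mem_cons_of_mem hx)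
      obtain ⟨a1, a2⟩ := h a (Multiset.mem_cons_self _ _)
      rw [e, mul_coeff_zero, a1, e1, one_mul, ha.monic.natDegree_mul h1.monic]
      exact ⟨rfl, a2.add e2⟩

theorem genAtom_coeff_zero {H : F[X]} (hH : Recip H) (hg : Lab.IsGenAtom H) (h2 : (2 : F) ≠ 0) :
    H.coeff 0 = 1 ∧ Even H.natDegree := by
  have hc : H.coeff 0 = 1 := by
    rcases mul_self_eq_one_iff.1 hH.coeff_zero_sq with h | h
    · exact h
    · exfalso
      let : Invertible (1 : F) := invertibleOne
      have e := eval₂_reverse_mul_pow (RingHom.id F) (1 : F) H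
      simp only [invOf_one, one_pow, mul_one, hH.rev, eval₂_mul, eval₂_C, RingHom.id_apply, h] at e
      have e' : (2 : F) * H.eval 1 = 0 := by rw [eval]; linear_combination -e
      exact hg.1.2.1 ((mul_eq_zero.1 e').resolve_left h2)
  refine ⟨hc, ?_⟩
  by_contra ho
  rw [Nat.not_even_iff_odd] at ho
  let : Invertible (-1 : F) := ⟨-1, by ring, by ring⟩
  have e := eval₂_reverse_mul_pow (RingHom.id F) (-1 : F) H
  rw [show ⅟(-1 : F) = -1 from rfl, ho.neg_one_pow, hH.rev, eval₂_mul, eval₂_C, hc, RingHom.id_apply] at e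
  have e' : (2 : F) * H.eval (-1) = 0 := by rw [eval]; linear_combination -e
  exact hg.1.2.2 ((mul_eq_zero.1 e').resolve_left h2)

end CfsgLib.IsometryClasses
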