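import Cfsg.Agent.IsometryClasses.Pieces

/-!
# Labels of pieces and normal forms of isometries
-/

set_option autoImplicit false

namespace CfsgLib.IsometryClasses

open Polynomial Module

variable {F : Type*} [Field F]

/-- The label of a piece: exponent, atom, one or two generators, sign. -/
@[ext] structure Lab (F : Type*) [Field F] where
  k : ℕ
  H : F[X]
  dbl : Bool
  sq : Bool

namespace Lab

/-- The modulus. -/
noncomputable abbrev modulus (l : Lab F) : F[X] := l.H ^ l.k

/-- The number of generators. -/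
def gens (l : Lab F) : ℕ := if l.dbl then 2 else 1

/-- The contribution to the level polynomial. -/
noncomputable def level (l : Lab F) : F[X] := l.H ^ l.gens

/-- An atom away from `±1`. -/
def IsGenAtom (H : F[X]) : Prop :=
  (H.natDegree ≠ 0 ∧ H.eval 1 ≠ 0 ∧ H.eval (-1) ≠ 0) ∧
    ((Irreducible H) ∨ ∃ P Q : F[X], P.Monic ∧ Q.Monic ∧ Irreducible P ∧ Irreducible Q ∧ P ≠ Q ∧
      H = P * Q ∧ Q * C (P.coeff 0) = P.reverse)

/-- Admissible labels. -/
structure Valid (ε : F) (l : Lab F) : Prop where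
  pos : l.k ≠ 0
  recip : Recip l.H
  deg : l.H.natDegree ≠ 0
  kind : (IsGenAtom l.H ∧ l.dbl = false ∧ l.sq = true) ∨
    ∃ c : F, c * c = 1 ∧ l.H = X - C c ∧
      ((l.dbl = false ∧ ε = (-1) ^ (l.k - 1)) ∨
        (l.dbl = true ∧ l.sq = true ∧ ε * (-1) ^ (l.k - 1) = -1))

theorem Valid.monic {ε : F} {l : Lab F} (h : l.Valid ε) : l.modulus.Monic := (h.recip.pow l.k).monic

theorem Valid.recip_modulus {ε : F} {l : Lab F} (h : l.Valid ε) : Recip l.modulus := h.recip.pow l.k

/-- The functional of a single generator. -/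
def SingleP (ε : F) (l : Lab F) (φ : AdjoinRoot l.modulus →ₗ[F] F) : Prop :=
  (∀ h : Recip l.H, GoodFun ε h l.k φ) ∧
    ∀ c : F, l.H = X - C c → (IsSquare (φ (top l.H l.k)) ↔ l.sq = true)

/-- The functional between two generators. -/
def PairP (l : Lab F) (δ : AdjoinRoot l.modulus →ₗ[F] F) : Prop :=
  (∀ h : Recip l.H, ∀ a, δ (sig (h.pow l.k) a) = (-1 : F) ^ (l.k - 1) * δ a) ∧ δ (top l.H l.k) = 1

/-- The standard functional of a single generator. -/
noncomputable def single (ε : F) (l : Lab F) : AdjoinRoot l.modulus →ₗ[F] F :=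
  Classical.epsilon (l.SingleP ε)

/-- The standard functional between two generators. -/
noncomputable def pair (l : Lab F) : AdjoinRoot l.modulus →ₗ[F] F := Classical.epsilon l.PairP

/-- The standard Gram functionals. -/
noncomputable def gram (ε : F) (l : Lab F) (i j : Fin l.gens) : AdjoinRoot l.modulus →ₗ[F] F :=
  if l.dbl then (if (i : ℕ) = j then 0 else if (i : ℕ) = 0 then l.pair else -l.pair) else l.single ε

end Lab

variable {V : Type*} [AddCommGroup V] [Module F V]

/-- The map from the standard modules. -/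
noncomputable def pieceMap (g : V ≃ₗ[F] V) {l : Lab F} (hm : l.modulus.Monic) (xs : Fin l.gens → V) :
    (Fin l.gens → AdjoinRoot l.modulus) →ₗ[F] V :=
  ∑ j, psi g hm (xs j) ∘ₗ LinearMap.proj j

theorem pieceMap_apply (g : V ≃ₗ[F] V) {l : Lab F} (hm : l.modulus.Monic) (xs : Fin l.gens → V)
    (a : Fin l.gens → AdjoinRoot l.modulus) : pieceMap g hm xs a = ∑ j, psi g hm (xs j) (a j) := by
  simp [pieceMap]

theorem B_pieceMap {ε : F} {B : LinearMap.BilinForm F V} {g : V ≃ₗ[F] V} (hE : IsEps ε B g) {l : Lab F}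
    (hl : l.Valid ε) {xs : Fin l.gens → V} (hx : ∀ j, xs j ∈ kill g l.modulus)
    (hg : ∀ i j, Phi B g hl.monic (xs i) (xs j) = l.gram ε i j) (a b : Fin l.gens → AdjoinRoot l.modulus) :
    B (pieceMap g hl.monic xs a) (pieceMap g hl.monic xs b) =
      ∑ i, ∑ j, l.gram ε i j (a i * sig hl.recip_modulus (b j)) := by
  simp only [pieceMap_apply, map_sum, LinearMap.sum_apply]
  rw [Finset.sum_comm]
  refine Finset.sum_congr rfl fun i _ => Finset.sum_congr rfl fun j _ => ?_
  rw [B_psi hE hl.recip_modulus (hx i) (hx j), ← hg]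

theorem pieceMap_root {g : V ≃ₗ[F] V} {l : Lab F} (hm : l.modulus.Monic) {xs : Fin l.gens → V}
    (hx : ∀ j, xs j ∈ kill g l.modulus) (a : Fin l.gens → AdjoinRoot l.modulus) :
    g (pieceMap g hm xs a) = pieceMap g hm xs (fun j => AdjoinRoot.root _ * a j) := by
  simp only [pieceMap_apply, map_sum]
  exact Finset.sum_congr rfl fun j _ => (psi_root hm (hx j) _).symm

/-- A normal form with labels `lab`. -/
structure NF (ε : F) (B : LinearMap.BilinForm F V) (g : V ≃ₗ[F] V) {ι : Type} [Fintype ι]
    (lab : ι → Lab F) where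
  valid : ∀ i, (lab i).Valid ε
  good : ∀ i, (lab i).dbl = false → (lab i).SingleP ε ((lab i).single ε)
  sq_unique : ∀ i j, i ≠ j → lab i = lab j → (lab i).sq = true
  xs : ∀ i, Fin (lab i).gens → V
  mem : ∀ i j, xs i j ∈ kill g (lab i).modulus
  gram_eq : ∀ i j l, Phi B g (valid i).monic (xs i j) (xs i l) = (lab i).gram ε j l
  orth : ∀ i j, i ≠ j → ∀ a b,
    B (pieceMap g (valid i).monic (xs i) a) (pieceMap g (valid j).monic (xs j) b) = 0
  bij : Function.Bijective
    fun a : ∀ i, Fin (lab i).gens → AdjoinRoot (lab i).modulus =>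
      ∑ i, pieceMap g (valid i).monic (xs i) (a i)

namespace NF

variable {ε : F} {B : LinearMap.BilinForm F V} {g : V ≃ₗ[F] V} {ι : Type} [Fintype ι] {lab : ι → Lab F}

/-- The identification with the standard modules. -/
noncomputable def equiv (N : NF ε B g lab) :
    (∀ i, Fin (lab i).gens → AdjoinRoot (lab i).modulus) ≃ₗ[F] V :=
  LinearEquiv.ofBijective (∑ i, pieceMap g (N.valid i).monic (N.xs i) ∘ₗ LinearMap.proj i)
    (by
      have h : ⇑(∑ i, pieceMap g (N.valid i).monic (N.xs i) ∘ₗ LinearMap.proj i) =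
          fun a : ∀ i, Fin (lab i).gens → AdjoinRoot (lab i).modulus =>
            ∑ i, pieceMap g (N.valid i).monic (N.xs i) (a i) := by
        funext a; simp
      rw [h]; exact N.bij)

theorem equiv_apply (N : NF ε B g lab) (a : ∀ i, Fin (lab i).gens → AdjoinRoot (lab i).modulus) :
    N.equiv a = ∑ i, pieceMap g (N.valid i).monic (N.xs i) (a i) := by
  simp [equiv]

theorem equiv_root (N : NF ε B g lab) (a : ∀ i, Fin (lab i).gens → AdjoinRoot (lab i).modulus) :
    g (N.equiv a) = N.equiv (fun i j => AdjoinRoot.root _ * a i j) := by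
  simp only [equiv_apply, map_sum]
  exact Finset.sum_congr rfl fun i _ => pieceMap_root _ (N.mem i) _

theorem B_equiv (hE : IsEps ε B g) (N : NF ε B g lab)
    (a b : ∀ i, Fin (lab i).gens → AdjoinRoot (lab i).modulus) :
    B (N.equiv a) (N.equiv b) =
      ∑ i, ∑ j, ∑ l, (lab i).gram ε j l (a i j * sig (N.valid i).recip_modulus (b i l)) := by
  simp only [equiv_apply, map_sum, LinearMap.sum_apply]
  rw [Finset.sum_comm]
  refine Finset.sum_congr rfl fun i _ => ?_
  rw [Finset.sum_eq_single i (fun j _ hj => N.orth i j (Ne.symm hj) _ _)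
    (fun h => absurd (Finset.mem_univ i) h)]
  exact B_pieceMap hE (N.valid i) (N.mem i) (N.gram_eq i) _ _

/-- Transport along a bijection of index sets. -/
noncomputable def reindex {κ : Type} [Fintype κ] (N : NF ε B g lab) (e : κ ≃ ι) :
    NF ε B g (fun k => lab (e k)) where
  valid k := N.valid (e k)
  good k := N.good (e k)
  sq_unique i j h := N.sq_unique (e i) (e j) (e.injective.ne h)
  xs k := N.xs (e k)
  mem k := N.mem (e k)
  gram_eq k := N.gram_eq (e k)
  orth i j h := N.orth (e i) (e j) (e.injective.ne h)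
  bij := by
    have h : (fun a : ∀ k, Fin (lab (e k)).gens → AdjoinRoot (lab (e k)).modulus =>
        ∑ k, pieceMap g (N.valid (e k)).monic (N.xs (e k)) (a k)) =
        (fun a => ∑ i, pieceMap g (N.valid i).monic (N.xs i) (a i)) ∘
          Equiv.piCongrLeft (fun i => Fin (lab i).gens → AdjoinRoot (lab i).modulus) e := by
      funext a
      rw [Function.comp_apply, ← e.sum_comp]
      exact Finset.sum_congr rfl fun k _ => by rw [Equiv.piCongrLeft_apply_apply]
    rw [h]
    exact N.bij.comp (Equiv.bijective _)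

variable {V' : Type*} [AddCommGroup V'] [Module F V'] {B' : LinearMap.BilinForm F V'} {g' : V' ≃ₗ[F] V'}

theorem exists_isometry (hE : IsEps ε B g) (hE' : IsEps ε B' g') (N : NF ε B g lab)
    (N' : NF ε B' g' lab) :
    ∃ e : V ≃ₗ[F] V', (∀ x, e (g x) = g' (e x)) ∧ ∀ x y, B' (e x) (e y) = B x y := by
  refine ⟨N.equiv.symm.trans N'.equiv, fun x => ?_, fun x y => ?_⟩
  · obtain ⟨a, rfl⟩ := N.equiv.surjective x
    rw [equiv_root, LinearEquiv.trans_apply, LinearEquiv.trans_apply, LinearEquiv.symm_apply_apply,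
      LinearEquiv.symm_apply_apply, equiv_root]
  · obtain ⟨a, rfl⟩ := N.equiv.surjective x
    obtain ⟨b, rfl⟩ := N.equiv.surjective y
    rw [LinearEquiv.trans_apply, LinearEquiv.trans_apply, LinearEquiv.symm_apply_apply,
      LinearEquiv.symm_apply_apply, B_equiv hE', B_equiv hE]

/-- The multiset of labels. -/
def labels (_ : NF ε B g lab) : Multiset (Lab F) := Finset.univ.val.map lab

end NF

/-- Some normal form with the given multiset of labels exists. -/
def HasLabels (ε : F) (B : LinearMap.BilinForm F V) (g : V ≃ₗ[F] V) (L : Multiset (Lab F)) : Prop :=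
  ∃ (ι : Type) (_ : Fintype ι) (lab : ι → Lab F) (N : NF ε B g lab), N.labels = L

theorem exists_equiv_of_map_eq {α : Type*} {ι κ : Type} [Fintype ι] [Fintype κ] {f : ι → α} {h : κ → α}
    (e : Finset.univ.val.map f = Finset.univ.val.map h) : ∃ s : ι ≃ κ, ∀ i, h (s i) = f i := by
  classical
  have hc : ∀ a, Fintype.card {i // f i = a} = Fintype.card {i // h i = a} := by
    intro a
    have h1 := congrArg (Multiset.count a) e
    rw [Multiset.count_map, Multiset.count_map] at h1
    rw [Fintype.card_subtype, Fintype.card_subtype, Finset.card_def, Finset.card_def,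
      Finset.filter_val, Finset.filter_val]
    simpa [eq_comm] using h1
  exact ⟨Equiv.ofFiberEquiv (fun a => Fintype.equivOfCardEq (hc a)),
    fun i => Equiv.ofFiberEquiv_map _ i⟩

/-- Equal labels give isometric structures. -/
theorem HasLabels.exists_isometry {V' : Type*} [AddCommGroup V'] [Module F V'] {ε : F}
    {B : LinearMap.BilinForm F V} {g : V ≃ₗ[F] V} {B' : LinearMap.BilinForm F V'} {g' : V' ≃ₗ[F] V'}
    (hE : IsEps ε B g) (hE' : IsEps ε B' g') {L : Multiset (Lab F)} (h : HasLabels ε B g L)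
    (h' : HasLabels ε B' g' L) :
    ∃ e : V ≃ₗ[F] V', (∀ x, e (g x) = g' (e x)) ∧ ∀ x y, B' (e x) (e y) = B x y := by
  obtain ⟨ι, _, lab, N, hN⟩ := h
  obtain ⟨κ, _, lab', N', hN'⟩ := h'
  obtain ⟨s, hs⟩ := exists_equiv_of_map_eq (hN.trans hN'.symm)
  have N'' := N'.reindex s
  have e : (fun i => lab' (s i)) = lab := funext hs
  rw [e] at N''
  exact N.exists_isometry hE hE' N''

end CfsgLib.IsometryClasses
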