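import Cfsg.Agent.IsometryClasses.SympBound

/-!
# Counting the labels of orthogonal isometries
-/

set_option autoImplicit false
set_option linter.style.haveILetI false

namespace CfsgLib.IsometryClasses

open Polynomial
open scoped Classical

variable {F : Type*} [Field F]

/-- Labels (for symmetric forms) satisfying `P`, with exponents at most `K` and dimension `N`. -/
def labSetO (F : Type*) [Field F] (P : Lab F → Prop) (K N : ℕ) : Set (Multiset (Lab F)) :=
  {L | LabOK (1 : F) L ∧ (∀ l ∈ L, l.k ≤ K) ∧ (L.map Lab.wt).sum = N ∧ ∀ l ∈ L, P l}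

/-- Labels of one exponent. -/
def levSetO (F : Type*) [Field F] (P : Lab F → Prop) (k d : ℕ) : Set (Multiset (Lab F)) :=
  {L | LabOK (1 : F) L ∧ (∀ l ∈ L, l.k = k) ∧ (levelPoly L).natDegree = d ∧ ∀ l ∈ L, P l}

/-- A single generator at `±1`. -/
def Lab.IsKey (l : Lab F) : Prop := ∃ c : F, l.H = X - C c ∧ l.dbl = false

theorem level_of_not_key (h2 : (2 : F) ≠ 0) {l : Lab F} (hl : l.Valid (1 : F)) (h : ¬ l.IsKey) :
    (l.level.coeff 0 = 1 ∧ Even l.level.natDegree) ∧ l.sq = true := by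
  rcases hl.kind with ⟨hg, hd, hs⟩ | ⟨c, hc, hH, ⟨hd, -⟩ | ⟨hd, hs, -⟩⟩
  · refine ⟨?_, hs⟩
    rw [Lab.level, Lab.gens, hd, if_neg (by simp), pow_one]
    exact genAtom_coeff_zero hl.recip hg h2
  · exact absurd ⟨c, hH, hd⟩ h
  · refine ⟨⟨?_, ?_⟩, hs⟩
    · rw [Lab.level, Lab.gens, hd, if_pos rfl, hH, sq, mul_coeff_zero, coeff_sub, coeff_X_zero, coeff_C_zero,
        zero_sub, neg_mul_neg, hc]
    · rw [Lab.level, Lab.gens, hd, if_pos rfl, hH, natDegree_pow, natDegree_X_sub_C]
      exact even_two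

theorem not_key_of_even (h2 : (2 : F) ≠ 0) {l : Lab F} (hl : l.Valid (1 : F)) (hk : Even l.k) :
    ¬ l.IsKey := by
  rintro ⟨c, hc, hd⟩
  rcases hl.kind with ⟨hg, -, -⟩ | ⟨c', -, -, ⟨-, he⟩ | ⟨hd', -⟩⟩
  · have h1 := hl.recip.coeff_zero_sq
    rw [hc, coeff_sub, coeff_X_zero, coeff_C_zero, zero_sub, neg_mul_neg] at h1
    exact isGenAtom_not_linear hg h1 hc
  · obtain ⟨m, hm⟩ := hk
    have hpos := hl.pos
    rw [show l.k - 1 = 2 * (m - 1) + 1 by omega, pow_succ, pow_mul, neg_one_sq, one_pow, one_mul] at he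
    exact h2 (by linear_combination he)
  · rw [hd] at hd'; exact absurd hd' (by simp)

theorem levSetO_pal [Fintype F] (h2 : (2 : F) ≠ 0) (P : Lab F → Prop) (k d : ℕ)
    (hk : ∀ L ∈ levSetO F P k d, ∀ l ∈ L, ¬ l.IsKey) :
    (levSetO F P k d).Finite ∧ (levSetO F P k d).ncard ≤ evenPow (Fintype.card F) d := by
  have hmaps : ∀ L ∈ levSetO F P k d, levelPoly L ∈ recipSet F d 1 ∧ Even d := by
    intro L hm
    obtain ⟨hL, hkL, hd, -⟩ := id hm
    obtain ⟨h1, -, h3⟩ := levelPoly_spec hL hkL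
    obtain ⟨e1, e2⟩ := h3 fun l hl => (level_of_not_key h2 (hL l hl).1 (hk L hm l hl)).1
    exact ⟨⟨h1, hd, e1⟩, hd ▸ e2⟩
  have hfalse : ∀ L ∈ levSetO F P k d, ∀ c : F, hasMinus k c L = false := fun L hm c => by
    simp only [hasMinus, decide_eq_false_iff_not]
    intro h
    exact hk L hm _ h ⟨c, rfl, rfl⟩
  have hinj : Set.InjOn levelPoly (levSetO F P k d) := fun L hL L' hL' e =>
    level_injective h2 hL.1 hL'.1 hL.2.1 hL'.2.1 e ((hfalse L hL 1).trans (hfalse L' hL' 1).symm)
      ((hfalse L hL (-1)).trans (hfalse L' hL' (-1)).symm)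
  have hfin : (recipSet F d 1).Finite := (finite_recipDeg d).subset fun g hg => ⟨hg.1, hg.2.1⟩
  refine ⟨Set.Finite.of_injOn (fun L hL => (hmaps L hL).1) hinj hfin, ?_⟩
  rcases (levSetO F P k d).eq_empty_or_nonempty with he | ⟨L, hL⟩
  · rw [he, Set.ncard_empty]; exact Nat.zero_le _
  · obtain ⟨e, he⟩ := (hmaps L hL).2
    refine (Set.ncard_le_ncard_of_injOn levelPoly (fun L hL => (hmaps L hL).1) hinj hfin).trans ?_
    refine (ncard_recipSet_le h2 d e 1 (fun i _ _ => by omega)).trans ?_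
    rw [evenPow, if_pos ⟨e, he⟩, show d / 2 = e by omega]

theorem levSetO_any [Fintype F] (h2 : (2 : F) ≠ 0) (P : Lab F → Prop) (k d : ℕ) :
    (levSetO F P k d).Finite ∧ (levSetO F P k d).ncard ≤ singleBound (Fintype.card F) d := by
  let T00 : Set (F[X] × Bool × Bool) := (fun g => (g, false, false)) '' recipDeg F d
  let T10 : Set (F[X] × Bool × Bool) :=
    if 1 ≤ d then (fun g => ((X - C 1) * g, true, false)) '' recipDeg F (d - 1) else ∅
  let T01 : Set (F[X] × Bool × Bool) :=
    if 1 ≤ d then (fun g => ((X - C (-1)) * g, false, true)) '' recipDeg F (d - 1) else ∅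
  let T11 : Set (F[X] × Bool × Bool) :=
    if 2 ≤ d then (fun g => ((X - C 1) * (X - C (-1)) * g, true, true)) '' recipDeg F (d - 2) else ∅
  have hfin : ∀ (p : Prop) [Decidable p] (f : F[X] → F[X] × Bool × Bool) (e : ℕ),
      (if p then f '' recipDeg F e else ∅).Finite := by
    intro p _ f e
    split_ifs
    exacts [(finite_recipDeg e).image _, Set.finite_empty]
  have hT : (T00 ∪ T10 ∪ T01 ∪ T11).Finite :=
    ((((finite_recipDeg d).image _).union (hfin _ _ _)).union (hfin _ _ _)).union (hfin _ _ _)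
  set f : Multiset (Lab F) → F[X] × Bool × Bool := fun L => (levelPoly L, hasMinus k 1 L, hasMinus k (-1) L)
  have hmaps : ∀ L ∈ levSetO F P k d, f L ∈ T00 ∪ T10 ∪ T01 ∪ T11 := by
    rintro L ⟨hL, hkL, hd, -⟩
    obtain ⟨h1, -, -⟩ := levelPoly_spec hL hkL
    have hdvd : ∀ c : F, hasMinus k c L = true → (X - C c) ∣ levelPoly L ∧ Recip (X - C c) := by
      intro c h
      simp only [hasMinus, decide_eq_true_eq] at h
      refine ⟨Multiset.dvd_prod (Multiset.mem_map.2 ⟨_, h, ?_⟩), (hL _ h).1.recip⟩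
      simp [Lab.level, Lab.gens]
    cases hp : hasMinus k 1 L <;> cases hm : hasMinus k (-1) L
    · exact Or.inl (Or.inl (Or.inl ⟨_, ⟨h1, hd⟩, by simp [f, hp, hm]⟩))
    · obtain ⟨⟨g, hg⟩, hr⟩ := hdvd _ hm
      have hgr : Recip g := hr.of_mul (hg ▸ h1)
      rw [hg, hr.monic.natDegree_mul hgr.monic, natDegree_X_sub_C] at hd
      refine Or.inl (Or.inr ?_)
      simp only [T01, if_pos (show 1 ≤ d by omega)]
      exact ⟨g, ⟨hgr, by omega⟩, by simp [f, hp, hm, hg]⟩
    · obtain ⟨⟨g, hg⟩, hr⟩ := hdvd _ hp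
      have hgr : Recip g := hr.of_mul (hg ▸ h1)
      rw [hg, hr.monic.natDegree_mul hgr.monic, natDegree_X_sub_C] at hd
      refine Or.inl (Or.inl (Or.inr ?_))
      simp only [T10, if_pos (show 1 ≤ d by omega)]
      exact ⟨g, ⟨hgr, by omega⟩, by simp [f, hp, hm, hg]⟩
    · obtain ⟨hd1, hr1⟩ := hdvd _ hp
      obtain ⟨hd2, hr2⟩ := hdvd _ hm
      have hco : IsCoprime (X - C (1 : F)) (X - C (-1)) :=
        isCoprime_of_ne (irreducible_X_sub_C _) (irreducible_X_sub_C _) (monic_X_sub_C _) (monic_X_sub_C _)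
          fun e => h2 (by
            have := congrArg (Polynomial.eval (1 : F)) e
            simp at this
            linear_combination -this)
      obtain ⟨g, hg⟩ := hco.mul_dvd hd1 hd2
      have hr := hr1.mul hr2
      have hgr : Recip g := hr.of_mul (hg ▸ h1)
      rw [hg, hr.monic.natDegree_mul hgr.monic, hr1.monic.natDegree_mul hr2.monic, natDegree_X_sub_C,
        natDegree_X_sub_C] at hd
      refine Or.inr ?_
      simp only [T11, if_pos (show 2 ≤ d by omega)]
      exact ⟨g, ⟨hgr, by omega⟩, by simp [f, hp, hm, hg]⟩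
  have hinj : Set.InjOn f (levSetO F P k d) := fun L hL L' hL' e => by
    simp only [f, Prod.mk.injEq] at e
    exact level_injective h2 hL.1 hL'.1 hL.2.1 hL'.2.1 e.1 e.2.1 e.2.2
  refine ⟨Set.Finite.of_injOn hmaps hinj hT, (Set.ncard_le_ncard_of_injOn f hmaps hinj hT).trans ?_⟩
  have b0 : T00.ncard ≤ recipBound (Fintype.card F) d :=
    (Set.ncard_image_le (finite_recipDeg d)).trans (ncard_recipDeg_le h2 d)
  have bb : ∀ (p : Prop) [Decidable p] (f : F[X] → F[X] × Bool × Bool) (e : ℕ),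
      (if p then f '' recipDeg F e else ∅).ncard ≤ if p then recipBound (Fintype.card F) e else 0 := by
    intro p _ f e
    split_ifs
    · exact (Set.ncard_image_le (finite_recipDeg e)).trans (ncard_recipDeg_le h2 e)
    · simp
  have b1 : T10.ncard ≤ _ := bb _ _ _
  have b2 : T01.ncard ≤ _ := bb _ _ _
  have b3 : T11.ncard ≤ _ := bb _ _ _
  have u1 := Set.ncard_union_le (T00 ∪ T10 ∪ T01) T11
  have u2 := Set.ncard_union_le (T00 ∪ T10) T01
  have u3 := Set.ncard_union_le T00 T10
  rw [singleBound]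
  omega

theorem labSetO_zero (P : Lab F → Prop) (N : ℕ) :
    (labSetO F P 0 N).Finite ∧ (labSetO F P 0 N).ncard ≤ 1 ∧ (N ≠ 0 → labSetO F P 0 N = ∅) := by
  have h : ∀ L ∈ labSetO F P 0 N, L = 0 ∧ N = 0 := by
    rintro L ⟨hL, hk, hw, -⟩
    have h0 : L = 0 := Multiset.eq_zero_of_forall_notMem fun l hl =>
      (hL l hl).1.pos (Nat.le_zero.1 (hk l hl))
    subst h0
    exact ⟨rfl, hw.symm.trans (by simp)⟩
  have hsub : labSetO F P 0 N ⊆ {0} := fun L hL => (h L hL).1
  refine ⟨(Set.finite_singleton _).subset hsub, ?_, fun hn => Set.eq_empty_of_forall_notMem fun L hL =>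
    hn (h L hL).2⟩
  exact (Set.ncard_le_ncard hsub).trans (by simp)

theorem labSetO_succ [Fintype F] (h2 : (2 : F) ≠ 0) (P : Lab F → Prop) (K N : ℕ)
    (hfin : ∀ m, (labSetO F P K m).Finite) {W : ℕ → ℕ}
    (hW : ∀ d, (levSetO F P (K + 1) d).ncard ≤ W d) :
    (labSetO F P (K + 1) N).Finite ∧ (labSetO F P (K + 1) N).ncard ≤
      ∑ d ∈ Finset.range (N + 1),
        if (K + 1) * d ≤ N then W d * (labSetO F P K (N - (K + 1) * d)).ncard else 0 := by
  let S : ℕ → Set (Multiset (Lab F) × Multiset (Lab F)) := fun d =>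
    if (K + 1) * d ≤ N then levSetO F P (K + 1) d ×ˢ labSetO F P K (N - (K + 1) * d) else ∅
  have hSf : ∀ d, (S d).Finite := fun d => by
    simp only [S]
    split_ifs
    exacts [(levSetO_any h2 _ _ _).1.prod (hfin _), Set.finite_empty]
  let U : Set (Multiset (Lab F) × Multiset (Lab F)) := ⋃ d ∈ Finset.range (N + 1), S d
  have hU : U.Finite := Set.Finite.biUnion (Finset.finite_toSet _) fun d _ => hSf d
  let f : Multiset (Lab F) → Multiset (Lab F) × Multiset (Lab F) := fun L =>
    (L.filter fun l => l.k = K + 1, L.filter fun l => ¬ l.k = K + 1)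
  have hinj : Set.InjOn f (labSetO F P (K + 1) N) := fun L _ L' _ e => by
    simp only [f, Prod.mk.injEq] at e
    rw [← Multiset.filter_add_not (fun l : Lab F => l.k = K + 1) L, e.1, e.2, Multiset.filter_add_not]
  have hmaps : ∀ L ∈ labSetO F P (K + 1) N, f L ∈ U := by
    rintro L ⟨hL, hk, hw, hP⟩
    have h1 : ∀ l ∈ L.filter (fun l => l.k = K + 1), l.k = K + 1 := fun l hl =>
      (Multiset.mem_filter.1 hl).2
    obtain ⟨-, hwt, -⟩ := levelPoly_spec (labOK_filter hL _) h1
    set d := (levelPoly (L.filter fun l => l.k = K + 1)).natDegree with hd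
    have hsum : (K + 1) * d + ((L.filter fun l => ¬ l.k = K + 1).map Lab.wt).sum = N := by
      rw [← hwt, ← Multiset.sum_add, ← Multiset.map_add, Multiset.filter_add_not, hw]
    have hdle : d ≤ (K + 1) * d := Nat.le_mul_of_pos_left _ (Nat.succ_pos K)
    refine Set.mem_biUnion (x := d) (Finset.mem_range.2 (by omega)) ?_
    simp only [S, if_pos (show (K + 1) * d ≤ N by omega)]
    refine ⟨⟨labOK_filter hL _, h1, rfl, fun l hl => hP l (Multiset.mem_of_mem_filter hl)⟩,
      labOK_filter hL _, fun l hl => ?_, ?_, fun l hl => hP l (Multiset.mem_of_mem_filter hl)⟩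
    · have := hk l (Multiset.mem_of_mem_filter hl)
      have := (Multiset.mem_filter.1 hl).2
      omega
    · change ((L.filter fun l => ¬ l.k = K + 1).map Lab.wt).sum = _
      omega
  refine ⟨Set.Finite.of_injOn hmaps hinj hU, (Set.ncard_le_ncard_of_injOn f hmaps hinj hU).trans ?_⟩
  refine (Finset.set_ncard_biUnion_le _ _).trans (Finset.sum_le_sum fun d _ => ?_)
  simp only [S]
  split_ifs
  · rw [Set.ncard_prod]; exact Nat.mul_le_mul_right _ (hW d)
  · simp

theorem labSetO_finite [Fintype F] (h2 : (2 : F) ≠ 0) (P : Lab F → Prop) : ∀ K N, (labSetO F P K N).Finite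
  | 0, N => (labSetO_zero P N).1
  | K + 1, N => (labSetO_succ h2 P K N (labSetO_finite h2 P K) (fun d => (levSetO_any h2 P _ d).2)).1

/-! ### The numerical bound -/

/-- A rational substitute for `√q ^ m`, super-multiplicative in `m`. -/
noncomputable def scale (q m : ℕ) : ℝ := (q : ℝ) ^ (m / 2) * (if Even m then 1 else 433 / 250)

variable {q : ℕ}

theorem scale_pos (hq : 3 ≤ q) (m : ℕ) : 0 < scale q m := by
  have : (0 : ℝ) < q := by exact_mod_cast (by omega : 0 < q)
  rw [scale]; split_ifs <;> positivity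

theorem scale_even (q n : ℕ) : scale q (2 * n) = (q : ℝ) ^ n := by
  simp [scale]

theorem scale_odd (q n : ℕ) : scale q (2 * n + 1) = (q : ℝ) ^ n * (433 / 250) := by
  rw [scale, if_neg (by simp), show (2 * n + 1) / 2 = n by omega]

theorem scale_mul_le (hq : 3 ≤ q) (a b : ℕ) : scale q a * scale q b ≤ scale q (a + b) := by
  have h3 : (3 : ℝ) ≤ q := by exact_mod_cast hq
  rcases Nat.even_or_odd' a with ⟨x, rfl | rfl⟩ <;> rcases Nat.even_or_odd' b with ⟨y, rfl | rfl⟩
  · rw [← mul_add 2, scale_even, scale_even, scale_even, pow_add]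
  · rw [show 2 * x + (2 * y + 1) = 2 * (x + y) + 1 by ring, scale_even, scale_odd, scale_odd, pow_add]
    exact le_of_eq (by ring)
  · rw [show 2 * x + 1 + 2 * y = 2 * (x + y) + 1 by ring, scale_even, scale_odd, scale_odd, pow_add]
    exact le_of_eq (by ring)
  · rw [show 2 * x + 1 + (2 * y + 1) = 2 * (x + y + 1) by ring, scale_even, scale_odd, scale_odd, pow_succ,
      pow_add]
    have : (0 : ℝ) ≤ (q : ℝ) ^ x * (q : ℝ) ^ y := by positivity
    nlinarith

theorem step_bound [Fintype F] (h2 : (2 : F) ≠ 0) (hq : 3 ≤ Fintype.card F) (P : Lab F → Prop) {K : ℕ}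
    {C G : ℝ} {W : ℕ → ℕ} (hC : 0 ≤ C) (hW : ∀ d, (levSetO F P (K + 1) d).ncard ≤ W d)
    (hK : ∀ m, ((labSetO F P K m).ncard : ℝ) ≤ C * scale (Fintype.card F) m)
    (hG : ∀ R, ∑ d ∈ Finset.range R, (W d : ℝ) / scale (Fintype.card F) ((K + 1) * d) ≤ G) (N : ℕ) :
    ((labSetO F P (K + 1) N).ncard : ℝ) ≤ C * G * scale (Fintype.card F) N := by
  set q := Fintype.card F
  refine (Nat.cast_le.2 (labSetO_succ h2 P K N (labSetO_finite h2 P K) hW).2).trans ?_
  push_cast
  have hs := scale_pos hq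
  calc ∑ d ∈ Finset.range (N + 1), (if (K + 1) * d ≤ N then
        (W d : ℝ) * ((labSetO F P K (N - (K + 1) * d)).ncard : ℝ) else 0)
      ≤ ∑ d ∈ Finset.range (N + 1), C * scale q N * ((W d : ℝ) / scale q ((K + 1) * d)) := by
        refine Finset.sum_le_sum fun d _ => ?_
        have hnn : (0 : ℝ) ≤ (W d : ℝ) / scale q ((K + 1) * d) := div_nonneg (Nat.cast_nonneg _) (hs _).le
        split_ifs with hc
        · have h1 : scale q (N - (K + 1) * d) ≤ scale q N / scale q ((K + 1) * d) := by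
            rw [le_div_iff₀ (hs _)]
            refine (scale_mul_le hq _ _).trans_eq ?_
            rw [Nat.sub_add_cancel hc]
          calc (W d : ℝ) * ((labSetO F P K (N - (K + 1) * d)).ncard : ℝ)
              ≤ (W d : ℝ) * (C * (scale q N / scale q ((K + 1) * d))) :=
                mul_le_mul_of_nonneg_left ((hK _).trans (mul_le_mul_of_nonneg_left h1 hC)) (by positivity)
            _ = C * scale q N * ((W d : ℝ) / scale q ((K + 1) * d)) := by ring
        · exact mul_nonneg (mul_nonneg hC (hs _).le) hnn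
    _ ≤ C * scale q N * G := by
        rw [← Finset.mul_sum]; exact mul_le_mul_of_nonneg_left (hG _) (mul_nonneg hC (hs _).le)
    _ = C * G * scale q N := by ring

theorem first_bound [Fintype F] (h2 : (2 : F) ≠ 0) (hq : 3 ≤ Fintype.card F) (P : Lab F → Prop) {C : ℝ}
    (hW : ∀ d, ((levSetO F P 1 d).ncard : ℝ) ≤ C * scale (Fintype.card F) d) (N : ℕ) :
    ((labSetO F P 1 N).ncard : ℝ) ≤ C * scale (Fintype.card F) N := by
  have h := (labSetO_succ h2 P 0 N (labSetO_finite h2 P 0)
    (W := fun d => (levSetO F P 1 d).ncard) (fun d => le_rfl)).2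
  rw [Finset.sum_eq_single N (fun d hd hne => ?_) (fun h => absurd (Finset.mem_range.2 (by omega)) h)] at h
  · rw [if_pos (by omega)] at h
    have h1 := h.trans (Nat.mul_le_mul_left _ (labSetO_zero P _).2.1)
    rw [mul_one] at h1
    exact (Nat.cast_le.2 h1).trans (hW N)
  · rw [Finset.mem_range] at hd
    split_ifs with hc
    · rw [(labSetO_zero P _).2.2 (by omega), Set.ncard_empty, mul_zero]
    · rfl

theorem sum_evenPow_scale (hq : 3 ≤ q) {k : ℕ} (hk : 2 ≤ k) (R : ℕ) :
    ∑ d ∈ Finset.range R, (evenPow q d : ℝ) / scale q (k * d) ≤ 1 / (1 - 1 / (3 : ℝ) ^ (k - 1)) := by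
  have h3 : (3 : ℝ) ≤ q := by exact_mod_cast hq
  have hs := scale_pos hq
  set z := 1 / (q : ℝ) ^ (k - 1) with hz
  have hz0 : 0 ≤ z := by positivity
  have hz3 : z ≤ 1 / (3 : ℝ) ^ (k - 1) :=
    one_div_le_one_div_of_le (by positivity) (pow_le_pow_left₀ (by norm_num) h3 _)
  have h31 : 1 / (3 : ℝ) ^ (k - 1) < 1 := by
    rw [div_lt_one (by positivity)]; exact one_lt_pow₀ (by norm_num) (by omega)
  refine (Finset.sum_le_sum_of_subset_of_nonneg (Finset.range_mono (show R ≤ 2 * R by omega))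
    fun d _ _ => div_nonneg (Nat.cast_nonneg _) (hs _).le).trans
    ((le_of_eq ?_).trans ((sum_geom_le hz0 (by linarith) R).trans
      (one_div_le_one_div_of_le (by linarith) (by linarith))))
  induction R with
  | zero => simp
  | succ R ih =>
    rw [show 2 * (R + 1) = 2 * R + 1 + 1 by ring, Finset.sum_range_succ, Finset.sum_range_succ, ih,
      Finset.sum_range_succ]
    have e1 : evenPow q (2 * R) = q ^ R := by simp [evenPow]
    have e2 : evenPow q (2 * R + 1) = 0 := by simp [evenPow]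
    have e3 : scale q (k * (2 * R)) = ((q : ℝ) ^ (k - 1)) ^ R * (q : ℝ) ^ R := by
      rw [show k * (2 * R) = 2 * ((k - 1) * R + R) by
        rw [show (k - 1) * R + R = k * R by rw [← Nat.succ_mul]; congr 1; omega]; ring, scale_even,
        pow_add, pow_mul]
    rw [e1, e2, e3, hz, one_div_pow]
    push_cast
    field_simp
    ring

theorem sum_singleBound_scale (hq : 3 ≤ q) {i : ℕ} (hi : 1 ≤ i) (R : ℕ) :
    ∑ d ∈ Finset.range R, (singleBound q d : ℝ) / scale q ((2 * i + 1) * d) ≤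
      (1 + 250 / 433 / (3 : ℝ) ^ i) ^ 4 * (1 / (1 - 1 / (3 : ℝ) ^ (2 * i))) := by
  have h3 : (3 : ℝ) ≤ q := by exact_mod_cast hq
  have hs := scale_pos hq
  set w : ℕ → ℝ := fun d => 1 / scale q ((2 * i + 1) * d) with hw
  set t := 250 / 433 / (3 : ℝ) ^ i with ht
  set B := 1 / (1 - 1 / (3 : ℝ) ^ (2 * i))
  have hw0 : ∀ d, 0 ≤ w d := fun d => div_nonneg zero_le_one (hs _).le
  have hwt : w 1 ≤ t := by
    simp only [hw, mul_one]
    rw [scale_odd, ht, show (250 : ℝ) / 433 / 3 ^ i = 1 / (3 ^ i * (433 / 250)) by field_simp]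
    refine one_div_le_one_div_of_le (by positivity) ?_
    exact mul_le_mul_of_nonneg_right (pow_le_pow_left₀ (by norm_num) h3 _) (by norm_num)
  have hmul : ∀ a b, w (a + b) ≤ w a * w b := fun a b => by
    simp only [hw]
    rw [one_div_mul_one_div, mul_add]
    exact one_div_le_one_div_of_le (mul_pos (hs _) (hs _)) (scale_mul_le hq _ _)
  have shift : ∀ (f : ℕ → ℕ) (B : ℝ), (∀ R, ∑ d ∈ Finset.range R, (f d : ℝ) * w d ≤ B) → ∀ j R,
      ∑ d ∈ Finset.range R, ((if j ≤ d then f (d - j) else 0 : ℕ) : ℝ) * w d ≤ w j * B := by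
    intro f B hB j R
    refine (Finset.sum_le_sum_of_subset_of_nonneg (Finset.range_mono (Nat.le_add_left R j))
      fun d _ _ => mul_nonneg (Nat.cast_nonneg _) (hw0 d)).trans ?_
    rw [Finset.sum_range_add, Finset.sum_eq_zero fun d hd => by
      rw [Finset.mem_range] at hd; rw [if_neg (by omega)]; simp, zero_add]
    refine le_trans (Finset.sum_le_sum fun d _ => ?_) (le_of_eq_of_le (Finset.mul_sum _ _ _).symm
      (mul_le_mul_of_nonneg_left (hB R) (hw0 j)))
    rw [if_pos (by omega), Nat.add_sub_cancel_left]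
    calc (f d : ℝ) * w (j + d) ≤ (f d : ℝ) * (w j * w d) :=
          mul_le_mul_of_nonneg_left (hmul j d) (Nat.cast_nonneg _)
      _ = w j * ((f d : ℝ) * w d) := by ring
  have he : ∀ R, ∑ d ∈ Finset.range R, (evenPow q d : ℝ) * w d ≤ B := fun R => by
    have h := sum_evenPow_scale hq (k := 2 * i + 1) (by omega) R
    rw [show 2 * i + 1 - 1 = 2 * i by omega] at h
    refine le_of_eq_of_le (Finset.sum_congr rfl fun d _ => ?_) h
    simp only [hw, mul_one_div]
  have hB0 : 0 ≤ B := (Finset.sum_nonneg fun d _ => mul_nonneg (Nat.cast_nonneg _) (hw0 d)).trans (he 1)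
  have h00 : w 0 = 1 := by simp [hw, scale]
  have h2le : w 2 ≤ t ^ 2 := (hmul 1 1).trans (by rw [sq]; exact mul_le_mul hwt hwt (hw0 1) ((hw0 1).trans hwt))
  have ht0 : 0 ≤ t := (hw0 1).trans hwt
  have hr : ∀ R, ∑ d ∈ Finset.range R, (recipBound q d : ℝ) * w d ≤ (1 + t) ^ 2 * B := by
    intro R
    have s0 := shift (evenPow q) B he 0 R
    have s1 := shift (evenPow q) B he 1 R
    have s2 := shift (evenPow q) B he 2 R
    have e : ∀ d, (recipBound q d : ℝ) * w d = (evenPowShift q 0 d : ℝ) * w d +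
        2 * ((evenPowShift q 1 d : ℝ) * w d) + (evenPowShift q 2 d : ℝ) * w d := fun d => by
      rw [recipBound]; push_cast; ring
    simp only [e, Finset.sum_add_distrib, ← Finset.mul_sum]
    simp only [evenPowShift] at *
    rw [h00] at s0
    nlinarith [mul_le_mul_of_nonneg_right hwt hB0, mul_le_mul_of_nonneg_right h2le hB0]
  have hB2 : 0 ≤ (1 + t) ^ 2 * B := by positivity
  have s0 := hr R
  have s1 := shift (recipBound q) _ hr 1 R
  have s2 := shift (recipBound q) _ hr 2 R
  have e : ∀ d, (singleBound q d : ℝ) / scale q ((2 * i + 1) * d) = (recipBound q d : ℝ) * w d +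
      2 * (((if 1 ≤ d then recipBound q (d - 1) else 0 : ℕ) : ℝ) * w d) +
      ((if 2 ≤ d then recipBound q (d - 2) else 0 : ℕ) : ℝ) * w d := fun d => by
    rw [singleBound, hw]; push_cast; ring
  simp only [e, Finset.sum_add_distrib, ← Finset.mul_sum]
  nlinarith [mul_le_mul_of_nonneg_right hwt hB2, mul_le_mul_of_nonneg_right h2le hB2]

theorem singleBound_le (hq : 3 ≤ q) (d : ℕ) : (singleBound q d : ℝ) ≤ 28 / 9 * scale q d := by
  have h3 : (3 : ℝ) ≤ q := by exact_mod_cast hq
  rcases Nat.even_or_odd' d with ⟨e, rfl | rfl⟩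
  · rw [scale_even]
    rcases e with _ | _ | e
    · simp [singleBound, recipBound, evenPowShift, evenPow]; norm_num
    · simp [singleBound, recipBound, evenPowShift, evenPow]; linarith
    · have e1 : singleBound q (2 * (e + 2)) = q ^ (e + 2) + 6 * q ^ (e + 1) + q ^ e := by
        simp [singleBound, recipBound, evenPowShift, evenPow, parity_simps,
          show 2 ≤ 2 * (e + 2) by omega, show 1 ≤ 2 * (e + 2) by omega]
        grind
      rw [e1]; push_cast
      have hp : (0 : ℝ) ≤ (q : ℝ) ^ e := by positivity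
      rw [pow_succ, pow_succ]
      nlinarith [mul_le_mul_of_nonneg_left h3 hp, mul_le_mul_of_nonneg_left (mul_le_mul h3 h3 (by norm_num) (by linarith)) hp]
  · rw [scale_odd]
    rcases e with _ | e
    · simp [singleBound, recipBound, evenPowShift, evenPow]; norm_num
    · have e1 : singleBound q (2 * (e + 1) + 1) = 4 * q ^ (e + 1) + 4 * q ^ e := by
        simp [singleBound, recipBound, evenPowShift, evenPow, parity_simps,
          show 2 ≤ 2 * (e + 1) + 1 by omega, show 1 ≤ 2 * (e + 1) + 1 by omega]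
        grind
      rw [e1]; push_cast
      have hp : (0 : ℝ) ≤ (q : ℝ) ^ e := by positivity
      rw [pow_succ]
      nlinarith [mul_le_mul_of_nonneg_left h3 hp]

theorem evenPow_le_scale (q d : ℕ) : (evenPow q d : ℝ) ≤ 1 * scale q d := by
  rw [evenPow, scale]
  split_ifs
  · simp
  · rw [Nat.cast_zero]; positivity

/-- The product of the factors for all labels. -/
noncomputable def facO : ℕ → ℝ
  | 0 => 1
  | i + 1 => facO i * (1 / (1 - 1 / (3 : ℝ) ^ (2 * i + 1))) *
      ((1 + 250 / 433 / (3 : ℝ) ^ (i + 1)) ^ 4 * (1 / (1 - 1 / (3 : ℝ) ^ (2 * (i + 1)))))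

/-- The product of the factors for labels without single generators at `±1`. -/
noncomputable def facR : ℕ → ℝ
  | 0 => 1
  | i + 1 => facR i * (1 / (1 - 1 / (3 : ℝ) ^ (2 * i + 1))) * (1 / (1 - 1 / (3 : ℝ) ^ (2 * (i + 1))))

theorem den_pos {j : ℕ} (hj : j ≠ 0) : 0 < 1 - 1 / (3 : ℝ) ^ j := by
  have : 1 / (3 : ℝ) ^ j < 1 := by rw [div_lt_one (by positivity)]; exact one_lt_pow₀ (by norm_num) hj
  linarith

theorem one_le_inv_den {j : ℕ} (hj : j ≠ 0) : 1 ≤ 1 / (1 - 1 / (3 : ℝ) ^ j) := by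
  rw [le_div_iff₀ (den_pos hj)]
  have : 0 ≤ 1 / (3 : ℝ) ^ j := by positivity
  linarith

theorem one_le_facO : ∀ i, 1 ≤ facO i
  | 0 => le_rfl
  | i + 1 => by
    rw [facO]
    exact one_le_mul_of_one_le_of_one_le (one_le_mul_of_one_le_of_one_le (one_le_facO i) (one_le_inv_den (by omega)))
      (one_le_mul_of_one_le_of_one_le (one_le_pow₀ (le_add_of_nonneg_right (by positivity))) (one_le_inv_den (by omega)))

theorem one_le_facR : ∀ i, 1 ≤ facR i
  | 0 => le_rfl
  | i + 1 => by
    rw [facR]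
    exact one_le_mul_of_one_le_of_one_le (one_le_mul_of_one_le_of_one_le (one_le_facR i) (one_le_inv_den (by omega)))
      (one_le_inv_den (by omega))

theorem ncard_labSetO_le [Fintype F] (h2 : (2 : F) ≠ 0) (hq : 3 ≤ Fintype.card F) : ∀ i N,
    ((labSetO F (fun _ => True) (2 * i + 1) N).ncard : ℝ) ≤
      28 / 9 * facO i * scale (Fintype.card F) N := by
  intro i
  induction i with
  | zero =>
    intro N
    rw [facO, mul_one]
    exact first_bound h2 hq _ (fun d => (Nat.cast_le.2 (levSetO_any h2 _ 1 d).2).trans (singleBound_le hq d)) N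
  | succ i ih =>
    intro N
    have hpos : 0 ≤ 28 / 9 * facO i := by have := one_le_facO i; positivity
    have h1 := step_bound h2 hq (fun _ => True) (K := 2 * i + 1) (W := evenPow (Fintype.card F)) hpos
      (fun d => (levSetO_pal h2 _ _ d fun L hL l hl => not_key_of_even h2 (hL.1 l hl).1
        (by rw [hL.2.1 l hl]; exact ⟨i + 1, by ring⟩)).2) ih
      (fun R => sum_evenPow_scale hq (k := 2 * i + 1 + 1) (by omega) R)
    have h3 := step_bound h2 hq (fun _ => True) (K := 2 * i + 1 + 1) (W := singleBound (Fintype.card F))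
      (by
        have h0 := den_pos (j := 2 * i + 1) (by omega)
        exact mul_nonneg hpos (div_nonneg zero_le_one h0.le))
      (fun d => (levSetO_any h2 _ _ d).2) h1
      (fun R => sum_singleBound_scale hq (i := i + 1) (by omega) R) N
    rw [facO]
    simp only [show 2 * i + 1 + 1 - 1 = 2 * i + 1 by omega] at h3
    rw [show 2 * (i + 1) + 1 = 2 * i + 1 + 1 + 1 by ring]
    refine h3.trans_eq ?_
    ring

theorem ncard_labSetR_le [Fintype F] (h2 : (2 : F) ≠ 0) (hq : 3 ≤ Fintype.card F) : ∀ i N,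
    ((labSetO F (fun l => ¬ l.IsKey) (2 * i + 1) N).ncard : ℝ) ≤ facR i * scale (Fintype.card F) N := by
  intro i
  induction i with
  | zero =>
    intro N
    rw [facR]
    exact first_bound h2 hq _ (fun d => (Nat.cast_le.2 (levSetO_pal h2 _ 1 d
      fun L hL l hl => hL.2.2.2 l hl).2).trans (evenPow_le_scale _ d)) N
  | succ i ih =>
    intro N
    have hpos : 0 ≤ facR i := zero_le_one.trans (one_le_facR i)
    have h0 := den_pos (j := 2 * i + 1) (by omega)
    have h1 := step_bound h2 hq (fun l => ¬ l.IsKey) (K := 2 * i + 1) (W := evenPow (Fintype.card F)) hpos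
      (fun d => (levSetO_pal h2 _ _ d fun L hL l hl => hL.2.2.2 l hl).2) ih
      (fun R => sum_evenPow_scale hq (k := 2 * i + 1 + 1) (by omega) R)
    have h3 := step_bound h2 hq (fun l => ¬ l.IsKey) (K := 2 * i + 1 + 1) (W := evenPow (Fintype.card F))
      (mul_nonneg hpos (div_nonneg zero_le_one h0.le))
      (fun d => (levSetO_pal h2 _ _ d fun L hL l hl => hL.2.2.2 l hl).2) h1
      (fun R => sum_evenPow_scale hq (k := 2 * i + 1 + 1 + 1) (by omega) R) N
    simp only [show 2 * i + 1 + 1 - 1 = 2 * i + 1 by omega,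
      show 2 * i + 1 + 1 + 1 - 1 = 2 * (i + 1) by omega] at h3
    rw [facR, show 2 * (i + 1) + 1 = 2 * i + 1 + 1 + 1 by ring]
    exact h3

theorem facO_le : ∀ i, facO i ≤ 107 / 20 := by
  have hmono : ∀ i, facO i ≤ facO (i + 1) := fun i => by
    rw [facO, mul_assoc]
    exact le_mul_of_one_le_right (zero_le_one.trans (one_le_facO i)) (one_le_mul_of_one_le_of_one_le
      (one_le_inv_den (by omega))
      (one_le_mul_of_one_le_of_one_le (one_le_pow₀ (le_add_of_nonneg_right (by positivity))) (one_le_inv_den (by omega))))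
  have hbig : ∀ i, 6 ≤ i → facO i ≤ 107 / 20 * (1 - 3 / 2 / (3 : ℝ) ^ i) := by
    intro i hi
    induction i, hi using Nat.le_induction with
    | base => simp only [facO]; norm_num
    | succ i hi ih =>
      set x := 1 / (3 : ℝ) ^ (i + 1) with hx
      have hx0 : 0 < x := by positivity
      have hx1 : x ≤ 1 / 2187 := by
        refine le_trans (one_div_le_one_div_of_le (by positivity)
          (pow_le_pow_right₀ (by norm_num) (show 7 ≤ i + 1 by omega))) ?_
        norm_num
      have e1 : 3 / 2 / (3 : ℝ) ^ i = 3 / 2 * (3 * x) := by rw [hx, pow_succ]; field_simp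
      have e2 : 250 / 433 / (3 : ℝ) ^ (i + 1) = 250 / 433 * x := by rw [hx]; ring
      have e3 : 1 / (3 : ℝ) ^ (2 * i + 1) = 3 * x ^ 2 := by
        rw [hx, show 2 * i + 1 = i + i + 1 by ring, pow_succ, pow_add, pow_succ]; field_simp; ring
      have e4 : 1 / (3 : ℝ) ^ (2 * (i + 1)) = x ^ 2 := by rw [hx, mul_comm 2, pow_mul, one_div_pow]
      have e5 : 3 / 2 / (3 : ℝ) ^ (i + 1) = 3 / 2 * x := by rw [hx]; ring
      rw [e1] at ih
      rw [facO, e2, e3, e4, e5, mul_assoc]
      have hfac : 1 / (1 - 3 * x ^ 2) * ((1 + 250 / 433 * x) ^ 4 * (1 / (1 - x ^ 2))) ≤ 1 + 3 * x := by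
        rw [mul_one_div, div_mul_div_comm, one_mul, div_le_iff₀ (mul_pos (by nlinarith) (by nlinarith))]
        nlinarith [pow_pos hx0 2, pow_pos hx0 3, pow_pos hx0 4, pow_pos hx0 5]
      calc facO i * (1 / (1 - 3 * x ^ 2) * ((1 + 250 / 433 * x) ^ 4 * (1 / (1 - x ^ 2))))
          ≤ facO i * (1 + 3 * x) := mul_le_mul_of_nonneg_left hfac (zero_le_one.trans (one_le_facO i))
        _ ≤ 107 / 20 * (1 - 3 / 2 * (3 * x)) * (1 + 3 * x) := mul_le_mul_of_nonneg_right ih (by positivity)
        _ ≤ 107 / 20 * (1 - 3 / 2 * x) := by nlinarith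
  intro i
  have h1 : facO i ≤ facO (max i 6) := monotone_nat_of_le_succ hmono (le_max_left _ _)
  have h3 : (0 : ℝ) ≤ 3 / 2 / (3 : ℝ) ^ (max i 6) := by positivity
  nlinarith [hbig _ (le_max_right i 6)]

theorem facR_le : ∀ i, facR i ≤ 9 / 5 := by
  have hbig : ∀ i, 4 ≤ i → facR i ≤ 9 / 5 * (1 - 1 / 2 / (3 : ℝ) ^ i) := by
    intro i hi
    induction i, hi using Nat.le_induction with
    | base => simp only [facR]; norm_num
    | succ i hi ih =>
      set x := 1 / (3 : ℝ) ^ (i + 1) with hx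
      have hx0 : 0 < x := by positivity
      have hx1 : x ≤ 1 / 243 := by
        refine le_trans (one_div_le_one_div_of_le (by positivity)
          (pow_le_pow_right₀ (by norm_num) (show 5 ≤ i + 1 by omega))) ?_
        norm_num
      have e1 : 1 / 2 / (3 : ℝ) ^ i = 1 / 2 * (3 * x) := by rw [hx, pow_succ]; field_simp
      have e3 : 1 / (3 : ℝ) ^ (2 * i + 1) = 3 * x ^ 2 := by
        rw [hx, show 2 * i + 1 = i + i + 1 by ring, pow_succ, pow_add, pow_succ]; field_simp; ring
      have e4 : 1 / (3 : ℝ) ^ (2 * (i + 1)) = x ^ 2 := by rw [hx, mul_comm 2, pow_mul, one_div_pow]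
      have e5 : 1 / 2 / (3 : ℝ) ^ (i + 1) = 1 / 2 * x := by rw [hx]; ring
      rw [e1] at ih
      rw [facR, e3, e4, e5, mul_assoc]
      have hfac : 1 / (1 - 3 * x ^ 2) * (1 / (1 - x ^ 2)) ≤ 1 + x := by
        rw [div_mul_div_comm, one_mul, div_le_iff₀ (mul_pos (by nlinarith) (by nlinarith))]
        nlinarith [pow_pos hx0 2, pow_pos hx0 3, pow_pos hx0 4, pow_pos hx0 5]
      calc facR i * (1 / (1 - 3 * x ^ 2) * (1 / (1 - x ^ 2)))
          ≤ facR i * (1 + x) := mul_le_mul_of_nonneg_left hfac (zero_le_one.trans (one_le_facR i))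
        _ ≤ 9 / 5 * (1 - 1 / 2 * (3 * x)) * (1 + x) := mul_le_mul_of_nonneg_right ih (by positivity)
        _ ≤ 9 / 5 * (1 - 1 / 2 * x) := by nlinarith
  have hmono : ∀ i, facR i ≤ facR (i + 1) := fun i => by
    rw [facR, mul_assoc]
    exact le_mul_of_one_le_right (zero_le_one.trans (one_le_facR i))
      (one_le_mul_of_one_le_of_one_le (one_le_inv_den (by omega)) (one_le_inv_den (by omega)))
  intro i
  have h1 : facR i ≤ facR (max i 4) := monotone_nat_of_le_succ hmono (le_max_left _ _)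
  have h3 : (0 : ℝ) ≤ 1 / 2 / (3 : ℝ) ^ (max i 4) := by positivity
  nlinarith [hbig _ (le_max_right i 4)]

end CfsgLib.IsometryClasses
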