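import Cfsg.Agent.IsometryClasses.Decomp

/-!
# Splitting off a piece, and the induction giving normal forms
-/

set_option autoImplicit false
set_option linter.style.haveILetI false

namespace CfsgLib.IsometryClasses

open Polynomial Module

universe v

variable {F : Type*} [Field F]

theorem exists_top_smul {H : F[X]} {k : ℕ} {c : F} (hH : H = X - C c) (hk : k ≠ 0)
    (b : AdjoinRoot (H ^ k)) : ∃ t : F, top H k * b = t • top H k := by
  subst hH
  exact top_linear_scalar hk b

theorem gram_nd {ε : F} {l : Lab F} (hl : l.Valid ε)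
    (hgood : l.dbl = false → l.SingleP ε (l.single ε)) (h2 : (2 : F) ≠ 0)
    (a : Fin l.gens → AdjoinRoot l.modulus)
    (h : ∀ b : Fin l.gens → AdjoinRoot l.modulus,
      ∑ i, ∑ j, l.gram ε i j (a i * sig hl.recip_modulus (b j)) = 0) : a = 0 := by
  classical
  have h' : ∀ (j : Fin l.gens) (c : AdjoinRoot l.modulus), ∑ i, l.gram ε i j (a i * c) = 0 := by
    intro j c
    have h1 := h (Pi.single j (sig hl.recip_modulus c))
    rw [← h1]
    refine Finset.sum_congr rfl fun i _ => ?_
    rw [Finset.sum_eq_single j (fun j' _ hj' => by rw [Pi.single_eq_of_ne hj', map_zero, mul_zero, map_zero])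
      (fun hh => absurd (Finset.mem_univ j) hh), Pi.single_eq_same, sig_sig]
  obtain ⟨k, H, d, s⟩ := l
  cases d
  · funext i
    have hi : i = (⟨0, Nat.zero_lt_one⟩ : Fin 1) := Fin.ext (Nat.lt_one_iff.1 i.2)
    refine ((hgood rfl).1 hl.recip).2 _ fun c => ?_
    have h1 := h' i c
    rw [Finset.sum_eq_single i (fun i' _ hne => absurd (Fin.ext ((Nat.lt_one_iff.1 i'.2).trans (Nat.lt_one_iff.1 i.2).symm)) hne) (fun hh => absurd (Finset.mem_univ i) hh)] at h1
    exact h1
  · rcases hl.kind with ⟨-, hd, -⟩ | ⟨c, hc, hHc, -⟩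
    · exact absurd hd (by simp)
    simp only at hHc
    subst hHc
    obtain ⟨δ, hδ⟩ := exists_isPairFun (k := k) h2 hc hl.recip hl.pos
    have hP : Lab.PairP (⟨k, X - C c, true, s⟩ : Lab F) (Lab.pair ⟨k, X - C c, true, s⟩) :=
      Classical.epsilon_spec (p := Lab.PairP (⟨k, X - C c, true, s⟩ : Lab F)) ⟨δ, fun _ => hδ.1, hδ.2⟩
    have hnd := IsPairFun.nd (c := c) (hH := hl.recip) (δ := Lab.pair ⟨k, X - C c, true, s⟩) hl.pos ⟨hP.1 hl.recip, hP.2⟩
    have hu : (Finset.univ : Finset (Fin 2)) = {0, 1} := by decide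
    funext i
    refine hnd _ fun c' => ?_
    have h1 := h' (if (i : ℕ) = 0 then (⟨1, Nat.one_lt_two⟩ : Fin 2) else (⟨0, Nat.two_pos⟩ : Fin 2)) c'
    change ∑ i' : Fin 2, _ = _ at h1
    rw [Fin.sum_univ_two] at h1
    have hi2 : (i : ℕ) < 2 := i.2
    rcases Nat.lt_or_ge (i : ℕ) 1 with hi | hi
    · have e : i = (⟨0, Nat.two_pos⟩ : Fin 2) := Fin.ext (by show (i : ℕ) = 0; omega)
      subst e
      simp [Lab.gram] at h1
      exact h1
    · have e : i = (⟨1, Nat.one_lt_two⟩ : Fin 2) := Fin.ext (by show (i : ℕ) = 1; omega)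
      subst e
      simp [Lab.gram] at h1
      exact h1

theorem aeval_restrict {V : Type*} [AddCommGroup V] [Module F V] {g : V ≃ₗ[F] V} {R : Submodule F V}
    {gR : R ≃ₗ[F] R} (hc : ∀ r : R, (gR r : V) = g r) (p : F[X]) (r : R) :
    ((aeval (endo gR) p r : R) : V) = aeval (endo g) p (r : V) := by
  induction p using Polynomial.induction_on generalizing r with
  | C c => simp [aeval_C, Module.algebraMap_end_apply]
  | add p q hp hq => simp [hp, hq]
  | monomial n c ih =>
    rw [show C c * X ^ (n + 1) = (C c * X ^ n) * X by ring, map_mul, map_mul (aeval (endo g)) _ X, aeval_X,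
      aeval_X, Module.End.mul_apply, Module.End.mul_apply, ih]
    exact congrArg _ (hc r)

theorem psi_restrict {V : Type*} [AddCommGroup V] [Module F V] {g : V ≃ₗ[F] V} {R : Submodule F V}
    {gR : R ≃ₗ[F] R} (hc : ∀ r : R, (gR r : V) = g r) {f : F[X]} (hm : f.Monic) {r : R}
    (hr : r ∈ kill gR f) :
    (r : V) ∈ kill g f ∧ ∀ a, ((psi gR hm r a : R) : V) = psi g hm (r : V) a := by
  have hr' : (r : V) ∈ kill g f := by
    rw [kill, LinearMap.mem_ker, ← aeval_restrict hc, LinearMap.mem_ker.1 hr, Submodule.coe_zero]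
  refine ⟨hr', fun a => ?_⟩
  induction a using AdjoinRoot.induction_on with
  | ih p => rw [psi_mk hm hr, psi_mk hm hr', aeval_restrict hc]

/-- **Every isometry has a normal form.** -/
theorem exists_normalForm [Finite F] (h2 : (2 : F) ≠ 0) {ε : F} (hε : ε * ε = 1) :
    ∀ (n : ℕ) {V : Type v} [AddCommGroup V] [Module F V] [FiniteDimensional F V]
      (B : LinearMap.BilinForm F V) (g : V ≃ₗ[F] V), IsEps ε B g → finrank F V = n →
      ∃ (ι : Type) (_ : Fintype ι) (lab : ι → Lab F), Nonempty (NF ε B g lab) := by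
  intro n
  induction n using Nat.strong_induction_on with
  | _ n ih =>
  intro V _ _ _ B g hE hn
  classical
  rcases subsingleton_or_nontrivial V with hV | hV
  · refine ⟨Empty, inferInstance, fun i => i.elim, ⟨{
      valid := fun i => i.elim, good := fun i => i.elim, sq_unique := fun i => i.elim
      xs := fun i => i.elim, mem := fun i => i.elim, gram_eq := fun i => i.elim
      orth := fun i => i.elim
      bij := ⟨fun a b _ => funext fun i => i.elim, fun v => ⟨fun i => i.elim, Subsingleton.elim _ _⟩⟩ }⟩⟩
  obtain ⟨l, hl, xs, hxs, hgram, hgood, hns⟩ := exists_piece h2 hε hE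
  set hm := hl.monic
  set P := pieceMap g hm xs
  haveI : Finite (AdjoinRoot l.modulus) := finite_adjoinRoot hm
  haveI := (AdjoinRoot.powerBasis' hm).finite
  have hzero : ∀ a, (∀ c, B (P a) (P c) = 0) → a = 0 := fun a ha =>
    gram_nd hl hgood h2 a fun b => by rw [← B_pieceMap hE hl hxs hgram]; exact ha b
  let T : (Fin l.gens → AdjoinRoot l.modulus) →ₗ[F]
      Module.Dual F (Fin l.gens → AdjoinRoot l.modulus) := (B.compl₁₂ P P).flip
  have hT : Function.Injective T := by
    rw [injective_iff_map_eq_zero]
    exact fun a ha => hzero a fun c => hE.eq_zero_comm (LinearMap.congr_fun ha c)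
  have hTs : Function.Surjective T :=
    (LinearMap.injective_iff_surjective_of_finrank_eq_finrank Subspace.dual_finrank_eq.symm).1 hT
  let R : Submodule F V :=
    { carrier := {v | ∀ a, B (P a) v = 0}
      zero_mem' := fun a => map_zero _
      add_mem' := fun {u w} hu hw a => by rw [map_add, hu a, hw a, add_zero]
      smul_mem' := fun c u hu a => by rw [map_smul, hu a, smul_zero] }
  have hsplit : ∀ v, ∃ a, v - P a ∈ R := fun v => by
    obtain ⟨a, ha⟩ := hTs ((B.flip v) ∘ₗ P)
    refine ⟨a, fun c => ?_⟩
    rw [map_sub, sub_eq_zero]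
    exact (LinearMap.congr_fun ha c).symm
  have hPinj : Function.Injective P := by
    rw [injective_iff_map_eq_zero]
    exact fun a ha => hzero a fun c => by rw [ha, map_zero, LinearMap.zero_apply]
  have hginv : ∀ r ∈ R, g r ∈ R := fun r hr a => by
    have ha : P a = g (P fun j => rinv _ * a j) := by
      rw [pieceMap_root hm hxs]
      exact congrArg P (funext fun j => by rw [← mul_assoc, root_mul_rinv hl.recip_modulus.coeff_zero, one_mul])
    rw [ha, hE.iso]
    exact hr _
  let gR : R ≃ₗ[F] R := LinearEquiv.ofInjectiveEndo (g.toLinearMap.restrict hginv) fun a b e =>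
    Subtype.ext (g.injective (congrArg Subtype.val e))
  have hgRv : ∀ r : R, (gR r : V) = g r := fun r => rfl
  let BR : LinearMap.BilinForm F R := B.compl₁₂ R.subtype R.subtype
  have hER : IsEps ε BR gR := by
    refine ⟨fun x y => hE.iso x y, fun x y => hE.symm x y, fun x hx => Subtype.ext (hE.nondeg _ fun v => ?_)⟩
    obtain ⟨a, ha⟩ := hsplit v
    rw [← sub_add_cancel v (P a), map_add]
    have h1 : B (x : V) (v - P a) = 0 := hx ⟨_, ha⟩
    rw [h1, hE.eq_zero_comm (x.2 a), add_zero]
  have hgens : 0 < l.gens := by rw [Lab.gens]; split_ifs <;> omega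
  have hlt : finrank F R < n := by
    rw [← hn]
    refine Submodule.finrank_lt fun e => ?_
    have he0 : (fun _ => (1 : AdjoinRoot l.modulus)) = (0 : Fin l.gens → AdjoinRoot l.modulus) :=
      hzero _ fun c => hE.eq_zero_comm ((e ▸ Submodule.mem_top : P (fun _ => 1) ∈ R) c)
    have h10 := congrFun he0 ⟨0, hgens⟩
    exact top_ne_zero hl.recip.monic hl.deg hl.pos (by
      rw [← mul_one (top l.H l.k), show (1 : AdjoinRoot (l.H ^ l.k)) = 0 from h10, mul_zero])
  obtain ⟨ι, _, lab, ⟨N⟩⟩ := ih _ hlt BR gR hER rfl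
  have hk : ∀ i j, ((N.xs i j : R) : V) ∈ kill g (lab i).modulus := fun i j =>
    (psi_restrict hgRv (N.valid i).monic (N.mem i j)).1
  have hpm : ∀ i a, pieceMap g (N.valid i).monic (fun j => (N.xs i j : V)) a =
      ((pieceMap gR (N.valid i).monic (N.xs i) a : R) : V) := fun i a => by
    rw [pieceMap_apply, pieceMap_apply, Submodule.coe_sum]
    exact Finset.sum_congr rfl fun j _ => ((psi_restrict hgRv _ (N.mem i j)).2 _).symm
  have hphi : ∀ i j j', Phi B g (N.valid i).monic (N.xs i j : V) (N.xs i j' : V) =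
      Phi BR gR (N.valid i).monic (N.xs i j) (N.xs i j') := fun i j j' => LinearMap.ext fun a => by
    rw [Phi_apply, Phi_apply, ← (psi_restrict hgRv _ (N.mem i j)).2]
    rfl
  let lab' : Option ι → Lab F := fun o => o.elim l lab
  have hvalid : ∀ o, (lab' o).Valid ε := fun o => by cases o with
    | none => exact hl
    | some i => exact N.valid i
  have hclash : ∀ i, lab i = l → l.sq = true := fun i e => by
    by_contra hs
    have hs' : l.sq = false := by simpa using hs
    rcases hl.kind with ⟨-, -, h⟩ | ⟨c, hc, hHc, ⟨hd, -⟩ | ⟨-, h, -⟩⟩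
    · rw [h] at hs'; exact absurd hs' (by simp)
    swap
    · rw [h] at hs'; exact absurd hs' (by simp)
    subst e
    obtain ⟨t, ht⟩ : ∃ t, (lab i).single ε (top (lab i).H (lab i).k) = t := ⟨_, rfl⟩
    have hj : 0 < (lab i).gens := hgens
    set r : V := (N.xs i ⟨0, hj⟩ : V)
    set x : V := xs ⟨0, hj⟩
    have hgl : (lab i).gram ε ⟨0, hj⟩ ⟨0, hj⟩ = (lab i).single ε := by rw [Lab.gram, if_neg (by simp [hd])]
    have hr : Phi B g hm r r = (lab i).single ε := by rw [← hgl, ← N.gram_eq i, ← hphi]
    have hx : Phi B g hm x x = (lab i).single ε := by rw [← hgl, ← hgram]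
    have hort : ∀ a b, B (psi g hm x a) (psi g hm r b) = 0 := fun a b => by
      have hb : psi g hm r b ∈ R := by
        rw [← (psi_restrict hgRv _ (N.mem i ⟨0, hj⟩)).2]
        exact Submodule.coe_mem _
      have h1 := hb (Pi.single ⟨0, hj⟩ a)
      rw [show P (Pi.single ⟨0, hj⟩ a) = psi g hm x a by
        simp only [P, pieceMap_apply]
        rw [Finset.sum_eq_single ⟨0, hj⟩ (fun j _ hne => by rw [Pi.single_eq_of_ne hne, map_zero])
          (fun h => absurd (Finset.mem_univ _) h), Pi.single_eq_same]] at h1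
      exact h1
    have hS := hgood hd
    have ht0 : t ≠ 0 := by
      intro h0
      obtain ⟨b, hb⟩ := exists_top_ne hl.recip.monic hl.deg hl.pos (hS.1 hl.recip).2
      obtain ⟨u, hu⟩ := exists_top_smul hHc hl.pos b
      exact hb (by rw [hu, map_smul, ht, h0, smul_zero])
    obtain ⟨u, w, huw⟩ := CfsgLib.LinAlg.Witt.exists_sum_two_sq h2 ht0 ht0 1
    suffices hv : HasValue B g (lab i) hm 1 by
      rcases hns hs' 1 hv with h | h
      · exact one_ne_zero h
      · exact h IsSquare.one
    refine ⟨u • x + w • r, add_mem (Submodule.smul_mem _ _ (hxs _)) (Submodule.smul_mem _ _ (hk i _)), ?_⟩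
    · have hxr : Phi B g hm x r (top (lab i).H (lab i).k) = 0 := by
        rw [Phi_apply]
        conv_lhs => arg 2; rw [← psi_one hm (show r ∈ kill g (lab i).modulus from hk i ⟨0, hj⟩)]
        exact hort _ 1
      have hrx : Phi B g hm r x (top (lab i).H (lab i).k) = 0 := by
        rw [Phi_apply]
        conv_lhs => arg 2; rw [← psi_one hm (show x ∈ kill g (lab i).modulus from hxs ⟨0, hj⟩)]
        exact hE.eq_zero_comm (hort 1 _)
      have h1 : Phi B g hm x x (top (lab i).H (lab i).k) = t := by rw [hx, ht]
      have h2' : Phi B g hm r r (top (lab i).H (lab i).k) = t := by rw [hr, ht]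
      rw [Phi_apply] at hxr hrx h1 h2' ⊢
      simp only [map_add, map_smul, LinearMap.add_apply, LinearMap.smul_apply, smul_eq_mul, hxr, hrx, h1, h2']
      linear_combination huw
  refine ⟨Option ι, inferInstance, lab', ⟨{
    valid := hvalid
    good := fun o => by cases o with
      | none => exact hgood
      | some i => exact N.good i
    sq_unique := fun o o' hne he => by
      rcases o with _ | i <;> rcases o' with _ | j
      · exact absurd rfl hne
      · exact hclash j he.symm
      · show (lab i).sq = true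
        rw [show lab i = l from he]; exact hclash i he
      · exact N.sq_unique i j (fun e => hne (congrArg some e)) he
    xs := fun o => match o with
      | none => xs
      | some i => fun j => (N.xs i j : V)
    mem := fun o => by cases o with
      | none => exact hxs
      | some i => exact hk i
    gram_eq := fun o j j' => by cases o with
      | none => exact hgram j j'
      | some i => exact (hphi i j j').trans (N.gram_eq i j j')
    orth := fun o o' hne a b => by
      rcases o with _ | i <;> rcases o' with _ | j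
      · exact absurd rfl hne
      · show B (P a) (pieceMap g (N.valid j).monic (fun l => (N.xs j l : V)) b) = 0
        exact (congrArg (B (P a)) (hpm j b)).trans ((pieceMap gR _ _ b).2 a)
      · show B (pieceMap g (N.valid i).monic (fun l => (N.xs i l : V)) a) (P b) = 0
        exact (congrArg (fun z => B z (P b)) (hpm i a)).trans (hE.eq_zero_comm ((pieceMap gR _ _ a).2 b))
      · show B (pieceMap g (N.valid i).monic (fun l => (N.xs i l : V)) a)
          (pieceMap g (N.valid j).monic (fun l => (N.xs j l : V)) b) = 0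
        exact (congrArg₂ (fun z w => B z w) (hpm i a) (hpm j b)).trans
          (N.orth i j (fun e => hne (congrArg some e)) a b)
    bij := ?_ }⟩⟩
  let sp : (∀ o, Fin (lab' o).gens → AdjoinRoot (lab' o).modulus) →
      (Fin l.gens → AdjoinRoot l.modulus) × (∀ i, Fin (lab i).gens → AdjoinRoot (lab i).modulus) :=
    fun a => (a none, fun i => a (some i))
  have e1 : ∀ ar : ∀ i, Fin (lab i).gens → AdjoinRoot (lab i).modulus, ((N.equiv ar : R) : V) =
      ∑ i, pieceMap g (N.valid i).monic (fun j => (N.xs i j : V)) (ar i) := fun ar => by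
    rw [N.equiv_apply, Submodule.coe_sum]
    exact Finset.sum_congr rfl fun i _ => (hpm i _).symm
  have hform : ∀ a : (∀ o, Fin (lab' o).gens → AdjoinRoot (lab' o).modulus),
      ∑ o, pieceMap g (hvalid o).monic (match o with
        | none => xs
        | some i => fun j => (N.xs i j : V)) (a o) = P (sp a).1 + ((N.equiv (sp a).2 : R) : V) := by
    intro a
    rw [Fintype.sum_option, e1]
    rfl
  constructor
  · intro a b e
    have e' : P (sp a).1 + ((N.equiv (sp a).2 : R) : V) = P (sp b).1 + ((N.equiv (sp b).2 : R) : V) :=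
      (hform a).symm.trans (e.trans (hform b))
    have hd : P ((sp a).1 - (sp b).1) = ((N.equiv (sp b).2 - N.equiv (sp a).2 : R) : V) := by
      rw [map_sub, Submodule.coe_sub, sub_eq_sub_iff_add_eq_add, e']; abel
    have h0 : (sp a).1 = (sp b).1 := sub_eq_zero.1 (hzero _ fun c => hE.eq_zero_comm (by
      rw [hd]; exact (N.equiv (sp b).2 - N.equiv (sp a).2).2 c))
    have h1 : (sp a).2 = (sp b).2 := N.equiv.injective (Subtype.ext (by
      rw [h0] at e'; exact add_left_cancel e'))
    funext o
    cases o with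
    | none => exact h0
    | some i => exact congrFun h1 i
  · intro v
    obtain ⟨a0, ha0⟩ := hsplit v
    obtain ⟨ar, har⟩ := N.equiv.surjective ⟨_, ha0⟩
    refine ⟨fun o => match o with
      | none => a0
      | some i => ar i, (hform _).trans ?_⟩
    show P a0 + ((N.equiv ar : R) : V) = v
    rw [har]
    exact add_sub_cancel _ _

end CfsgLib.IsometryClasses
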