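import Cfsg.Agent.Eq.Def_Classical
import Cfsg.Agent.IsometryClasses.Split
import Cfsg.Agent.IsometryClasses.OrthCount
import Cfsg.Agent.LinAlg.Witt.Mat
import Cfsg.Agent.LinAlg.Witt.Discr

/-!
# Class number upper bound for orthogonal groups in odd characteristic
-/

set_option autoImplicit false
set_option linter.style.haveILetI false

namespace CfsgLib.IsometryClasses

open Polynomial Module Matrix Cfsg.Geo
open scoped Classical

variable {F : Type*} [Field F]

section Labels

variable {V : Type*} [AddCommGroup V] [Module F V] {ε : F} {B : LinearMap.BilinForm F V} {g : V ≃ₗ[F] V}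

theorem finrank_std {l : Lab F} (hl : l.Valid ε) :
    finrank F (Fin l.gens → AdjoinRoot l.modulus) = l.wt := by
  haveI := (AdjoinRoot.powerBasis' hl.monic).finite
  rw [Module.finrank_pi_fintype, Finset.sum_const, Finset.card_univ, Fintype.card_fin,
    (AdjoinRoot.powerBasis' hl.monic).finrank, AdjoinRoot.powerBasis'_dim, smul_eq_mul, Lab.wt, Lab.level,
    natDegree_pow, natDegree_pow]
  ring

/-- Labels of any structure. -/
theorem exists_hasLabels [Finite F] [FiniteDimensional F V] (h2 : (2 : F) ≠ 0) (hε : ε * ε = 1)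
    (hE : IsEps ε B g) :
    ∃ L, HasLabels ε B g L ∧ LabOK ε L ∧ (∀ l ∈ L, l.k ≤ finrank F V) ∧
      (L.map Lab.wt).sum = finrank F V := by
  obtain ⟨ι, _, lab, ⟨N⟩⟩ := exists_normalForm h2 hε _ B g hE rfl
  have hsum : ((N.labels).map Lab.wt).sum = finrank F V := by
    haveI : ∀ i, Module.Finite F (Fin (lab i).gens → AdjoinRoot (lab i).modulus) := fun i => by
      haveI := (AdjoinRoot.powerBasis' (N.valid i).monic).finite
      infer_instance
    rw [← N.equiv.finrank_eq, Module.finrank_pi_fintype, NF.labels, Multiset.map_map]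
    exact Finset.sum_congr rfl fun i _ => (finrank_std (N.valid i)).symm
  have hmem : ∀ l ∈ N.labels, ∃ i, lab i = l := fun l hl => by
    simpa [NF.labels] using hl
  refine ⟨N.labels, ⟨ι, inferInstance, lab, N, rfl⟩, fun l hl => ?_, fun l hl => ?_, hsum⟩
  · obtain ⟨i, rfl⟩ := hmem l hl
    refine ⟨N.valid i, fun hs => ?_⟩
    rw [NF.labels, Multiset.count_map]
    show ((Finset.univ.filter fun j => lab i = lab j)).card = 1
    rw [Finset.card_eq_one]
    refine ⟨i, Finset.eq_singleton_iff_unique_mem.2 ⟨by simp, fun j hj => ?_⟩⟩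
    by_contra hne
    have h1 := N.sq_unique i j (Ne.symm hne) (Finset.mem_filter.1 hj).2
    rw [hs] at h1
    exact absurd h1 (by simp)
  · obtain ⟨i, rfl⟩ := hmem l hl
    have h1 : (lab i).wt ≤ finrank F V := hsum ▸ Multiset.le_sum_of_mem (Multiset.mem_map_of_mem _ hl)
    have h3 : 1 ≤ (lab i).level.natDegree := by
      rw [Lab.level, natDegree_pow]
      exact Nat.one_le_iff_ne_zero.2 (Nat.mul_ne_zero (by rw [Lab.gens]; split_ifs <;> omega) (N.valid i).deg)
    have h4 : (lab i).k ≤ (lab i).k * (lab i).level.natDegree := Nat.le_mul_of_pos_right _ h3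
    rw [Lab.wt] at h1
    omega

theorem HasLabels.exists_nf {L : Multiset (Lab F)} (h : HasLabels ε B g L) {ι : Type} [Fintype ι]
    (lab : ι → Lab F) (hl : Finset.univ.val.map lab = L) : Nonempty (NF ε B g lab) := by
  obtain ⟨κ, _, lab', N, hN⟩ := h
  obtain ⟨s, hs⟩ := exists_equiv_of_map_eq (hl.trans hN.symm)
  have N' := N.reindex s
  have e : (fun i => lab' (s i)) = lab := funext hs
  rw [e] at N'
  exact ⟨N'⟩

end Labels

/-! ### Discriminants -/

theorem isSquare_det_of_congr {V : Type*} [AddCommGroup V] [Module F V] [FiniteDimensional F V]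
    (B : LinearMap.BilinForm F V) (hker : LinearMap.ker B = ⊥) (T D : V →ₗ[F] V)
    (h : ∀ u v, B (T u) (T v) = B (D u) v) : IsSquare (LinearMap.det D) := by
  set b := Module.finBasis F V
  have hc : ∀ S : V →ₗ[F] V, b.toMatrix (fun i => S (b i)) = LinearMap.toMatrix b b S := fun S => by
    ext i j
    rw [Basis.toMatrix_apply, LinearMap.toMatrix_apply]
  have h1 : CfsgLib.LinAlg.Witt.gram B (fun i => T (b i)) =
      (LinearMap.toMatrix b b D)ᵀ * CfsgLib.LinAlg.Witt.gram B b := by
    ext i j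
    rw [CfsgLib.LinAlg.Witt.gram_apply, h, ← b.sum_repr (D (b i)), map_sum, LinearMap.sum_apply,
      Matrix.mul_apply]
    exact Finset.sum_congr rfl fun a _ => by
      rw [map_smul, LinearMap.smul_apply, smul_eq_mul, Matrix.transpose_apply, LinearMap.toMatrix_apply,
        CfsgLib.LinAlg.Witt.gram_apply]
  rw [CfsgLib.LinAlg.Witt.gram_change B b, hc] at h1
  have h2 := congrArg Matrix.det h1
  rw [Matrix.det_mul, Matrix.det_mul, Matrix.det_transpose, Matrix.det_mul, Matrix.det_transpose,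
    LinearMap.det_toMatrix, LinearMap.det_toMatrix] at h2
  refine ⟨LinearMap.det T, ?_⟩
  refine mul_right_cancel₀ (CfsgLib.LinAlg.Witt.gram_det_ne_zero B b hker) ?_
  linear_combination -h2

theorem not_isSquare_det_mul [Finite F] (h2 : (2 : F) ≠ 0) {c : F} (hH : Recip (X - C c)) {k : ℕ}
    (hk : Odd k) {ρ : AdjoinRoot ((X - C c) ^ k)} (hσ : sig (hH.pow k) ρ = ρ) {t : F}
    (ht : red (X - C c) k hk.pos.ne' ρ = algebraMap F _ t) (hns : ¬ IsSquare t) :
    ¬ IsSquare (LinearMap.det (LinearMap.mulLeft F ρ)) := by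
  have hk0 := hk.pos.ne'
  have hd : (X - C c).natDegree ≠ 0 := by rw [natDegree_X_sub_C]; exact one_ne_zero
  have ht0 : t ≠ 0 := fun e => hns (e ▸ IsSquare.zero)
  set u : AdjoinRoot ((X - C c) ^ k) := ρ * algebraMap F (AdjoinRoot ((X - C c) ^ k)) t⁻¹ with hu
  have hred : red (X - C c) k hk0 u = 1 := by
    rw [hu, map_mul, ht, AlgHom.commutes, ← map_mul, mul_inv_cancel₀ ht0, map_one]
  obtain ⟨b, -, hbb⟩ := exists_norm_of_red h2 hH hd hk0 (r := u)
    (isUnit_of_red hk0 (by rw [hred]; exact isUnit_one)) (by rw [hu, map_mul, hσ, AlgHom.commutes])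
    (b₀ := 1) (by rw [map_one, mul_one, hred])
  have hconj : LinearMap.det (LinearMap.mulLeft F (sig (hH.pow k) b)) =
      LinearMap.det (LinearMap.mulLeft F b) := by
    let e : AdjoinRoot ((X - C c) ^ k) ≃ₗ[F] AdjoinRoot ((X - C c) ^ k) := (AlgEquiv.ofAlgHom (sig (hH.pow k)) (sig (hH.pow k))
      (AlgHom.ext (sig_sig (hH.pow k))) (AlgHom.ext (sig_sig (hH.pow k)))).toLinearEquiv
    rw [← LinearMap.det_conj (LinearMap.mulLeft F b) e]
    congr 1
    ext a
    show sig (hH.pow k) b * a = sig (hH.pow k) (b * e.symm a)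
    rw [map_mul]
    congr 1
    exact (sig_sig (hH.pow k) a).symm
  have hdim : finrank F (AdjoinRoot ((X - C c) ^ k)) = k := by
    rw [(AdjoinRoot.powerBasis' (hH.pow k).monic).finrank, AdjoinRoot.powerBasis'_dim, natDegree_pow,
      natDegree_X_sub_C, mul_one]
  have hρ : LinearMap.mulLeft F ρ =
      t • (LinearMap.mulLeft F b ∘ₗ LinearMap.mulLeft F (sig (hH.pow k) b)) := by
    refine LinearMap.ext fun a => ?_
    rw [LinearMap.smul_apply, LinearMap.comp_apply, LinearMap.mulLeft_apply, LinearMap.mulLeft_apply,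
      LinearMap.mulLeft_apply, ← mul_assoc b, hbb, hu, Algebra.smul_def]
    have : algebraMap F (AdjoinRoot ((X - C c) ^ k)) t * algebraMap F (AdjoinRoot ((X - C c) ^ k)) t⁻¹ = 1 := by rw [← map_mul, mul_inv_cancel₀ ht0, map_one]
    linear_combination (-(ρ * a)) * this
  rw [hρ, LinearMap.det_smul, LinearMap.det_comp, hconj, hdim]
  rintro ⟨w, hw⟩
  set z := LinearMap.det (LinearMap.mulLeft F b)
  obtain ⟨m, rfl⟩ := hk
  have hz : z ≠ 0 := fun hz => by
    have hw0 : b * sig (hH.pow (2 * m + 1)) b = u := hbb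
    have hu1 : IsUnit u := isUnit_of_red hk0 (by rw [hred]; exact isUnit_one)
    rw [← hw0] at hu1
    have hbu : IsUnit b := isUnit_of_mul_isUnit_left hu1
    obtain ⟨b', hb'⟩ := hbu.exists_left_inv
    have := congrArg LinearMap.det (show LinearMap.mulLeft F b' ∘ₗ LinearMap.mulLeft F b = LinearMap.id from
      LinearMap.ext fun a => by simp [← mul_assoc, hb'])
    rw [LinearMap.det_comp, show LinearMap.det (LinearMap.mulLeft F b) = z from rfl, hz, mul_zero,
      LinearMap.det_id] at this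
    exact zero_ne_one this
  refine hns ⟨w / (t ^ m * z), ?_⟩
  field_simp
  linear_combination hw

theorem single_rep [Finite F] (h2 : (2 : F) ≠ 0) {l l' : Lab F} {c : F} (hl : l.Valid (1 : F))
    (hH : l.H = X - C c) (hd : l.dbl = false) (hl' : l' = ⟨l.k, l.H, l.dbl, !l.sq⟩)
    (hS : l.SingleP (1 : F) (l.single 1)) (hS' : l'.SingleP (1 : F) (l'.single 1)) :
    Odd l.k ∧ ∃ ρ : AdjoinRoot l.modulus, sig hl.recip_modulus ρ = ρ ∧
      ¬ IsSquare (LinearMap.det (LinearMap.mulLeft F ρ)) ∧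
      ∀ a, (Lab.single 1 (⟨l.k, l.H, l.dbl, !l.sq⟩ : Lab F)) a = l.single 1 (ρ * a) := by
  subst hl'
  obtain ⟨k, H, d, s⟩ := l
  simp only at hH hd
  subst hH hd
  have hH : Recip (X - C c) := hl.recip
  have hk : Odd k := Nat.not_even_iff_odd.1 fun he => not_key_of_even h2 hl he ⟨c, rfl, rfl⟩
  refine ⟨hk, ?_⟩
  set φ := Lab.single (1 : F) ⟨k, X - C c, false, s⟩
  set ψ := Lab.single (1 : F) ⟨k, X - C c, false, !s⟩
  have hφ : GoodFun (1 : F) hH k φ := hS.1 hH
  have hψ : GoodFun (1 : F) hH k ψ := hS'.1 hH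
  obtain ⟨ρ, hρ, hρu, hρs⟩ := exists_scale_gen.exists_fixed_rep one_ne_zero hH hφ hψ
  obtain ⟨t, ht⟩ := exists_red_scalar hk.pos.ne' ρ
  refine ⟨ρ, hρs, not_isSquare_det_mul h2 hH hk hρs ht fun hsq => ?_, hρ⟩
  obtain ⟨u, hu⟩ := top_linear_scalar hk.pos.ne' ρ
  have htu : t = u := by
    have h0 := top_mul hk.pos.ne' (show red (X - C c) k hk.pos.ne' (ρ - algebraMap F _ t) = 0 by
      rw [map_sub, ht, AlgHom.commutes, sub_self])
    rw [mul_sub, hu, sub_eq_zero, mul_comm, ← Algebra.smul_def] at h0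
    exact (smul_left_injective F (top_ne_zero hH.monic (by rw [natDegree_X_sub_C]; exact one_ne_zero)
      hk.pos.ne') h0).symm
  have hval : ψ (top _ k) = t * φ (top _ k) := by
    rw [hρ, mul_comm, hu, map_smul, smul_eq_mul, htu]
  have h1 := hS.2 c rfl
  have h1' := hS'.2 c rfl
  simp only at h1 h1'
  have ht0 : t ≠ 0 := by
    intro e
    obtain ⟨b, hb⟩ := exists_top_ne hH.monic (by rw [natDegree_X_sub_C]; exact one_ne_zero) hk.pos.ne' hψ.2
    obtain ⟨v, hv⟩ := top_linear_scalar hk.pos.ne' b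
    rw [hv, map_smul, hval, e, zero_mul, smul_zero] at hb
    exact hb rfl
  change IsSquare (φ (top _ k)) ↔ _ at h1
  change IsSquare (ψ (top _ k)) ↔ _ at h1'
  rw [hval] at h1'
  obtain ⟨w, rfl⟩ := hsq
  have hw : w ≠ 0 := fun e => ht0 (by rw [e, mul_zero])
  have hiff : IsSquare (w * w * φ (top (X - C c) k)) ↔ IsSquare (φ (top (X - C c) k)) := by
    constructor
    · rintro ⟨r, hr⟩
      exact ⟨r / w, by field_simp; linear_combination hr⟩
    · rintro ⟨r, hr⟩
      exact ⟨w * r, by rw [hr]; ring⟩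
  cases s
  · exact absurd (h1.1 (hiff.1 (h1'.2 rfl))) (by simp)
  · exact absurd (h1'.1 (hiff.2 (h1.2 rfl))) (by simp)

/-- Changing one sign changes the discriminant. -/
theorem not_hasLabels_flip [Finite F] (h2 : (2 : F) ≠ 0) {V : Type*} [AddCommGroup V] [Module F V]
    [FiniteDimensional F V] {B : LinearMap.BilinForm F V} {g g' : V ≃ₗ[F] V} (hE : IsEps (1 : F) B g)
    (hE' : IsEps (1 : F) B g') (hker : LinearMap.ker B = ⊥) {l : Lab F} {c : F} (hH : l.H = X - C c)
    (hd : l.dbl = false) {M : Multiset (Lab F)} (h : HasLabels (1 : F) B g (l ::ₘ M))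
    (h' : HasLabels (1 : F) B g' (⟨l.k, l.H, l.dbl, !l.sq⟩ ::ₘ M)) : False := by
  set m : Fin M.toList.length → Lab F := M.toList.get with hm
  have hmap : ∀ x : Lab F, (Finset.univ : Finset (Option (Fin M.toList.length))).val.map
      (fun o : Option (Fin M.toList.length) => o.elim x m) = x ::ₘ M := fun x => by
    rw [show (Finset.univ : Finset (Option (Fin M.toList.length))) =
        Finset.cons none (Finset.univ.map Function.Embedding.some) (by simp) from
      Finset.ext fun o => by cases o <;> simp, Finset.cons_val, Multiset.map_cons, Finset.map_val,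
      Multiset.map_map]
    congr 1
    show (Finset.univ : Finset (Fin M.toList.length)).val.map m = M
    rw [Fin.univ_val_map, hm, List.ofFn_get, Multiset.coe_toList]
  obtain ⟨N⟩ := h.exists_nf (fun o : Option (Fin M.toList.length) => o.elim l m) (hmap l)
  obtain ⟨N'⟩ := h'.exists_nf (fun o : Option (Fin M.toList.length) => o.elim ⟨l.k, l.H, l.dbl, !l.sq⟩ m) (hmap _)
  have hl : l.Valid (1 : F) := N.valid none
  obtain ⟨-, ρ, -, hns, hρ⟩ := single_rep h2 hl hH hd rfl (N.good none hd) (N'.good none hd)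
  let A1 := Fin l.gens → AdjoinRoot l.modulus
  let R := ∀ i, Fin (m i).gens → AdjoinRoot (m i).modulus
  haveI := (AdjoinRoot.powerBasis' hl.monic).finite
  haveI : ∀ i, Module.Finite F (Fin (m i).gens → AdjoinRoot (m i).modulus) := fun i => by
    haveI : Module.Finite F (AdjoinRoot (m i).modulus) :=
      (AdjoinRoot.powerBasis' (N.valid (some i)).monic).finite
    infer_instance
  let Dl : A1 →ₗ[F] A1 :=
    { toFun := fun a j => ρ * a j
      map_add' := fun a b => funext fun j => mul_add ρ (a j) (b j)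
      map_smul' := fun x a => funext fun j => mul_smul_comm x ρ (a j) }
  let glue : (A1 × R) →ₗ[F] (∀ o : Option (Fin M.toList.length),
      Fin (Option.elim o l m).gens → AdjoinRoot (Option.elim o l m).modulus) :=
    LinearMap.pi fun o => match o with
      | none => LinearMap.fst F A1 R
      | some i => LinearMap.proj i ∘ₗ LinearMap.snd F A1 R
  let glue' : (A1 × R) →ₗ[F] (∀ o : Option (Fin M.toList.length),
      Fin (Option.elim o (⟨l.k, l.H, l.dbl, !l.sq⟩ : Lab F) m).gens →
        AdjoinRoot (Option.elim o (⟨l.k, l.H, l.dbl, !l.sq⟩ : Lab F) m).modulus) :=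
    LinearMap.pi fun o => match o with
      | none => LinearMap.fst F A1 R
      | some i => LinearMap.proj i ∘ₗ LinearMap.snd F A1 R
  have hgb : Function.Bijective glue := ⟨fun a b e => Prod.ext (congrFun e none)
      (funext fun i => congrFun e (some i)),
    fun f => ⟨(f none, fun i => f (some i)), funext fun o => by cases o <;> rfl⟩⟩
  have hgb' : Function.Bijective glue' := ⟨fun a b e => Prod.ext (congrFun e none)
      (funext fun i => congrFun e (some i)),
    fun f => ⟨(f none, fun i => f (some i)), funext fun o => by cases o <;> rfl⟩⟩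
  let E : (A1 × R) ≃ₗ[F] V := (LinearEquiv.ofBijective glue hgb).trans N.equiv
  let E' : (A1 × R) ≃ₗ[F] V := (LinearEquiv.ofBijective glue' hgb').trans N'.equiv
  let D : (A1 × R) →ₗ[F] (A1 × R) := Dl.prodMap LinearMap.id
  have hgr : ∀ (i j : Fin l.gens) (z : AdjoinRoot l.modulus),
      Lab.gram 1 (⟨l.k, l.H, l.dbl, !l.sq⟩ : Lab F) i j z = Lab.gram 1 l i j (ρ * z) := fun i j z => by
    unfold Lab.gram
    rw [if_neg (by simp [hd]), if_neg (by simp [hd])]
    exact hρ z
  have key : ∀ a b, B (E' a) (E' b) = B (E (D a)) (E b) := by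
    intro a b
    show B (N'.equiv (glue' a)) (N'.equiv (glue' b)) = B (N.equiv (glue (D a))) (N.equiv (glue b))
    rw [NF.B_equiv hE', NF.B_equiv hE, Fintype.sum_option, Fintype.sum_option]
    refine congrArg₂ (· + ·) (Finset.sum_congr rfl fun i _ => Finset.sum_congr rfl fun j _ => ?_) rfl
    show Lab.gram 1 (⟨l.k, l.H, l.dbl, !l.sq⟩ : Lab F) i j (a.1 i * sig _ (b.1 j)) =
      Lab.gram 1 l i j (ρ * a.1 i * sig _ (b.1 j))
    exact (hgr i j (a.1 i * sig hl.recip_modulus (b.1 j))).trans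
      (congrArg (Lab.gram 1 l i j) (mul_assoc _ _ _).symm)
  have hsq := isSquare_det_of_congr B hker (E'.toLinearMap ∘ₗ E.symm.toLinearMap)
    (E.toLinearMap ∘ₗ D ∘ₗ E.symm.toLinearMap) fun u v => by
      show B (E' (E.symm u)) (E' (E.symm v)) = B (E (D (E.symm u))) v
      rw [key, LinearEquiv.apply_symm_apply]
  rw [LinearMap.det_conj D E, LinearMap.det_prodMap, LinearMap.det_id, mul_one] at hsq
  haveI : Unique (Fin l.gens) := by
    rw [Lab.gens, if_neg (by simp [hd])]
    infer_instance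
  have hDl : LinearMap.det Dl = LinearMap.det (LinearMap.mulLeft F ρ) := by
    rw [← LinearMap.det_conj (LinearMap.mulLeft F ρ)
      (LinearEquiv.funUnique (Fin l.gens) F (AdjoinRoot l.modulus)).symm]
    congr 1
    refine LinearMap.ext fun a => funext fun j => ?_
    show ρ * a j = ρ * a default
    rw [Subsingleton.elim j default]
  rw [hDl] at hsq
  exact hns hsq

/-! ### The flip -/

/-- The positions of single generators at `±1`. -/
def keySet (L : Multiset (Lab F)) : Set (ℕ × F[X]) :=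
  {p | ∃ l ∈ L, l.IsKey ∧ p = (l.k, l.H)}

/-- The chosen position. -/
noncomputable def keyPos (L : Multiset (Lab F)) : ℕ × F[X] := Classical.epsilon (· ∈ keySet L)

/-- The label at the chosen position to be changed. -/
noncomputable def keyLab (L : Multiset (Lab F)) : Lab F :=
  if (⟨(keyPos L).1, (keyPos L).2, false, false⟩ : Lab F) ∈ L then ⟨(keyPos L).1, (keyPos L).2, false, false⟩
  else ⟨(keyPos L).1, (keyPos L).2, false, true⟩

/-- Change one sign. -/
noncomputable def flipLab (L : Multiset (Lab F)) : Multiset (Lab F) :=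
  ⟨(keyLab L).k, (keyLab L).H, (keyLab L).dbl, !(keyLab L).sq⟩ ::ₘ L.erase (keyLab L)

theorem flip_spec (h2 : (2 : F) ≠ 0) {L : Multiset (Lab F)} (hL : LabOK (1 : F) L)
    (hk : ∃ l ∈ L, l.IsKey) :
    keyLab L ∈ L ∧ (keyLab L).IsKey ∧ LabOK (1 : F) (flipLab L) ∧ keySet (flipLab L) = keySet L ∧
      ((⟨(keyPos L).1, (keyPos L).2, false, false⟩ : Lab F) ∈ flipLab L ↔
        (⟨(keyPos L).1, (keyPos L).2, false, false⟩ : Lab F) ∉ L) := by
  obtain ⟨l, hl, hkey, hp⟩ : keyPos L ∈ keySet L :=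
    Classical.epsilon_spec (p := (· ∈ keySet L)) (hk.elim fun l hl => ⟨_, l, hl.1, hl.2, rfl⟩)
  obtain ⟨k, H, d, s⟩ := l
  obtain ⟨c, hc, hd⟩ := hkey
  simp only at hc hd
  subst hc hd
  have e1 : (keyPos L).1 = k := congrArg Prod.fst hp
  have e2 : (keyPos L).2 = X - C c := congrArg Prod.snd hp
  have hK : keyLab L ∈ L ∧ (keyLab L).k = k ∧ (keyLab L).H = X - C c ∧ (keyLab L).dbl = false := by
    rw [keyLab]
    split_ifs with h
    · exact ⟨h, e1, e2, rfl⟩
    · refine ⟨?_, e1, e2, rfl⟩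
      rw [e1, e2] at h ⊢
      cases s
      · exact absurd hl h
      · exact hl
  obtain ⟨hmem, hkk, hkH, hkd⟩ := hK
  set x := keyLab L with hx
  set y : Lab F := ⟨x.k, x.H, x.dbl, !x.sq⟩ with hy
  set f : Lab F := ⟨(keyPos L).1, (keyPos L).2, false, false⟩ with hf
  have hvx : x.Valid (1 : F) := (hL x hmem).1
  have hvy : y.Valid (1 : F) := by
    refine ⟨hvx.pos, hvx.recip, hvx.deg, ?_⟩
    rcases hvx.kind with ⟨hg, -, -⟩ | ⟨c', h1, h2', ⟨h3, h4⟩ | ⟨h3, -⟩⟩
    · exact absurd hkH (isGenAtom_not_linear hg (by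
        have h1 := hvx.recip.coeff_zero_sq
        rwa [hkH, coeff_sub, coeff_X_zero, coeff_C_zero, zero_sub, neg_mul_neg] at h1))
    · exact Or.inr ⟨c', h1, h2', Or.inl ⟨h3, h4⟩⟩
    · rw [hkd] at h3; exact absurd h3 (by simp)
  have hxf : x = f ↔ x.sq = false := ⟨fun e => by rw [e], fun e =>
    Lab.ext (hkk.trans e1.symm) (hkH.trans e2.symm) hkd e⟩
  have hyf : y = f ↔ x.sq = true := ⟨fun e => by
      have := congrArg Lab.sq e
      simpa [hy, hf] using this,
    fun e => Lab.ext (hkk.trans e1.symm) (hkH.trans e2.symm) hkd (by simp [hy, hf, e])⟩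
  have hiff : f ∈ L ↔ x.sq = false := by
    constructor
    · intro h
      rw [hx, keyLab, if_pos h]
    · intro h
      exact (hxf.2 h) ▸ hmem
  have hfflip : f ∈ flipLab L ↔ x.sq = true := by
    rw [flipLab, ← hx, Multiset.mem_cons]
    constructor
    · rintro (h | h)
      · exact hyf.1 h.symm
      · exfalso
        have hfL := Multiset.mem_of_mem_erase h
        have e := hxf.2 (hiff.1 hfL)
        rw [e] at h
        have h1 := (hL f hfL).2 rfl
        have h0 : 0 < (L.erase f).count f := Multiset.count_pos.2 h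
        rw [Multiset.count_erase_self, h1] at h0
        omega
    · intro h
      exact Or.inl (hyf.2 h).symm
  refine ⟨hmem, ⟨c, hkH, hkd⟩, ?_, ?_, ?_⟩
  · intro z hz
    have hz' : z = y ∨ z ∈ L.erase x := Multiset.mem_cons.1 hz
    refine ⟨hz'.elim (fun e => e ▸ hvy) (fun e => (hL z (Multiset.mem_of_mem_erase e)).1), fun hs => ?_⟩
    show Multiset.count z (y ::ₘ L.erase x) = 1
    rw [Multiset.count_cons]
    by_cases hzy : z = y
    · rw [if_pos hzy]
      have h0 : (L.erase x).count z = 0 := by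
        rw [Multiset.count_eq_zero]
        intro h
        have hzf : z = f := hzy.trans (hyf.2 (by rw [hzy] at hs; simpa [hy] using hs))
        have hfL : f ∈ L := hzf ▸ Multiset.mem_of_mem_erase h
        rw [hzy] at hs
        have := hiff.1 hfL
        simp [hy, this] at hs
      omega
    · rw [if_neg hzy, Nat.add_zero]
      have hzm := hz'.resolve_left hzy
      have h1 := (hL z (Multiset.mem_of_mem_erase hzm)).2 hs
      have hne : z ≠ x := by
        rintro rfl
        have h0 : 0 < (L.erase x).count x := Multiset.count_pos.2 hzm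
        rw [Multiset.count_erase_self, h1] at h0
        omega
      rw [Multiset.count_erase_of_ne hne, h1]
  · ext p
    constructor
    · rintro ⟨z, hz, hzk, rfl⟩
      rcases Multiset.mem_cons.1 hz with rfl | hz
      · exact ⟨x, hmem, ⟨c, hkH, hkd⟩, rfl⟩
      · exact ⟨z, Multiset.mem_of_mem_erase hz, hzk, rfl⟩
    · rintro ⟨z, hz, hzk, rfl⟩
      by_cases e : z = x
      · subst e
        exact ⟨y, Multiset.mem_cons_self _ _, ⟨c, hkH, hkd⟩, rfl⟩
      · exact ⟨z, Multiset.mem_cons_of_mem ((Multiset.mem_erase_of_ne e).2 hz), hzk, rfl⟩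
  · rw [hfflip, hiff]
    simp

theorem flipLab_injOn (h2 : (2 : F) ≠ 0) :
    Set.InjOn flipLab {L : Multiset (Lab F) | LabOK (1 : F) L ∧ ∃ l ∈ L, l.IsKey} := by
  rintro L ⟨hL, hk⟩ L' ⟨hL', hk'⟩ e
  obtain ⟨hm, -, -, hs, hiff⟩ := flip_spec h2 hL hk
  obtain ⟨hm', -, -, hs', hiff'⟩ := flip_spec h2 hL' hk'
  have hset : keySet L = keySet L' := by rw [← hs, e, hs']
  have hpos : keyPos L = keyPos L' := by rw [keyPos, keyPos, hset]
  have hmem : ((⟨(keyPos L).1, (keyPos L).2, false, false⟩ : Lab F) ∈ L ↔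
      (⟨(keyPos L).1, (keyPos L).2, false, false⟩ : Lab F) ∈ L') := by
    rw [← hpos] at hiff'
    rw [e] at hiff
    exact not_iff_not.1 (hiff.symm.trans hiff')
  have hlab : keyLab L = keyLab L' := by
    rw [keyLab, keyLab, ← hpos, if_congr hmem rfl rfl]
  rw [flipLab, flipLab, ← hlab] at e
  rw [← Multiset.cons_erase hm, ← Multiset.cons_erase hm', ← hlab, (Multiset.cons_inj_right _).1 e]

/-! ### Isometry groups -/

section Group

variable {ι : Type} [Fintype ι] [DecidableEq ι] {Q : (ι → F) → F}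

/-- The polar form of a quadratic function. -/
noncomputable def polarB (hQ : IsNondegenerateQuadraticForm Q) : LinearMap.BilinForm F (ι → F) :=
  CfsgLib.LinAlg.Witt.bilinOfFun (QuadraticMap.polar Q) hQ.polar_bilinear

/-- The automorphism of an element of the isometry group. -/
noncomputable def isoEquiv (g : Cfsg.isometryGroup F Q) : (ι → F) ≃ₗ[F] (ι → F) :=
  LinearEquiv.ofLinearMap (Matrix.toLin' ((g : GL ι F) : Matrix ι ι F))
    (Matrix.toLin' (((g : GL ι F)⁻¹ : GL ι F) : Matrix ι ι F))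
    (by rw [← Matrix.toLin'_mul, ← Units.val_mul, mul_inv_cancel, Units.val_one, Matrix.toLin'_one])
    (by rw [← Matrix.toLin'_mul, ← Units.val_mul, inv_mul_cancel, Units.val_one, Matrix.toLin'_one])

theorem isoEquiv_apply (g : Cfsg.isometryGroup F Q) (v : ι → F) :
    isoEquiv g v = ((g : GL ι F) : Matrix ι ι F) *ᵥ v := rfl

theorem quad_isoEquiv (g : Cfsg.isometryGroup F Q) (v : ι → F) : Q (isoEquiv g v) = Q v := g.2 v v

theorem ker_polarB (hQ : IsNondegenerateQuadraticForm Q) : LinearMap.ker (polarB hQ) = ⊥ := by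
  rw [LinearMap.ker_eq_bot']
  intro v hv
  by_contra h
  obtain ⟨-, x, hx⟩ := hQ.nondegenerate v h
  exact hx (LinearMap.congr_fun hv x)

theorem isEps_isoEquiv (hQ : IsNondegenerateQuadraticForm Q) (g : Cfsg.isometryGroup F Q) :
    IsEps (1 : F) (polarB hQ) (isoEquiv g) := by
  refine ⟨fun x y => ?_, fun x y => ?_, fun x hx => ?_⟩
  · show QuadraticMap.polar Q _ _ = QuadraticMap.polar Q x y
    simp only [QuadraticMap.polar, ← map_add, quad_isoEquiv]
  · rw [one_mul]; exact QuadraticMap.polar_comm Q y x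
  · have h : x ∈ LinearMap.ker (polarB hQ) := LinearMap.mem_ker.2 (LinearMap.ext hx)
    rwa [ker_polarB, Submodule.mem_bot] at h

theorem quad_of_polarB (h2 : (2 : F) ≠ 0) (hQ : IsNondegenerateQuadraticForm Q) (v : ι → F) :
    polarB hQ v v = 2 * Q v := by
  show QuadraticMap.polar Q v v = _
  rw [QuadraticMap.polar, ← two_smul F v, hQ.smul]
  ring

theorem isConj_isometry (h2 : (2 : F) ≠ 0) (hQ : IsNondegenerateQuadraticForm Q)
    {g g' : Cfsg.isometryGroup F Q} (e : (ι → F) ≃ₗ[F] (ι → F))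
    (he : ∀ x, e (isoEquiv g x) = isoEquiv g' (e x)) (hB : ∀ x y, polarB hQ (e x) (e y) = polarB hQ x y) :
    IsConj g g' := by
  set M : GL ι F := ⟨LinearMap.toMatrix' e.toLinearMap, LinearMap.toMatrix' e.symm.toLinearMap,
    by rw [← LinearMap.toMatrix'_comp, LinearEquiv.comp_symm, LinearMap.toMatrix'_id],
    by rw [← LinearMap.toMatrix'_comp, LinearEquiv.symm_comp, LinearMap.toMatrix'_id]⟩
  have hMv : ∀ v, (M : Matrix ι ι F) *ᵥ v = e v := fun v => LinearMap.toMatrix'_mulVec _ v
  have hmem : M ∈ Cfsg.isometryGroup F Q := fun v w => by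
    show Q ((M : Matrix ι ι F) *ᵥ v) = Q v
    refine mul_left_cancel₀ h2 ?_
    rw [hMv, ← quad_of_polarB h2 hQ, hB, quad_of_polarB h2 hQ]
  refine isConj_iff.2 ⟨⟨M, hmem⟩, ?_⟩
  rw [mul_inv_eq_iff_eq_mul]
  apply Subtype.ext
  rw [Subgroup.coe_mul, Subgroup.coe_mul]
  apply Units.ext
  rw [Units.val_mul, Units.val_mul]
  refine Matrix.ext_iff_mulVec.2 fun v => ?_
  rw [← Matrix.mulVec_mulVec, ← Matrix.mulVec_mulVec, hMv, hMv]
  exact he v

/-- Twice the class number is at most the two label counts together. -/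
theorem two_mul_card_classes_le [Fintype F] (h2 : (2 : F) ≠ 0) (hQ : IsNondegenerateQuadraticForm Q)
    {K : ℕ} (hK : Fintype.card ι ≤ K) :
    2 * Nat.card (ConjClasses (Cfsg.isometryGroup F Q)) ≤
      (labSetO F (fun _ => True) K (Fintype.card ι)).ncard +
        (labSetO F (fun l => ¬ l.IsKey) K (Fintype.card ι)).ncard := by
  set N := Fintype.card ι
  choose f hf hok hfk hfw using fun g : Cfsg.isometryGroup F Q =>
    exists_hasLabels h2 (one_mul 1) (isEps_isoEquiv hQ g)
  set T := labSetO F (fun _ => True) K N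
  set R := labSetO F (fun l => ¬ l.IsKey) K N
  have hmemT : ∀ g, f g ∈ T := fun g =>
    ⟨hok g, fun l hl => ((hfk g l hl).trans (le_of_eq (Module.finrank_pi F))).trans hK,
      (hfw g).trans (Module.finrank_pi F), fun _ _ => trivial⟩
  let Φ : ConjClasses (Cfsg.isometryGroup F Q) → Multiset (Lab F) := fun C => f C.exists_rep.choose
  have hΦ : Function.Injective Φ := by
    intro C D e
    rw [← C.exists_rep.choose_spec, ← D.exists_rep.choose_spec]
    have h' := hf D.exists_rep.choose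
    rw [show f D.exists_rep.choose = f C.exists_rep.choose from e.symm] at h'
    obtain ⟨u, hu, huB⟩ := HasLabels.exists_isometry (isEps_isoEquiv hQ _) (isEps_isoEquiv hQ _) (hf _) h'
    exact ConjClasses.mk_eq_mk_iff_isConj.2 (isConj_isometry h2 hQ u hu huB)
  set I := Set.range Φ with hI
  have hIT : I ⊆ T := by rintro _ ⟨C, rfl⟩; exact hmemT _
  have hTf : T.Finite := labSetO_finite h2 _ _ _
  have hRf : R.Finite := labSetO_finite h2 _ _ _
  have hcard : Nat.card (ConjClasses (Cfsg.isometryGroup F Q)) = I.ncard :=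
    (Set.ncard_range_of_injective hΦ).symm
  set Ik := {L ∈ I | ∃ l ∈ L, l.IsKey} with hIk
  set Iu := {L ∈ I | ¬ ∃ l ∈ L, l.IsKey} with hIu
  have hsplit : I.ncard ≤ Ik.ncard + Iu.ncard := by
    refine le_trans (Set.ncard_le_ncard ?_ ((hTf.subset fun L hL => hIT hL.1).union
      (hTf.subset fun L hL => hIT hL.1))) (Set.ncard_union_le _ _)
    intro L hL
    by_cases h : ∃ l ∈ L, l.IsKey
    exacts [Or.inl ⟨hL, h⟩, Or.inr ⟨hL, h⟩]
  have hu : Iu.ncard ≤ R.ncard := Set.ncard_le_ncard (fun L hL => by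
    obtain ⟨h1, h2', h3, -⟩ := hIT hL.1
    exact ⟨h1, h2', h3, fun l hl hk => hL.2 ⟨l, hl, hk⟩⟩) hRf
  have hflipT : ∀ L ∈ Ik, flipLab L ∈ T \ I := by
    rintro L ⟨hL, hk⟩
    obtain ⟨h1, hkK, hw, -⟩ := hIT hL
    obtain ⟨hm, hkey, hok', -, -⟩ := flip_spec h2 h1 hk
    obtain ⟨c, hc, hd⟩ := hkey
    refine ⟨⟨hok', fun l hl => ?_, ?_, fun _ _ => trivial⟩, ?_⟩
    · rcases Multiset.mem_cons.1 hl with rfl | hl
      · exact hkK (keyLab L) hm
      · exact hkK l (Multiset.mem_of_mem_erase hl)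
    · rw [← hw]
      conv_rhs => rw [← Multiset.cons_erase hm]
      rw [flipLab, Multiset.map_cons, Multiset.map_cons, Multiset.sum_cons, Multiset.sum_cons]
      rfl
    · rintro ⟨D, hD⟩
      obtain ⟨C, hC⟩ := hL
      have h0 := hf C.exists_rep.choose
      have h0' := hf D.exists_rep.choose
      rw [show f C.exists_rep.choose = L from hC, ← Multiset.cons_erase hm] at h0
      rw [show f D.exists_rep.choose = flipLab L from hD, flipLab] at h0'
      exact not_hasLabels_flip h2 (isEps_isoEquiv hQ _) (isEps_isoEquiv hQ _) (ker_polarB hQ) hc hd h0 h0'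
  have hsub : Ik ⊆ {L : Multiset (Lab F) | LabOK (1 : F) L ∧ ∃ l ∈ L, l.IsKey} :=
    fun L hL => ⟨(hIT hL.1).1, hL.2⟩
  have hk : Ik.ncard ≤ (T \ I).ncard := Set.ncard_le_ncard_of_injOn flipLab hflipT
    ((flipLab_injOn h2).mono hsub) hTf.sdiff
  have hTI := Set.ncard_sdiff_add_ncard_of_subset hIT hTf
  omega

/-- The class number bound in even dimension. -/
theorem card_classes_le_even [Fintype F] (h2 : (2 : F) ≠ 0) (hq : 3 ≤ Fintype.card F)
    (hQ : IsNondegenerateQuadraticForm Q) {n : ℕ} (hn : Fintype.card ι = 2 * n) :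
    2 * Nat.card (ConjClasses (Cfsg.isometryGroup F Q)) ≤ 19 * Fintype.card F ^ n := by
  have h := two_mul_card_classes_le h2 hQ (K := 2 * n + 1) (by omega)
  have hT := ncard_labSetO_le h2 hq n (Fintype.card ι)
  have hR := ncard_labSetR_le h2 hq n (Fintype.card ι)
  have e : scale (Fintype.card F) (Fintype.card ι) = (Fintype.card F : ℝ) ^ n := by
    rw [hn, scale_even]
  rw [e] at hT hR
  have hp : (0 : ℝ) ≤ (Fintype.card F : ℝ) ^ n := by positivity
  have h1 := mul_le_mul_of_nonneg_right (facO_le n) hp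
  have h3 := mul_le_mul_of_nonneg_right (facR_le n) hp
  have h4 : ((2 * Nat.card (ConjClasses (Cfsg.isometryGroup F Q)) : ℕ) : ℝ) ≤
      ((labSetO F (fun _ => True) (2 * n + 1) (Fintype.card ι)).ncard : ℝ) +
        ((labSetO F (fun l => ¬ l.IsKey) (2 * n + 1) (Fintype.card ι)).ncard : ℝ) := by
    exact_mod_cast h
  have h5 : ((2 * Nat.card (ConjClasses (Cfsg.isometryGroup F Q)) : ℕ) : ℝ) ≤
      19 * (Fintype.card F : ℝ) ^ n := by nlinarith
  exact_mod_cast h5

/-- The class number bound in odd dimension (note `433/250` is below `√3`). -/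
theorem card_classes_le_odd [Fintype F] (h2 : (2 : F) ≠ 0) (hq : 3 ≤ Fintype.card F)
    (hQ : IsNondegenerateQuadraticForm Q) {n : ℕ} (hn : Fintype.card ι = 2 * n + 1) :
    (2 : ℝ) * Nat.card (ConjClasses (Cfsg.isometryGroup F Q)) ≤
      (28 / 9 * (107 / 20) * (433 / 250)) * (Fintype.card F : ℝ) ^ n := by
  have h := two_mul_card_classes_le h2 hQ (K := 2 * n + 1) (by omega)
  have hT := ncard_labSetO_le h2 hq n (Fintype.card ι)
  have hR : (labSetO F (fun l => ¬ l.IsKey) (2 * n + 1) (Fintype.card ι)) = ∅ := by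
    refine Set.eq_empty_of_forall_notMem fun L hL => ?_
    obtain ⟨h1, -, hw, hP⟩ := hL
    have hev : Even ((L.map Lab.wt).sum) := by
      refine Multiset.sum_induction _ _ (fun a b => Even.add) Even.zero fun x hx => ?_
      obtain ⟨l, hl, rfl⟩ := Multiset.mem_map.1 hx
      exact (level_of_not_key h2 (h1 l hl).1 (hP l hl)).1.2.mul_left _
    rw [hw, hn] at hev
    exact Nat.not_even_two_mul_add_one n hev
  rw [hR, Set.ncard_empty, Nat.add_zero] at h
  rw [hn, scale_odd] at hT
  have hp : (0 : ℝ) ≤ (Fintype.card F : ℝ) ^ n * (433 / 250) := by positivity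
  have h1 := mul_le_mul_of_nonneg_right (facO_le n) hp
  have h4 : (2 : ℝ) * Nat.card (ConjClasses (Cfsg.isometryGroup F Q)) ≤
      ((labSetO F (fun _ => True) (2 * n + 1) (2 * n + 1)).ncard : ℝ) := by
    rw [← hn]; rw [hn] at h ⊢; exact_mod_cast h
  nlinarith

end Group

end CfsgLib.IsometryClasses
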