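import Cfsg.Agent.IsometryClasses.LabelSets

/-!
# Counting the labels of symplectic isometries
-/

set_option autoImplicit false
set_option linter.style.haveILetI false

namespace CfsgLib.IsometryClasses

open Polynomial
open scoped Classical

variable {F : Type*} [Field F]

/-- Labels with exponents at most `K` and total dimension `2 n`. -/
def labSet (F : Type*) [Field F] (K n : ℕ) : Set (Multiset (Lab F)) :=
  {L | LabOK (-1 : F) L ∧ (∀ l ∈ L, l.k ≤ K) ∧ (L.map Lab.wt).sum = 2 * n}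

/-- Labels of one exponent. -/
def levSet (F : Type*) [Field F] (k d : ℕ) : Set (Multiset (Lab F)) :=
  {L | LabOK (-1 : F) L ∧ (∀ l ∈ L, l.k = k) ∧ (levelPoly L).natDegree = d}

theorem labOK_filter {ε : F} {L : Multiset (Lab F)} (h : LabOK ε L) (p : Lab F → Prop) [DecidablePred p] :
    LabOK ε (L.filter p) := fun l hl =>
  ⟨(h l (Multiset.mem_of_mem_filter hl)).1, fun e => by
    rw [Multiset.count_filter_of_pos (Multiset.of_mem_filter hl)]
    exact (h l (Multiset.mem_of_mem_filter hl)).2 e⟩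

theorem level_odd (h2 : (2 : F) ≠ 0) {l : Lab F} (hl : l.Valid (-1)) (hk : Odd l.k) :
    (l.level.coeff 0 = 1 ∧ Even l.level.natDegree) ∧ l.sq = true := by
  rcases hl.kind with ⟨hg, hd, hs⟩ | ⟨c, hc, hH, ⟨-, he⟩ | ⟨hd, hs, -⟩⟩
  · refine ⟨?_, hs⟩
    rw [Lab.level, Lab.gens, hd, if_neg (by simp), pow_one]
    exact genAtom_coeff_zero hl.recip hg h2
  · exfalso
    obtain ⟨m, hm⟩ := hk
    rw [hm, show 2 * m + 1 - 1 = 2 * m by omega, pow_mul, neg_one_sq, one_pow] at he
    exact h2 (by linear_combination -he)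
  · refine ⟨⟨?_, ?_⟩, hs⟩
    · rw [Lab.level, Lab.gens, hd, if_pos rfl, hH, sq, mul_coeff_zero, coeff_sub, coeff_X_zero, coeff_C_zero,
        zero_sub, neg_mul_neg, hc]
    · rw [Lab.level, Lab.gens, hd, if_pos rfl, hH, natDegree_pow, natDegree_X_sub_C]
      exact even_two

/-- The bound at even exponents. -/
def singleBound (q d : ℕ) : ℕ :=
  recipBound q d + 2 * (if 1 ≤ d then recipBound q (d - 1) else 0) +
    (if 2 ≤ d then recipBound q (d - 2) else 0)

theorem hasMinus_odd (h2 : (2 : F) ≠ 0) {k : ℕ} (hk : Odd k) {L : Multiset (Lab F)}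
    (hL : LabOK (-1 : F) L) (hkL : ∀ l ∈ L, l.k = k) (c : F) : hasMinus k c L = false := by
  simp only [hasMinus, decide_eq_false_iff_not]
  intro h
  have := (level_odd h2 (hL _ h).1 (by rw [hkL _ h]; exact hk)).2
  simp at this

theorem levSet_odd [Fintype F] (h2 : (2 : F) ≠ 0) {k : ℕ} (hk : Odd k) (d : ℕ) :
    (levSet F k d).Finite ∧ (levSet F k d).ncard ≤ evenPow (Fintype.card F) d := by
  have hmaps : ∀ L ∈ levSet F k d, levelPoly L ∈ recipSet F d 1 ∧ Even d := by
    rintro L ⟨hL, hkL, hd⟩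
    obtain ⟨h1, -, h3⟩ := levelPoly_spec hL hkL
    obtain ⟨e1, e2⟩ := h3 fun l hl => (level_odd h2 (hL l hl).1 (by rw [hkL l hl]; exact hk)).1
    exact ⟨⟨h1, hd, e1⟩, hd ▸ e2⟩
  have hinj : Set.InjOn levelPoly (levSet F k d) := fun L hL L' hL' e =>
    level_injective h2 hL.1 hL'.1 hL.2.1 hL'.2.1 e
      ((hasMinus_odd h2 hk hL.1 hL.2.1 1).trans (hasMinus_odd h2 hk hL'.1 hL'.2.1 1).symm)
      ((hasMinus_odd h2 hk hL.1 hL.2.1 (-1)).trans (hasMinus_odd h2 hk hL'.1 hL'.2.1 (-1)).symm)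
  have hfin : (recipSet F d 1).Finite := (finite_recipDeg d).subset fun g hg => ⟨hg.1, hg.2.1⟩
  refine ⟨Set.Finite.of_injOn (fun L hL => (hmaps L hL).1) hinj hfin, ?_⟩
  rcases (levSet F k d).eq_empty_or_nonempty with he | ⟨L, hL⟩
  · rw [he, Set.ncard_empty]; exact Nat.zero_le _
  · obtain ⟨e, he⟩ := (hmaps L hL).2
    refine (Set.ncard_le_ncard_of_injOn levelPoly (fun L hL => (hmaps L hL).1) hinj hfin).trans ?_
    refine (ncard_recipSet_le h2 d e 1 (fun i _ _ => by omega)).trans ?_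
    rw [evenPow, if_pos ⟨e, he⟩, show d / 2 = e by omega]

theorem levSet_any [Fintype F] (h2 : (2 : F) ≠ 0) (k d : ℕ) :
    (levSet F k d).Finite ∧ (levSet F k d).ncard ≤ singleBound (Fintype.card F) d := by
  let T00 : Set (F[X] × Bool × Bool) := (fun g => (g, false, false)) '' recipDeg F d
  let T10 : Set (F[X] × Bool × Bool) :=
    if 1 ≤ d then (fun g => ((X - C 1) * g, true, false)) '' recipDeg F (d - 1) else ∅
  let T01 : Set (F[X] × Bool × Bool) :=
    if 1 ≤ d then (fun g => ((X - C (-1)) * g, false, true)) '' recipDeg F (d - 1) else ∅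
  let T11 : Set (F[X] × Bool × Bool) :=
    if 2 ≤ d then (fun g => ((X - C 1) * (X - C (-1)) * g, true, true)) '' recipDeg F (d - 2) else ∅
  have hfin : ∀ (p : Prop) [Decidable p] (f : F[X] → F[X] × Bool × Bool) (e : ℕ),
      (if p then f '' recipDeg F e else ∅).Finite := by
    intro p _ f e
    split_ifs
    exacts [(finite_recipDeg e).image _, Set.finite_empty]
  have hT : (T00 ∪ T10 ∪ T01 ∪ T11).Finite :=
    ((((finite_recipDeg d).image _).union (hfin _ _ _)).union (hfin _ _ _)).union (hfin _ _ _)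
  set f : Multiset (Lab F) → F[X] × Bool × Bool := fun L => (levelPoly L, hasMinus k 1 L, hasMinus k (-1) L)
  have hmaps : ∀ L ∈ levSet F k d, f L ∈ T00 ∪ T10 ∪ T01 ∪ T11 := by
    rintro L ⟨hL, hkL, hd⟩
    obtain ⟨h1, -, -⟩ := levelPoly_spec hL hkL
    have hdvd : ∀ c : F, hasMinus k c L = true → (X - C c) ∣ levelPoly L ∧ Recip (X - C c) := by
      intro c h
      simp only [hasMinus, decide_eq_true_eq] at h
      refine ⟨Multiset.dvd_prod (Multiset.mem_map.2 ⟨_, h, ?_⟩), (hL _ h).1.recip⟩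
      simp [Lab.level, Lab.gens]
    cases hp : hasMinus k 1 L <;> cases hm : hasMinus k (-1) L
    · exact Or.inl (Or.inl (Or.inl ⟨_, ⟨h1, hd⟩, by simp [f, hp, hm]⟩))
    · obtain ⟨⟨g, hg⟩, hr⟩ := hdvd _ hm
      have hgr : Recip g := hr.of_mul (hg ▸ h1)
      rw [hg, hr.monic.natDegree_mul hgr.monic, natDegree_X_sub_C] at hd
      refine Or.inl (Or.inr ?_)
      simp only [T01, if_pos (show 1 ≤ d by omega)]
      exact ⟨g, ⟨hgr, by omega⟩, by simp [f, hp, hm, hg]⟩
    · obtain ⟨⟨g, hg⟩, hr⟩ := hdvd _ hp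
      have hgr : Recip g := hr.of_mul (hg ▸ h1)
      rw [hg, hr.monic.natDegree_mul hgr.monic, natDegree_X_sub_C] at hd
      refine Or.inl (Or.inl (Or.inr ?_))
      simp only [T10, if_pos (show 1 ≤ d by omega)]
      exact ⟨g, ⟨hgr, by omega⟩, by simp [f, hp, hm, hg]⟩
    · obtain ⟨hd1, hr1⟩ := hdvd _ hp
      obtain ⟨hd2, hr2⟩ := hdvd _ hm
      have hco : IsCoprime (X - C (1 : F)) (X - C (-1)) :=
        isCoprime_of_ne (irreducible_X_sub_C _) (irreducible_X_sub_C _) (monic_X_sub_C _) (monic_X_sub_C _)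
          fun e => h2 (by
            have := congrArg (Polynomial.eval (1 : F)) e
            simp at this
            linear_combination -this)
      obtain ⟨g, hg⟩ := hco.mul_dvd hd1 hd2
      have hr := hr1.mul hr2
      have hgr : Recip g := hr.of_mul (hg ▸ h1)
      rw [hg, hr.monic.natDegree_mul hgr.monic, hr1.monic.natDegree_mul hr2.monic, natDegree_X_sub_C,
        natDegree_X_sub_C] at hd
      refine Or.inr ?_
      simp only [T11, if_pos (show 2 ≤ d by omega)]
      exact ⟨g, ⟨hgr, by omega⟩, by simp [f, hp, hm, hg]⟩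
  have hinj : Set.InjOn f (levSet F k d) := fun L hL L' hL' e => by
    simp only [f, Prod.mk.injEq] at e
    exact level_injective h2 hL.1 hL'.1 hL.2.1 hL'.2.1 e.1 e.2.1 e.2.2
  refine ⟨Set.Finite.of_injOn hmaps hinj hT, (Set.ncard_le_ncard_of_injOn f hmaps hinj hT).trans ?_⟩
  have b0 : T00.ncard ≤ recipBound (Fintype.card F) d :=
    (Set.ncard_image_le (finite_recipDeg d)).trans (ncard_recipDeg_le h2 d)
  have bb : ∀ (p : Prop) [Decidable p] (f : F[X] → F[X] × Bool × Bool) (e : ℕ),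
      (if p then f '' recipDeg F e else ∅).ncard ≤ if p then recipBound (Fintype.card F) e else 0 := by
    intro p _ f e
    split_ifs
    · exact (Set.ncard_image_le (finite_recipDeg e)).trans (ncard_recipDeg_le h2 e)
    · simp
  have b1 : T10.ncard ≤ _ := bb _ _ _
  have b2 : T01.ncard ≤ _ := bb _ _ _
  have b3 : T11.ncard ≤ _ := bb _ _ _
  have u1 := Set.ncard_union_le (T00 ∪ T10 ∪ T01) T11
  have u2 := Set.ncard_union_le (T00 ∪ T10) T01
  have u3 := Set.ncard_union_le T00 T10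
  rw [singleBound]
  omega

theorem labSet_zero (n : ℕ) :
    (labSet F 0 n).Finite ∧ (labSet F 0 n).ncard ≤ 1 ∧ (n ≠ 0 → labSet F 0 n = ∅) := by
  have h : ∀ L ∈ labSet F 0 n, L = 0 ∧ n = 0 := by
    rintro L ⟨hL, hk, hw⟩
    have h0 : L = 0 := Multiset.eq_zero_of_forall_notMem fun l hl =>
      (hL l hl).1.pos (Nat.le_zero.1 (hk l hl))
    subst h0
    simp at hw
    exact ⟨rfl, hw⟩
  have hsub : labSet F 0 n ⊆ {0} := fun L hL => (h L hL).1
  refine ⟨(Set.finite_singleton _).subset hsub, ?_, fun hn => Set.eq_empty_of_forall_notMem fun L hL =>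
    hn (h L hL).2⟩
  exact (Set.ncard_le_ncard hsub).trans (by simp)

theorem labSet_succ [Fintype F] (h2 : (2 : F) ≠ 0) (K n : ℕ) (hfin : ∀ m, (labSet F K m).Finite)
    {W : ℕ → ℕ} (hW : ∀ d, (levSet F (K + 1) d).ncard ≤ W d) :
    (labSet F (K + 1) n).Finite ∧ (labSet F (K + 1) n).ncard ≤
      ∑ d ∈ Finset.range (2 * n + 1),
        if (K + 1) * d ≤ 2 * n ∧ Even ((K + 1) * d) then W d * (labSet F K (n - (K + 1) * d / 2)).ncard
        else 0 := by
  let S : ℕ → Set (Multiset (Lab F) × Multiset (Lab F)) := fun d =>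
    if (K + 1) * d ≤ 2 * n ∧ Even ((K + 1) * d) then levSet F (K + 1) d ×ˢ labSet F K (n - (K + 1) * d / 2)
    else ∅
  have hSf : ∀ d, (S d).Finite := fun d => by
    simp only [S]
    split_ifs
    exacts [(levSet_any h2 _ _).1.prod (hfin _), Set.finite_empty]
  let U : Set (Multiset (Lab F) × Multiset (Lab F)) := ⋃ d ∈ Finset.range (2 * n + 1), S d
  have hU : U.Finite := Set.Finite.biUnion (Finset.finite_toSet _) fun d _ => hSf d
  let f : Multiset (Lab F) → Multiset (Lab F) × Multiset (Lab F) := fun L =>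
    (L.filter fun l => l.k = K + 1, L.filter fun l => ¬ l.k = K + 1)
  have hinj : Set.InjOn f (labSet F (K + 1) n) := fun L _ L' _ e => by
    simp only [f, Prod.mk.injEq] at e
    rw [← Multiset.filter_add_not (fun l : Lab F => l.k = K + 1) L, e.1, e.2, Multiset.filter_add_not]
  have hmaps : ∀ L ∈ labSet F (K + 1) n, f L ∈ U := by
    rintro L ⟨hL, hk, hw⟩
    have h1 : ∀ l ∈ L.filter (fun l => l.k = K + 1), l.k = K + 1 := fun l hl =>
      (Multiset.mem_filter.1 hl).2
    obtain ⟨-, hwt, -⟩ := levelPoly_spec (labOK_filter hL _) h1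
    set d := (levelPoly (L.filter fun l => l.k = K + 1)).natDegree with hd
    set A := L.filter fun l => ¬ l.k = K + 1 with hA
    have hsum : (K + 1) * d + (A.map Lab.wt).sum = 2 * n := by
      rw [← hwt, ← Multiset.sum_add, ← Multiset.map_add, Multiset.filter_add_not, hw]
    have heven : Even ((A.map Lab.wt).sum) := by
      clear hsum
      have hAok : ∀ l ∈ A, Even l.wt := by
        intro l hl
        have hv := (hL l (Multiset.mem_of_mem_filter hl)).1
        rcases Nat.even_or_odd l.k with he | ho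
        · exact he.mul_right _
        · exact (level_odd h2 hv ho).1.2.mul_left _
      refine Multiset.sum_induction _ _ (fun a b => Even.add) Even.zero fun x hx => ?_
      obtain ⟨l, hl, rfl⟩ := Multiset.mem_map.1 hx
      exact hAok l hl
    have hev : Even ((K + 1) * d) := by
      have h4 : Even ((K + 1) * d + (A.map Lab.wt).sum) := by rw [hsum]; exact even_two_mul n
      exact (Nat.even_add.1 h4).2 heven
    have hle : (K + 1) * d ≤ 2 * n := by omega
    have hdle : d ≤ (K + 1) * d := Nat.le_mul_of_pos_left _ (Nat.succ_pos K)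
    refine Set.mem_biUnion (x := d) (Finset.mem_range.2 (by omega)) ?_
    simp only [S, if_pos (And.intro hle hev)]
    refine ⟨⟨labOK_filter hL _, h1, rfl⟩, labOK_filter hL _, fun l hl => ?_, ?_⟩
    · have := hk l (Multiset.mem_of_mem_filter hl)
      have := (Multiset.mem_filter.1 hl).2
      omega
    · obtain ⟨r, hr⟩ := hev
      change (A.map Lab.wt).sum = _
      omega
  refine ⟨Set.Finite.of_injOn hmaps hinj hU, (Set.ncard_le_ncard_of_injOn f hmaps hinj hU).trans ?_⟩
  refine (Finset.set_ncard_biUnion_le _ _).trans (Finset.sum_le_sum fun d _ => ?_)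
  simp only [S]
  split_ifs
  · rw [Set.ncard_prod]; exact Nat.mul_le_mul_right _ (hW d)
  · simp

theorem labSet_finite [Fintype F] (h2 : (2 : F) ≠ 0) : ∀ K n, (labSet F K n).Finite
  | 0, n => (labSet_zero n).1
  | K + 1, n => (labSet_succ h2 K n (labSet_finite h2 K) (fun d => (levSet_any h2 _ d).2)).1

/-! ### The numerical bound -/

/-- The factor of an odd exponent. -/
noncomputable def oddFac (i : ℕ) : ℝ := 1 / (1 - (1 / 3 : ℝ) ^ (2 * i))

/-- The factor of an even exponent. -/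
noncomputable def evenFac (i : ℕ) : ℝ := (1 + (1 / 3 : ℝ) ^ i) ^ 4 / (1 - 3 * ((1 / 3 : ℝ) ^ i) ^ 2)

/-- The product of the factors. -/
noncomputable def facProd : ℕ → ℝ
  | 0 => 1
  | i + 1 => facProd i * evenFac (i + 1) * oddFac (i + 1)

variable {q : ℕ}

theorem inv_pow_le (hq : 3 ≤ q) (i : ℕ) : 0 ≤ (1 / (q : ℝ)) ^ i ∧ (1 / (q : ℝ)) ^ i ≤ (1 / 3) ^ i := by
  have h3 : (3 : ℝ) ≤ q := by exact_mod_cast hq
  exact ⟨by positivity, pow_le_pow_left₀ (by positivity) (one_div_le_one_div_of_le (by norm_num) h3) i⟩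

theorem sum_geom_le {x : ℝ} (h0 : 0 ≤ x) (h1 : x < 1) (N : ℕ) :
    ∑ e ∈ Finset.range N, x ^ e ≤ 1 / (1 - x) := by
  rw [le_div_iff₀ (by linarith), geom_sum_mul_neg]
  linarith [pow_nonneg h0 N]

theorem sum_evenPow_le {x : ℝ} (q : ℕ) (h0 : 0 ≤ x) (h1 : (q : ℝ) * x ^ 2 < 1) :
    ∀ N, ∑ d ∈ Finset.range N, (evenPow q d : ℝ) * x ^ d ≤ 1 / (1 - q * x ^ 2) := by
  intro N
  have hsub : Finset.range N ⊆ Finset.range (2 * N) := Finset.range_mono (by omega)
  refine (Finset.sum_le_sum_of_subset_of_nonneg hsub fun _ _ _ => by positivity).trans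
    (le_trans (le_of_eq ?_) (sum_geom_le (by positivity) h1 N))
  induction N with
  | zero => simp
  | succ N ih =>
    rw [show 2 * (N + 1) = 2 * N + 1 + 1 by ring, Finset.sum_range_succ, Finset.sum_range_succ,
      ih (Finset.range_mono (by omega)), Finset.sum_range_succ]
    have e1 : evenPow q (2 * N) = q ^ N := by simp [evenPow]
    have e2 : evenPow q (2 * N + 1) = 0 := by simp [evenPow]
    rw [e1, e2]
    push_cast
    rw [mul_pow, ← pow_mul]
    ring

theorem sum_shift_le {x : ℝ} (hx : 0 ≤ x) (f : ℕ → ℕ) {B : ℝ}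
    (hB : ∀ N, ∑ d ∈ Finset.range N, (f d : ℝ) * x ^ d ≤ B) (j N : ℕ) :
    ∑ d ∈ Finset.range N, ((if j ≤ d then f (d - j) else 0 : ℕ) : ℝ) * x ^ d ≤ x ^ j * B := by
  refine (Finset.sum_le_sum_of_subset_of_nonneg (Finset.range_mono (Nat.le_add_left N j))
    fun _ _ _ => by positivity).trans ?_
  rw [Finset.sum_range_add, Finset.sum_eq_zero fun d hd => by
    rw [Finset.mem_range] at hd; rw [if_neg (by omega)]; simp, zero_add]
  calc ∑ d ∈ Finset.range N, ((if j ≤ j + d then f (j + d - j) else 0 : ℕ) : ℝ) * x ^ (j + d)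
      = x ^ j * ∑ d ∈ Finset.range N, (f d : ℝ) * x ^ d := by
        rw [Finset.mul_sum]
        refine Finset.sum_congr rfl fun d _ => ?_
        rw [if_pos (by omega), Nat.add_sub_cancel_left, pow_add]
        ring
    _ ≤ x ^ j * B := mul_le_mul_of_nonneg_left (hB N) (by positivity)

theorem sum_singleBound_le {x : ℝ} (q : ℕ) (h0 : 0 ≤ x) (h1 : (q : ℝ) * x ^ 2 < 1) (N : ℕ) :
    ∑ d ∈ Finset.range N, (singleBound q d : ℝ) * x ^ d ≤ (1 + x) ^ 4 * (1 / (1 - q * x ^ 2)) := by
  set B := 1 / (1 - (q : ℝ) * x ^ 2)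
  have hr : ∀ N, ∑ d ∈ Finset.range N, (recipBound q d : ℝ) * x ^ d ≤ (1 + x) ^ 2 * B := by
    intro N
    have s0 := sum_shift_le h0 (evenPow q) (sum_evenPow_le q h0 h1) 0 N
    have s1 := sum_shift_le h0 (evenPow q) (sum_evenPow_le q h0 h1) 1 N
    have s2 := sum_shift_le h0 (evenPow q) (sum_evenPow_le q h0 h1) 2 N
    have e : ∀ d, (recipBound q d : ℝ) * x ^ d = (evenPowShift q 0 d : ℝ) * x ^ d +
        2 * ((evenPowShift q 1 d : ℝ) * x ^ d) + (evenPowShift q 2 d : ℝ) * x ^ d := fun d => by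
      rw [recipBound]; push_cast; ring
    simp only [e, Finset.sum_add_distrib, ← Finset.mul_sum]
    simp only [evenPowShift] at *
    nlinarith
  have s0 := hr N
  have s1 := sum_shift_le h0 (recipBound q) hr 1 N
  have s2 := sum_shift_le h0 (recipBound q) hr 2 N
  have e : ∀ d, (singleBound q d : ℝ) * x ^ d = (recipBound q d : ℝ) * x ^ d +
      2 * (((if 1 ≤ d then recipBound q (d - 1) else 0 : ℕ) : ℝ) * x ^ d) +
      ((if 2 ≤ d then recipBound q (d - 2) else 0 : ℕ) : ℝ) * x ^ d := fun d => by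
    rw [singleBound]; push_cast; ring
  simp only [e, Finset.sum_add_distrib, ← Finset.mul_sum]
  nlinarith

theorem oddFac_pos {i : ℕ} (hi : 1 ≤ i) : 0 < oddFac i := by
  have : (1 / 3 : ℝ) ^ (2 * i) < 1 := pow_lt_one₀ (by norm_num) (by norm_num) (by omega)
  rw [oddFac]; exact div_pos one_pos (by linarith)

theorem evenFac_den {i : ℕ} (hi : 1 ≤ i) : 0 < 1 - 3 * ((1 / 3 : ℝ) ^ i) ^ 2 := by
  have h : (1 / 3 : ℝ) ^ i ≤ (1 / 3) ^ 1 := pow_le_pow_of_le_one (by norm_num) (by norm_num) hi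
  have h0 : 0 ≤ (1 / 3 : ℝ) ^ i := by positivity
  nlinarith

theorem facProd_pos : ∀ i, 0 < facProd i
  | 0 => one_pos
  | i + 1 => by
    have h := evenFac_den (i := i + 1) (by omega)
    have : 0 < evenFac (i + 1) := div_pos (by positivity) h
    exact mul_pos (mul_pos (facProd_pos i) this) (oddFac_pos (by omega))

theorem ncard_labSet_le [Fintype F] (h2 : (2 : F) ≠ 0) (hq : 3 ≤ Fintype.card F) : ∀ i n,
    ((labSet F (2 * i + 1) n).ncard : ℝ) ≤ facProd i * (Fintype.card F : ℝ) ^ n := by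
  set q := Fintype.card F with hqdef
  have hq0 : (0 : ℝ) < q := by exact_mod_cast (by omega : 0 < q)
  intro i
  induction i with
  | zero =>
    intro n
    have h := (labSet_succ h2 0 n (labSet_finite h2 0) (W := evenPow q)
      (fun d => (levSet_odd h2 odd_one d).2)).2
    rw [Finset.sum_eq_single (2 * n) (fun d hd hne => ?_) (fun h => absurd (Finset.mem_range.2 (by omega)) h)] at h
    · rw [facProd, one_mul]
      have e1 : evenPow q (2 * n) = q ^ n := by simp [evenPow]
      rw [if_pos ⟨by omega, by simp⟩, e1] at h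
      have := (labSet_zero (F := F) (n - (0 + 1) * (2 * n) / 2)).2.1
      exact_mod_cast h.trans (Nat.mul_le_mul_left _ this) |>.trans_eq (mul_one _)
    · rw [Finset.mem_range] at hd
      split_ifs with hc
      · obtain ⟨r, hr⟩ := hc.2
        rw [(labSet_zero (F := F) _).2.2 (by omega), Set.ncard_empty, mul_zero]
      · rfl
  | succ i ih =>
    intro n
    have step : ∀ {K : ℕ} {C : ℝ} {W : ℕ → ℕ} {G x : ℝ}, 0 ≤ C → (∀ d, (levSet F (K + 1) d).ncard ≤ W d) →
        (∀ m, ((labSet F K m).ncard : ℝ) ≤ C * (q : ℝ) ^ m) →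
        (∀ n' d, (K + 1) * d ≤ 2 * n' → Even ((K + 1) * d) →
          (q : ℝ) ^ (n' - (K + 1) * d / 2) = q ^ n' * x ^ d) → 0 ≤ x →
        (∀ N, ∑ d ∈ Finset.range N, (W d : ℝ) * x ^ d ≤ G) →
        ∀ n', ((labSet F (K + 1) n').ncard : ℝ) ≤ C * G * (q : ℝ) ^ n' := by
      intro K C W G x hC hW hK hx hx0 hG n'
      refine (Nat.cast_le.2 (labSet_succ h2 K n' (labSet_finite h2 K) hW).2).trans ?_
      push_cast
      calc ∑ d ∈ Finset.range (2 * n' + 1), (if (K + 1) * d ≤ 2 * n' ∧ Even ((K + 1) * d) then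
            (W d : ℝ) * ((labSet F K (n' - (K + 1) * d / 2)).ncard : ℝ) else 0)
          ≤ ∑ d ∈ Finset.range (2 * n' + 1), C * (q : ℝ) ^ n' * ((W d : ℝ) * x ^ d) := by
            refine Finset.sum_le_sum fun d _ => ?_
            split_ifs with hc
            · calc (W d : ℝ) * ((labSet F K (n' - (K + 1) * d / 2)).ncard : ℝ)
                  ≤ (W d : ℝ) * (C * (q : ℝ) ^ (n' - (K + 1) * d / 2)) :=
                    mul_le_mul_of_nonneg_left (hK _) (by positivity)
                _ = C * (q : ℝ) ^ n' * ((W d : ℝ) * x ^ d) := by rw [hx n' d hc.1 hc.2]; ring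
            · positivity
        _ ≤ C * (q : ℝ) ^ n' * G := by rw [← Finset.mul_sum]; exact mul_le_mul_of_nonneg_left (hG _) (by positivity)
        _ = C * G * (q : ℝ) ^ n' := by ring
    set x := (1 / (q : ℝ)) ^ (i + 1) with hxdef
    obtain ⟨hx0, hx3⟩ := inv_pow_le hq (i + 1)
    have hqx : (q : ℝ) * x ^ 2 ≤ 3 * ((1 / 3 : ℝ) ^ (i + 1)) ^ 2 := by
      obtain ⟨a0, a3⟩ := inv_pow_le hq (2 * i + 1)
      have e1 : (q : ℝ) * x ^ 2 = (1 / (q : ℝ)) ^ (2 * i + 1) := by
        rw [hxdef, ← pow_mul, show (i + 1) * 2 = 2 * i + 1 + 1 by ring, pow_succ]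
        field_simp
      have e2 : 3 * ((1 / 3 : ℝ) ^ (i + 1)) ^ 2 = (1 / 3 : ℝ) ^ (2 * i + 1) := by
        rw [← pow_mul, show (i + 1) * 2 = 2 * i + 1 + 1 by ring, pow_succ]
        ring
      rw [e1, e2]; exact a3
    have hden := evenFac_den (i := i + 1) (by omega)
    have hqx1 : (q : ℝ) * x ^ 2 < 1 := by linarith
    have hG : ∀ N, ∑ d ∈ Finset.range N, (singleBound q d : ℝ) * x ^ d ≤ evenFac (i + 1) := fun N => by
      refine (sum_singleBound_le q hx0 hqx1 N).trans ?_
      rw [mul_one_div, evenFac]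
      exact div_le_div₀ (by positivity) (pow_le_pow_left₀ (by linarith) (by linarith) 4) hden (by linarith)
    have h1 : ∀ m, ((labSet F (2 * i + 1 + 1) m).ncard : ℝ) ≤ facProd i * evenFac (i + 1) * (q : ℝ) ^ m :=
      step (facProd_pos i).le (fun d => (levSet_any h2 _ d).2) ih (fun n' d hle _ => by
        have e : (2 * i + 1 + 1) * d = 2 * ((i + 1) * d) := by ring
        rw [e, Nat.mul_div_cancel_left _ two_pos, ← pow_mul, one_div, inv_pow,
          ← div_eq_mul_inv, pow_sub₀ _ hq0.ne' (by omega), div_eq_mul_inv]) hx0 hG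
    set y := (1 / (q : ℝ)) ^ (2 * (i + 1)) with hydef
    obtain ⟨hy0, hy3⟩ := inv_pow_le hq (2 * (i + 1))
    have hy1 : (1 / 3 : ℝ) ^ (2 * (i + 1)) < 1 := pow_lt_one₀ (by norm_num) (by norm_num) (by omega)
    have hz : ∀ N, ∑ d ∈ Finset.range N, (evenPow q d : ℝ) * Real.sqrt (y / q) ^ d ≤ oddFac (i + 1) := fun N => by
      have hs : (q : ℝ) * Real.sqrt (y / q) ^ 2 = y := by
        rw [Real.sq_sqrt (div_nonneg hy0 hq0.le), mul_div_cancel₀ _ hq0.ne']
      refine (sum_evenPow_le q (Real.sqrt_nonneg _) (by rw [hs]; exact lt_of_le_of_lt hy3 hy1) N).trans ?_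
      rw [hs, oddFac]
      exact one_div_le_one_div_of_le (by linarith) (by linarith)
    have hpos := mul_pos (facProd_pos i) (div_pos (by positivity : (0 : ℝ) < (1 + (1 / 3 : ℝ) ^ (i + 1)) ^ 4) hden)
    have h3 := step (K := 2 * i + 1 + 1) (C := facProd i * evenFac (i + 1)) (W := evenPow q)
      (G := oddFac (i + 1)) (x := Real.sqrt (y / q)) hpos.le
      (fun d => (levSet_odd h2 ⟨i + 1, by ring⟩ d).2) h1 (fun n' d hle hev => by
        have hd : Even d := (Nat.even_mul.1 hev).resolve_left (by simp [Nat.even_add_one, parity_simps])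
        obtain ⟨e, rfl⟩ := hd
        have e1 : (2 * i + 1 + 1 + 1) * (e + e) = 2 * ((2 * (i + 1) + 1) * e) := by ring
        rw [e1, Nat.mul_div_cancel_left _ two_pos, ← two_mul, pow_mul, Real.sq_sqrt (div_nonneg hy0 hq0.le),
          div_pow, ← pow_mul, one_div, inv_pow, pow_sub₀ _ hq0.ne' (by omega)]
        rw [add_mul, one_mul, pow_add, mul_inv]
        ring) (Real.sqrt_nonneg _) hz n
    rw [facProd]
    exact h3

theorem facProd_bound_eight : facProd 8 ≤ 54 / 5 * (1 - 5 / 2 * (1 / 3 : ℝ) ^ 8) := by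
  simp only [facProd, evenFac, oddFac]
  norm_num

theorem facProd_le : ∀ i, facProd i ≤ 54 / 5 := by
  have hmono : ∀ i, facProd i ≤ facProd (i + 1) := fun i => by
    rw [facProd, mul_assoc]
    refine le_mul_of_one_le_right (facProd_pos i).le (one_le_mul_of_one_le_of_one_le ?_ ?_)
    · rw [evenFac, le_div_iff₀ (evenFac_den (by omega))]
      have h0 : (0 : ℝ) ≤ (1 / 3 : ℝ) ^ (i + 1) := by positivity
      nlinarith [one_le_pow₀ (M₀ := ℝ) (a := 1 + (1 / 3 : ℝ) ^ (i + 1)) (by linarith) (n := 4)]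
    · have h1 : (1 / 3 : ℝ) ^ (2 * (i + 1)) < 1 := pow_lt_one₀ (by norm_num) (by norm_num) (by omega)
      have h0 : (0 : ℝ) ≤ (1 / 3 : ℝ) ^ (2 * (i + 1)) := by positivity
      rw [oddFac, le_div_iff₀ (by linarith)]
      linarith
  have hbig : ∀ i, 8 ≤ i → facProd i ≤ 54 / 5 * (1 - 5 / 2 * (1 / 3 : ℝ) ^ i) := by
    intro i hi
    induction i, hi using Nat.le_induction with
    | base => exact facProd_bound_eight
    | succ i hi ih =>
      set x := (1 / 3 : ℝ) ^ (i + 1) with hx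
      have hx0 : 0 < x := by positivity
      have hx1 : x ≤ 1 / 19683 := by
        refine (pow_le_pow_of_le_one (by norm_num) (by norm_num) (show 9 ≤ i + 1 by omega)).trans ?_
        norm_num
      have hprev : (1 / 3 : ℝ) ^ i = 3 * x := by rw [hx, pow_succ]; ring
      rw [hprev] at ih
      have hfac : evenFac (i + 1) * oddFac (i + 1) ≤ 1 + 5 * x := by
        rw [evenFac, oddFac, ← hx, show (1 / 3 : ℝ) ^ (2 * (i + 1)) = x ^ 2 by rw [hx, ← pow_mul, mul_comm],
          div_mul_div_comm, mul_one, div_le_iff₀ (mul_pos (by nlinarith) (by nlinarith))]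
        nlinarith [pow_pos hx0 2, pow_pos hx0 3, pow_pos hx0 4, pow_pos hx0 5]
      rw [facProd, mul_assoc]
      calc facProd i * (evenFac (i + 1) * oddFac (i + 1)) ≤ facProd i * (1 + 5 * x) :=
            mul_le_mul_of_nonneg_left hfac (facProd_pos i).le
        _ ≤ 54 / 5 * (1 - 5 / 2 * (3 * x)) * (1 + 5 * x) := mul_le_mul_of_nonneg_right ih (by positivity)
        _ ≤ 54 / 5 * (1 - 5 / 2 * x) := by nlinarith
  intro i
  have h1 : facProd i ≤ facProd (max i 8) := monotone_nat_of_le_succ hmono (le_max_left _ _)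
  have h3 : (0 : ℝ) ≤ (1 / 3 : ℝ) ^ (max i 8) := by positivity
  linarith [hbig _ (le_max_right i 8)]

end CfsgLib.IsometryClasses
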