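import Cfsg.Agent.IsometryClasses.Split
import Cfsg.Agent.IsometryClasses.SympBound
import Cfsg.Agent.LinAlg.Witt.Std

/-!
# Class number bounds for symplectic groups in odd characteristic
-/

set_option autoImplicit false
set_option linter.style.haveILetI false

namespace CfsgLib.IsometryClasses

open Polynomial Module Matrix

variable {F : Type*} [Field F] {n : ℕ}

/-- The standard alternating form, bilinear. -/
noncomputable def stdB (F : Type*) [Field F] (n : ℕ) : LinearMap.BilinForm F (Fin n ⊕ Fin n → F) :=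
  Matrix.toBilin' (Matrix.J (Fin n) F)

theorem stdB_eq (u v : Fin n ⊕ Fin n → F) : stdB F n u v = Cfsg.sympForm n F u v :=
  Matrix.toBilin'_apply' _ _ _

theorem mem_iff_stdB (A : Matrix (Fin n ⊕ Fin n) (Fin n ⊕ Fin n) F) :
    A ∈ Matrix.symplecticGroup (Fin n) F ↔ ∀ u v, stdB F n (A *ᵥ u) (A *ᵥ v) = stdB F n u v := by
  simp only [stdB_eq, CfsgLib.LinAlg.Witt.mem_symplecticGroup_iff_preserves]

/-- The automorphism of a symplectic matrix. -/
noncomputable def autEquiv (g : Matrix.symplecticGroup (Fin n) F) :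
    (Fin n ⊕ Fin n → F) ≃ₗ[F] (Fin n ⊕ Fin n → F) :=
  LinearEquiv.ofLinearMap (Matrix.toLin' (g : Matrix (Fin n ⊕ Fin n) (Fin n ⊕ Fin n) F))
    (Matrix.toLin' ((g⁻¹ : Matrix.symplecticGroup (Fin n) F) : Matrix (Fin n ⊕ Fin n) (Fin n ⊕ Fin n) F))
    (by rw [← Matrix.toLin'_mul, ← Submonoid.coe_mul, mul_inv_cancel, OneMemClass.coe_one, Matrix.toLin'_one])
    (by rw [← Matrix.toLin'_mul, ← Submonoid.coe_mul, inv_mul_cancel, OneMemClass.coe_one, Matrix.toLin'_one])

theorem autEquiv_apply (g : Matrix.symplecticGroup (Fin n) F) (v : Fin n ⊕ Fin n → F) :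
    autEquiv g v = (g : Matrix (Fin n ⊕ Fin n) (Fin n ⊕ Fin n) F) *ᵥ v := rfl

theorem isEps_autEquiv (g : Matrix.symplecticGroup (Fin n) F) :
    IsEps (-1 : F) (stdB F n) (autEquiv g) := by
  refine ⟨fun x y => (mem_iff_stdB _).1 g.2 x y, fun x y => ?_, fun x hx => ?_⟩
  · simp only [stdB, Matrix.toBilin'_apply']
    rw [dotProduct_comm, ← Matrix.vecMul_transpose, Matrix.J_transpose, Matrix.vecMul_neg, neg_one_mul,
      neg_dotProduct, ← Matrix.dotProduct_mulVec]
  · have h : ∀ y, x ⬝ᵥ (Matrix.J (Fin n) F *ᵥ y) = 0 := fun y => (Matrix.toBilin'_apply' _ _ _).symm.trans (hx y)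
    refine dotProduct_eq_zero x fun y => ?_
    have h1 := h (-(Matrix.J (Fin n) F *ᵥ y))
    rwa [Matrix.mulVec_neg, Matrix.mulVec_mulVec, Matrix.J_squared, Matrix.neg_mulVec, neg_neg,
      Matrix.one_mulVec] at h1

theorem finrank_piece {ε : F} {l : Lab F} (hl : l.Valid ε) :
    finrank F (Fin l.gens → AdjoinRoot l.modulus) = l.wt := by
  haveI := (AdjoinRoot.powerBasis' hl.monic).finite
  rw [Module.finrank_pi_fintype, Finset.sum_const, Finset.card_univ, Fintype.card_fin,
    (AdjoinRoot.powerBasis' hl.monic).finrank, AdjoinRoot.powerBasis'_dim, smul_eq_mul, Lab.wt, Lab.level,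
    natDegree_pow, natDegree_pow]
  ring

theorem exists_labels [Fintype F] (h2 : (2 : F) ≠ 0) (g : Matrix.symplecticGroup (Fin n) F) :
    ∃ L ∈ labSet F (2 * n + 1) n, HasLabels (-1 : F) (stdB F n) (autEquiv g) L := by
  classical
  obtain ⟨ι, _, lab, ⟨N⟩⟩ := exists_normalForm h2 (ε := (-1 : F)) (by ring) _ (stdB F n) (autEquiv g)
    (isEps_autEquiv g) rfl
  have hsum : ((N.labels).map Lab.wt).sum = 2 * n := by
    haveI : ∀ i, Module.Finite F (Fin (lab i).gens → AdjoinRoot (lab i).modulus) := fun i => by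
      haveI := (AdjoinRoot.powerBasis' (N.valid i).monic).finite
      infer_instance
    have h := N.equiv.finrank_eq
    rw [Module.finrank_pi_fintype, Module.finrank_pi, Fintype.card_sum, Fintype.card_fin] at h
    rw [NF.labels, Multiset.map_map]
    show ∑ i, (lab i).wt = 2 * n
    rw [Finset.sum_congr rfl fun i _ => (finrank_piece (N.valid i)).symm, h, two_mul]
  refine ⟨N.labels, ⟨fun l hl => ?_, fun l hl => ?_, hsum⟩, ι, inferInstance, lab, N, rfl⟩
  · simp only [NF.labels, Multiset.mem_map, Finset.mem_val, Finset.mem_univ, true_and] at hl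
    obtain ⟨i, rfl⟩ := hl
    refine ⟨N.valid i, fun hs => ?_⟩
    rw [NF.labels, Multiset.count_map]
    show ((Finset.univ.filter fun j => lab i = lab j)).card = 1
    rw [Finset.card_eq_one]
    refine ⟨i, Finset.eq_singleton_iff_unique_mem.2 ⟨by simp, fun j hj => ?_⟩⟩
    by_contra hne
    have h1 := N.sq_unique i j (Ne.symm hne) (Finset.mem_filter.1 hj).2
    rw [hs] at h1
    exact absurd h1 (by simp)
  · have hv : l.Valid (-1 : F) := by
      simp only [NF.labels, Multiset.mem_map, Finset.mem_val, Finset.mem_univ, true_and] at hl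
      obtain ⟨i, rfl⟩ := hl
      exact N.valid i
    have h1 : l.wt ≤ 2 * n := hsum ▸ Multiset.le_sum_of_mem (Multiset.mem_map_of_mem _ hl)
    have h3 : 1 ≤ l.level.natDegree := by
      rw [Lab.level, natDegree_pow]
      exact Nat.one_le_iff_ne_zero.2 (Nat.mul_ne_zero (by rw [Lab.gens]; split_ifs <;> omega) hv.deg)
    have h4 : l.k ≤ l.k * l.level.natDegree := Nat.le_mul_of_pos_right _ h3
    rw [Lab.wt] at h1
    omega

theorem isConj_of_labels {g g' : Matrix.symplecticGroup (Fin n) F} {L : Multiset (Lab F)}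
    (h : HasLabels (-1 : F) (stdB F n) (autEquiv g) L)
    (h' : HasLabels (-1 : F) (stdB F n) (autEquiv g') L) : IsConj g g' := by
  obtain ⟨e, he, hB⟩ := HasLabels.exists_isometry (isEps_autEquiv g) (isEps_autEquiv g') h h'
  set M := LinearMap.toMatrix' e.toLinearMap with hM
  have hMv : ∀ v, M *ᵥ v = e v := fun v => by rw [hM, LinearMap.toMatrix'_mulVec]; rfl
  have hMem : M ∈ Matrix.symplecticGroup (Fin n) F := (mem_iff_stdB _).2 fun u v => by rw [hMv, hMv, hB]
  refine isConj_iff.2 ⟨⟨M, hMem⟩, ?_⟩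
  rw [mul_inv_eq_iff_eq_mul]
  apply Subtype.ext
  rw [Submonoid.coe_mul, Submonoid.coe_mul]
  refine Matrix.ext_iff_mulVec.2 fun v => ?_
  rw [← Matrix.mulVec_mulVec, ← Matrix.mulVec_mulVec, hMv, hMv]
  exact he v

theorem card_classes_le [Fintype F] (h2 : (2 : F) ≠ 0) (hq : 3 ≤ Fintype.card F) :
    5 * Nat.card (ConjClasses (Matrix.symplecticGroup (Fin n) F)) ≤ 54 * Fintype.card F ^ n := by
  classical
  choose f hf hfl using exists_labels (F := F) (n := n) h2
  have hinj : Function.Injective (fun C : ConjClasses (Matrix.symplecticGroup (Fin n) F) =>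
      (⟨f C.exists_rep.choose, hf _⟩ : labSet F (2 * n + 1) n)) := by
    intro C D e
    rw [← C.exists_rep.choose_spec, ← D.exists_rep.choose_spec]
    refine ConjClasses.mk_eq_mk_iff_isConj.2 (isConj_of_labels (hfl _) ?_)
    rw [show f C.exists_rep.choose = f D.exists_rep.choose from congrArg Subtype.val e]
    exact hfl _
  haveI := (labSet_finite (F := F) h2 (2 * n + 1) n).to_subtype
  have h1 : (Nat.card (ConjClasses (Matrix.symplecticGroup (Fin n) F)) : ℝ) ≤
      ((labSet F (2 * n + 1) n).ncard : ℝ) := by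
    exact_mod_cast Nat.card_le_card_of_injective _ hinj
  have h := h1.trans ((ncard_labSet_le h2 hq n n).trans
    (mul_le_mul_of_nonneg_right (facProd_le n) (by positivity)))
  have h4 : (5 : ℝ) * Nat.card (ConjClasses (Matrix.symplecticGroup (Fin n) F)) ≤
      54 * (Fintype.card F : ℝ) ^ n := by linarith
  exact_mod_cast h4

section Lower

variable {h : F[X]}

/-- The top coefficient functional. -/
noncomputable def topCoeff (hm : h.Monic) : AdjoinRoot h →ₗ[F] F :=
  (lcoeff F (h.natDegree - 1)) ∘ₗ AdjoinRoot.modByMonicHom hm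

theorem topCoeff_nd (hm : h.Monic) (a : AdjoinRoot h) (ha : ∀ b, topCoeff hm (a * b) = 0) : a = 0 := by
  by_contra ha0
  set p := AdjoinRoot.modByMonicHom hm a with hp
  have hpa : AdjoinRoot.mk h p = a := AdjoinRoot.mk_leftInverse hm a
  have hp0 : p ≠ 0 := fun e => ha0 (by rw [← hpa, e, map_zero])
  have hd : p.natDegree < h.natDegree := by
    obtain ⟨r, hr⟩ := AdjoinRoot.mk_surjective a
    rw [hp, ← hr, AdjoinRoot.modByMonicHom_mk]
    refine natDegree_modByMonic_lt r hm fun e1 => ha0 ?_
    rw [← hr, AdjoinRoot.mk_eq_zero, e1]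
    exact one_dvd r
  have h1 := ha (AdjoinRoot.mk h (X ^ (h.natDegree - 1 - p.natDegree)))
  set s := h.natDegree - 1 - p.natDegree with hs
  have hdeg : (p * X ^ s).natDegree = h.natDegree - 1 := by
    rw [natDegree_mul hp0 (pow_ne_zero _ X_ne_zero), natDegree_X_pow]; omega
  rw [← hpa, ← map_mul, topCoeff, LinearMap.comp_apply, AdjoinRoot.modByMonicHom_mk,
    (modByMonic_eq_self_iff hm).2 (by
      rw [degree_eq_natDegree (mul_ne_zero hp0 (pow_ne_zero _ X_ne_zero)), degree_eq_natDegree hm.ne_zero, hdeg]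
      exact_mod_cast (show h.natDegree - 1 < h.natDegree by omega)), lcoeff_apply, ← hdeg,
    coeff_natDegree, leadingCoeff_mul, leadingCoeff_X_pow, mul_one] at h1
  exact leadingCoeff_ne_zero.2 hp0 h1

/-- The alternating form on two copies. -/
noncomputable def pairForm (hm : h.Monic) : LinearMap.BilinForm F (AdjoinRoot h × AdjoinRoot h) :=
  LinearMap.mk₂ F (fun u v => topCoeff hm (u.1 * v.2 - u.2 * v.1))
    (fun a b c => by rw [← map_add]; congr 1; simp; ring)
    (fun t a c => by rw [← map_smul]; congr 1; simp [smul_sub])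
    (fun a b c => by rw [← map_add]; congr 1; simp; ring)
    (fun t a c => by rw [← map_smul]; congr 1; simp [smul_sub])

theorem pairForm_apply (hm : h.Monic) (u v : AdjoinRoot h × AdjoinRoot h) :
    pairForm hm u v = topCoeff hm (u.1 * v.2 - u.2 * v.1) := rfl

theorem exists_element [Fintype F] (hm : h.Monic) (hd : h.natDegree = n) :
    ∃ M : Matrix.symplecticGroup (Fin n) F, ∀ p : F[X],
      aeval ((M : Matrix (Fin n ⊕ Fin n) (Fin n ⊕ Fin n) F) +
        ((M⁻¹ : Matrix.symplecticGroup (Fin n) F) : Matrix (Fin n ⊕ Fin n) (Fin n ⊕ Fin n) F)) p = 0 ↔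
        h ∣ p := by
  haveI := (AdjoinRoot.powerBasis' hm).finite
  have hA : (pairForm hm).IsAlt := fun u => by rw [pairForm_apply, mul_comm, sub_self, map_zero]
  have hker : LinearMap.ker (pairForm hm) = ⊥ := by
    rw [LinearMap.ker_eq_bot']
    intro u hu
    refine Prod.ext (topCoeff_nd hm _ fun b => ?_) (topCoeff_nd hm _ fun b => ?_)
    · have := LinearMap.congr_fun hu (0, b)
      rw [pairForm_apply] at this
      simpa using this
    · have := LinearMap.congr_fun hu (b, 0)
      rw [pairForm_apply] at this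
      simpa using this
  obtain ⟨m, b, hdim, hef, hee, hff⟩ := CfsgLib.LinAlg.Witt.exists_symplectic_basis (pairForm hm) hA hker
  obtain rfl : n = m := by
    rw [Module.finrank_prod, (AdjoinRoot.powerBasis' hm).finrank, AdjoinRoot.powerBasis'_dim, hd] at hdim
    omega
  set x := AdjoinRoot.root h
  let G : Module.End F (AdjoinRoot h × AdjoinRoot h) :=
    { toFun := fun u => (x * u.1 - u.2, u.1)
      map_add' := fun u v => by ext <;> simp; ring
      map_smul' := fun t u => by ext <;> simp [smul_sub] }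
  let G' : Module.End F (AdjoinRoot h × AdjoinRoot h) :=
    { toFun := fun u => (u.2, x * u.2 - u.1)
      map_add' := fun u v => by ext <;> simp; ring
      map_smul' := fun t u => by ext <;> simp [smul_sub] }
  have hGG' : G * G' = 1 := LinearMap.ext fun u => by
    show (x * u.2 - (x * u.2 - u.1), u.2) = u
    rw [sub_sub_cancel]
  have hG : ∀ u v, pairForm hm (G u) (G v) = pairForm hm u v := fun u v => by
    rw [pairForm_apply, pairForm_apply]
    congr 1
    show (x * u.1 - u.2) * v.1 - u.1 * (x * v.1 - v.2) = _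
    ring
  let T := LinearMap.toMatrixAlgEquiv b
  have hco : ∀ u v : Fin n ⊕ Fin n → F,
      pairForm hm (b.equivFun.symm u) (b.equivFun.symm v) = -stdB F n u v := by
    intro u v
    have hext : (pairForm hm).compl₁₂ b.equivFun.symm.toLinearMap b.equivFun.symm.toLinearMap = -stdB F n := by
      refine LinearMap.BilinForm.ext_basis (Pi.basisFun F (Fin n ⊕ Fin n)) fun i j => ?_
      have hb : ∀ k, b.equivFun.symm (Pi.basisFun F _ k) = b k := fun k => by simp
      rw [LinearMap.compl₁₂_apply, LinearEquiv.coe_coe, hb, hb, LinearMap.neg_apply, LinearMap.neg_apply,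
        Pi.basisFun_apply, Pi.basisFun_apply, stdB, Matrix.toBilin'_single]
      have hfe : ∀ i j, pairForm hm (b (Sum.inr i)) (b (Sum.inl j)) = -(if j = i then 1 else 0) := fun i j => by
        rw [← hA.neg_eq, hef]
      rcases i with i | i <;> rcases j with j | j <;>
        simp [Matrix.J, Matrix.one_apply, hee, hff, hef, hfe, eq_comm]
    exact LinearMap.congr_fun₂ hext u v
  have hMu : ∀ u, b.equivFun.symm (T G *ᵥ u) = G (b.equivFun.symm u) := fun u => by
    rw [LinearEquiv.symm_apply_eq]
    have := LinearMap.toMatrix_mulVec_repr b b G (b.equivFun.symm u)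
    simp only [Basis.equivFun_apply] at *
    have hu : ⇑(b.repr (b.equivFun.symm u)) = u := by
      rw [← Basis.equivFun_apply, LinearEquiv.apply_symm_apply]
    rw [hu] at this
    exact this
  have hmem : T G ∈ Matrix.symplecticGroup (Fin n) F := (mem_iff_stdB _).2 fun u v => by
    rw [← neg_inj, ← hco, ← hco, hMu, hMu, hG]
  refine ⟨⟨T G, hmem⟩, fun p => ?_⟩
  have hinv : (((⟨T G, hmem⟩ : Matrix.symplecticGroup (Fin n) F)⁻¹ : Matrix.symplecticGroup (Fin n) F) :
      Matrix (Fin n ⊕ Fin n) (Fin n ⊕ Fin n) F) = T G' := by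
    refine left_inv_eq_right_inv (a := T G) ?_ (by rw [← map_mul T G G', hGG', map_one T])
    rw [← Submonoid.coe_mul (x := (⟨T G, hmem⟩ : Matrix.symplecticGroup (Fin n) F)⁻¹)
      (y := ⟨T G, hmem⟩), inv_mul_cancel, OneMemClass.coe_one]
  rw [hinv]
  show aeval (T G + T G') p = 0 ↔ _
  rw [← map_add, aeval_algHom_apply, EmbeddingLike.map_eq_zero_iff]
  have hsum : ∀ u, (G + G') u = (x * u.1, x * u.2) := fun u => by
    show (x * u.1 - u.2 + u.2, u.1 + (x * u.2 - u.1)) = _
    rw [sub_add_cancel, add_sub_cancel]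
  have hp : ∀ u, aeval (G + G') p u = (AdjoinRoot.mk h p * u.1, AdjoinRoot.mk h p * u.2) := by
    induction p using Polynomial.induction_on with
    | C c =>
      intro u
      rw [aeval_C, Module.algebraMap_end_apply, AdjoinRoot.mk_C, ← AdjoinRoot.algebraMap_eq, ← Algebra.smul_def,
        ← Algebra.smul_def]
      rfl
    | add p q hp hq => intro u; rw [map_add, LinearMap.add_apply, hp, hq, map_add]; ext <;> simp [add_mul]
    | monomial k c ih =>
      intro u
      rw [show C c * X ^ (k + 1) = (C c * X ^ k) * X by ring, map_mul, map_mul (AdjoinRoot.mk h) _ X, aeval_X,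
        Module.End.mul_apply, hsum, ih, AdjoinRoot.mk_X]
      simp [mul_assoc, x]
  rw [← AdjoinRoot.mk_eq_zero (f := h)]
  constructor
  · intro e
    have h1 := hp (1, 0)
    rw [e, LinearMap.zero_apply] at h1
    simpa using (congrArg Prod.fst h1).symm
  · intro e
    exact LinearMap.ext fun u => by rw [hp, e]; simp

theorem le_card_classes [Fintype F] :
    Fintype.card F ^ n ≤ Nat.card (ConjClasses (Matrix.symplecticGroup (Fin n) F)) := by
  classical
  let P : (Fin n → F) → F[X] := fun f => X ^ n + ∑ i : Fin n, C (f i) * X ^ (i : ℕ)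
  have hdeg : ∀ f : Fin n → F, (∑ i : Fin n, C (f i) * X ^ (i : ℕ)).degree < (n : WithBot ℕ) := fun f => degree_sum_fin_lt f
  have hm : ∀ f, (P f).Monic := fun f => monic_X_pow_add (hdeg f)
  have hd : ∀ f, (P f).natDegree = n := fun f => by
    refine natDegree_eq_of_degree_eq_some ?_
    show (X ^ n + ∑ i : Fin n, C (f i) * X ^ (i : ℕ)).degree = _
    rw [degree_add_eq_left_of_degree_lt (by rw [degree_X_pow]; exact hdeg f), degree_X_pow]
  have hPinj : Function.Injective P := fun f f' e => by
    have e' : ∑ i : Fin n, C (f i) * X ^ (i : ℕ) = ∑ i : Fin n, C (f' i) * X ^ (i : ℕ) := add_left_cancel e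
    funext j
    have := congrArg (fun p : F[X] => p.coeff j) e'
    simpa [finsetSum_coeff, Fin.val_inj, Finset.sum_ite_eq] using this
  choose M hM using fun f => exists_element (n := n) (hm f) (hd f)
  have hinj : Function.Injective (fun f => ConjClasses.mk (M f)) := fun f f' e => by
    obtain ⟨P0, hP0⟩ := isConj_iff.1 (ConjClasses.mk_eq_mk_iff_isConj.1 e)
    let P1 := Matrix.symplecticGroup (Fin n) F
    set A : P1 → Matrix (Fin n ⊕ Fin n) (Fin n ⊕ Fin n) F := fun g => g.1
    have e1 : A P0 * (A (M f) + A (M f)⁻¹) = (A (M f') + A (M f')⁻¹) * A P0 := by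
      have a1 : P0 * M f = M f' * P0 := by rw [← hP0]; group
      have a2 : P0 * (M f)⁻¹ = (M f')⁻¹ * P0 := by rw [← hP0]; group
      rw [mul_add, add_mul]
      exact congrArg₂ (· + ·) (congrArg A a1) (congrArg A a2)
    have e2 : ∀ p : F[X], A P0 * aeval (A (M f) + A (M f)⁻¹) p = aeval (A (M f') + A (M f')⁻¹) p * A P0 := by
      intro p
      induction p using Polynomial.induction_on with
      | C c => simp [Algebra.commutes]
      | add p q hp hq => rw [map_add, map_add, mul_add, add_mul, hp, hq]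
      | monomial k c ih =>
        rw [show C c * X ^ (k + 1) = (C c * X ^ k) * X by ring, map_mul, map_mul (aeval _) _ X, aeval_X, aeval_X,
          ← mul_assoc, ih, mul_assoc, e1, mul_assoc]
    have h0 := e2 (P f')
    have hz : aeval (A (M f') + A (M f')⁻¹) (P f') = 0 := (hM f' _).2 dvd_rfl
    rw [hz, zero_mul] at h0
    have hu : IsUnit (A P0) := ⟨⟨A P0, A P0⁻¹,
      (Submonoid.coe_mul _ _ _).symm.trans (congrArg A (mul_inv_cancel P0)),
      (Submonoid.coe_mul _ _ _).symm.trans (congrArg A (inv_mul_cancel P0))⟩, rfl⟩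
    have h1 : P f ∣ P f' := (hM f _).1 (hu.mul_right_eq_zero.1 h0)
    exact hPinj (eq_of_monic_of_dvd_of_natDegree_le (hm f) (hm f') h1 (by rw [hd, hd])).symm
  have := Nat.card_le_card_of_injective _ hinj
  rwa [Nat.card_eq_fintype_card, Fintype.card_fun, Fintype.card_fin] at this

end Lower

end CfsgLib.IsometryClasses
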