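import Cfsg.Agent.Eq.Def_Classical
import Cfsg.Agent.IsometryClasses.SympClasses
import Cfsg.Agent.IsometryClasses.OrthClasses
import Mathlib.LinearAlgebra.Matrix.Charpoly.Minpoly

/-!
# Class number lower bound for orthogonal groups of even dimension in odd characteristic
-/

set_option autoImplicit false
set_option linter.style.haveILetI false

namespace CfsgLib.IsometryClasses

open Polynomial Module Matrix Cfsg.Geo
open scoped Classical

variable {F : Type*} [Field F]

section Rot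

variable {h : F[X]}

/-- The form `(a, b) ↦ 2aa' - x(ab' + ba') + 2bb'` on two copies, followed by the top coefficient. -/
noncomputable def rotForm (hm : h.Monic) : LinearMap.BilinForm F (AdjoinRoot h × AdjoinRoot h) :=
  LinearMap.mk₂ F
    (fun u v => topCoeff hm (2 * (u.1 * v.1) - AdjoinRoot.root h * (u.1 * v.2 + u.2 * v.1) + 2 * (u.2 * v.2)))
    (fun a b c => by rw [← map_add]; congr 1; simp; ring)
    (fun t a c => by
      rw [← map_smul]; congr 1; simp only [Prod.smul_fst, Prod.smul_snd]; simp only [Algebra.smul_def]; ring)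
    (fun a b c => by rw [← map_add]; congr 1; simp; ring)
    (fun t a c => by
      rw [← map_smul]; congr 1; simp only [Prod.smul_fst, Prod.smul_snd]; simp only [Algebra.smul_def]; ring)

theorem rotForm_apply (hm : h.Monic) (u v : AdjoinRoot h × AdjoinRoot h) :
    rotForm hm u v = topCoeff hm
      (2 * (u.1 * v.1) - AdjoinRoot.root h * (u.1 * v.2 + u.2 * v.1) + 2 * (u.2 * v.2)) := rfl

theorem det_fromBlocks_same {d : Type*} [Fintype d] [DecidableEq d] (A B : Matrix d d F) :
    (fromBlocks A B B A).det = (A + B).det * (A - B).det := by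
  have h1 : fromBlocks (1 : Matrix d d F) 0 (-1) 1 * fromBlocks A B B A * fromBlocks 1 0 1 1 =
      fromBlocks (A + B) B 0 (A - B) := by
    simp [fromBlocks_multiply, sub_eq_add_neg, add_comm, add_left_comm]
  have h2 := congrArg Matrix.det h1
  simp only [Matrix.det_mul, det_fromBlocks_zero₂₁, det_fromBlocks_zero₁₂, det_one, one_mul, mul_one] at h2
  exact h2

/-- The discriminant of the rotation form. -/
theorem exists_basis_rotForm (hm : h.Monic) :
    ∃ (b : Basis (Fin h.natDegree ⊕ Fin h.natDegree) F (AdjoinRoot h × AdjoinRoot h)) (L : F),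
      L ≠ 0 ∧ (CfsgLib.LinAlg.Witt.gram (rotForm hm) b).det =
        L ^ 2 * ((-1) ^ h.natDegree * h.eval 2 * h.eval (-2)) := by
  set pb := AdjoinRoot.powerBasis hm.ne_zero with hpb
  haveI := pb.finite
  have hdim : pb.dim = h.natDegree := AdjoinRoot.powerBasis_dim hm.ne_zero
  set b : Basis (Fin h.natDegree) F (AdjoinRoot h) := pb.basis.reindex (finCongr hdim) with hb
  let β : LinearMap.BilinForm F (AdjoinRoot h) := (LinearMap.mul F (AdjoinRoot h)).compr₂ (topCoeff hm)
  have hβ : ∀ a a', β a a' = topCoeff hm (a * a') := fun a a' => rfl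
  have hker : LinearMap.ker β = ⊥ := LinearMap.ker_eq_bot'.2 fun a ha =>
    topCoeff_nd hm a fun c => by rw [← hβ, ha, LinearMap.zero_apply]
  set L := CfsgLib.LinAlg.Witt.gram β b with hL
  set Mx := Algebra.leftMulMatrix b (AdjoinRoot.root h) with hMx
  have hcp : Mx.charpoly = h := by
    have h1 := charpoly_leftMulMatrix pb
    rw [AdjoinRoot.minpoly_powerBasis_gen_of_monic hm] at h1
    have h2 : Mx = Matrix.reindex (finCongr hdim) (finCongr hdim) (Algebra.leftMulMatrix pb.basis pb.gen) := by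
      ext i j
      rw [hMx, Matrix.reindex_apply, Matrix.submatrix_apply, Algebra.leftMulMatrix_eq_repr_mul,
        Algebra.leftMulMatrix_eq_repr_mul, hb, Basis.repr_reindex_apply, Basis.reindex_apply]
      rfl
    rw [h2, Matrix.charpoly_reindex, h1]
  have hLx : ∀ i j, topCoeff hm (AdjoinRoot.root h * (b i * b j)) = (L * Mx) i j := by
    intro i j
    rw [mul_left_comm, ← hβ, Matrix.mul_apply]
    conv_lhs => rw [← b.sum_repr (AdjoinRoot.root h * b j), map_sum]
    exact Finset.sum_congr rfl fun a _ => by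
      rw [map_smul, hL, CfsgLib.LinAlg.Witt.gram_apply, hMx, Algebra.leftMulMatrix_eq_repr_mul, smul_eq_mul,
        mul_comm]
  have h2c : ∀ z : AdjoinRoot h, topCoeff hm (2 * z) = 2 * topCoeff hm z := fun z => by
    rw [two_mul, two_mul, map_add]
  have hG : CfsgLib.LinAlg.Witt.gram (rotForm hm) (b.prod b) =
      fromBlocks L 0 0 L * fromBlocks (Matrix.scalar _ 2) (-Mx) (-Mx) (Matrix.scalar _ 2) := by
    simp only [fromBlocks_multiply, Matrix.zero_mul, add_zero, zero_add, Matrix.mul_neg]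
    have hs : L * Matrix.scalar (Fin h.natDegree) (2 : F) = (2 : F) • L := by
      ext i j
      rw [Matrix.scalar_apply, Matrix.mul_diagonal, Matrix.smul_apply, smul_eq_mul, mul_comm]
    rw [hs]
    ext i j
    rw [CfsgLib.LinAlg.Witt.gram_apply, rotForm_apply]
    rcases i with i | i <;> rcases j with j | j <;>
      simp [fromBlocks, h2c, hLx, hL, hβ, CfsgLib.LinAlg.Witt.gram_apply]
  refine ⟨b.prod b, L.det, CfsgLib.LinAlg.Witt.gram_det_ne_zero β b hker, ?_⟩
  rw [hG, Matrix.det_mul, det_fromBlocks_zero₁₂, det_fromBlocks_same, sub_neg_eq_add]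
  have e1 : (Matrix.scalar (Fin h.natDegree) 2 + -Mx).det = h.eval 2 := by
    rw [← sub_eq_add_neg, ← Matrix.eval_charpoly, hcp]
  have e2 : (Matrix.scalar (Fin h.natDegree) 2 + Mx).det = (-1) ^ h.natDegree * h.eval (-2) := by
    rw [show Matrix.scalar (Fin h.natDegree) (2 : F) + Mx = -(Matrix.scalar _ (-2 : F) - Mx) by
      rw [map_neg]; abel, Matrix.det_neg, Fintype.card_fin, ← Matrix.eval_charpoly, hcp]
  rw [e1, e2]
  ring

end Rot

section Element

variable {ι : Type} [Fintype ι] [DecidableEq ι] {Q : (ι → F) → F} {h : F[X]}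

/-- An isometry with prescribed annihilator of `g + g⁻¹`. -/
theorem exists_orth_element [Fintype F] (h2 : (2 : F) ≠ 0) (hQ : IsNondegenerateQuadraticForm Q) {n : ℕ}
    (hn : Fintype.card ι = 2 * n) (hm : h.Monic) {i : ℕ} {e : F} (he : e * e = 1)
    (hd : h.natDegree + i = n) (hp : h.eval 2 ≠ 0) (hmn : h.eval (-2) ≠ 0)
    (hsq : i = 0 → IsSquare ((CfsgLib.LinAlg.Witt.gram (polarB hQ) (Pi.basisFun F ι)).det *
      ((-1) ^ n * h.eval 2 * h.eval (-2)))) :
    ∃ g : Cfsg.isometryGroup F Q, ∀ p : F[X],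
      aeval (((g : GL ι F) : Matrix ι ι F) + (((g⁻¹ : Cfsg.isometryGroup F Q) : GL ι F) : Matrix ι ι F)) p = 0 ↔
        h ∣ p ∧ (i = 0 ∨ p.eval (2 * e) = 0) := by
  haveI := (AdjoinRoot.powerBasis' hm).finite
  obtain ⟨b0, L, hL, hdet0⟩ := exists_basis_rotForm hm
  set D := (CfsgLib.LinAlg.Witt.gram (polarB hQ) (Pi.basisFun F ι)).det with hDdef
  have hD : D ≠ 0 := CfsgLib.LinAlg.Witt.gram_det_ne_zero _ _ (ker_polarB hQ)
  set r := (-1 : F) ^ h.natDegree * h.eval 2 * h.eval (-2) with hr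
  have hr0 : r ≠ 0 := mul_ne_zero (mul_ne_zero (pow_ne_zero _ (neg_ne_zero.2 one_ne_zero)) hp) hmn
  let dd : Fin (2 * i) → F := fun j => if (j : ℕ) = 0 then D * r else 1
  let S : LinearMap.BilinForm F (Fin (2 * i) → F) := Matrix.toBilin' (Matrix.diagonal dd)
  have hS : ∀ u v, S u v = ∑ j, dd j * (u j * v j) := fun u v => by
    rw [Matrix.toBilin'_apply', dotProduct]
    exact Finset.sum_congr rfl fun j _ => by rw [Matrix.mulVec_diagonal]; ring
  let B : LinearMap.BilinForm F ((AdjoinRoot h × AdjoinRoot h) × (Fin (2 * i) → F)) :=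
    (rotForm hm).comp (LinearMap.fst _ _ _) (LinearMap.fst _ _ _) +
      S.comp (LinearMap.snd _ _ _) (LinearMap.snd _ _ _)
  have hB : ∀ u v, B u v = rotForm hm u.1 v.1 + S u.2 v.2 := fun u v => rfl
  let b1 := b0.prod (Pi.basisFun F (Fin (2 * i)))
  have hgram : CfsgLib.LinAlg.Witt.gram B b1 =
      fromBlocks (CfsgLib.LinAlg.Witt.gram (rotForm hm) b0) 0 0 (Matrix.diagonal dd) := by
    ext a c
    rw [CfsgLib.LinAlg.Witt.gram_apply, hB]
    rcases a with a | a <;> rcases c with c | c <;>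
      simp [b1, S, CfsgLib.LinAlg.Witt.gram_apply, Matrix.diagonal_apply]
  have hdd : (CfsgLib.LinAlg.Witt.gram B b1).det = L ^ 2 * r * ∏ j, dd j := by
    rw [hgram, det_fromBlocks_zero₁₂, hdet0, det_diagonal]
  have hdd0 : ∀ j, dd j ≠ 0 := fun j => by
    show (if (j : ℕ) = 0 then D * r else 1) ≠ 0
    split_ifs
    exacts [mul_ne_zero hD hr0, one_ne_zero]
  have hkerB : LinearMap.ker B = ⊥ := CfsgLib.LinAlg.Witt.ker_eq_bot_of_gram_det_ne_zero B b1 (by
    rw [hdd]
    exact mul_ne_zero (mul_ne_zero (pow_ne_zero _ hL) hr0) (Finset.prod_ne_zero_iff.2 fun j _ => hdd0 j))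
  have hsymm : ∀ u v, B u v = B v u := fun u v => by
    rw [hB, hB, rotForm_apply, rotForm_apply, hS, hS]
    refine congrArg₂ (· + ·) (congrArg (topCoeff hm) (by ring)) (Finset.sum_congr rfl fun j _ => by ring)
  have hsquare : IsSquare ((CfsgLib.LinAlg.Witt.gram B b1).det * D) := by
    rcases Nat.eq_zero_or_pos i with hi | hi
    · subst hi
      obtain ⟨w, hw⟩ := hsq rfl
      refine ⟨L * w, ?_⟩
      haveI : IsEmpty (Fin (2 * 0)) := Fin.isEmpty'
      rw [hdd, Finset.univ_eq_empty, Finset.prod_empty]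
      rw [Nat.add_zero] at hd
      rw [hr, hd]
      linear_combination L ^ 2 * hw
    · have hpr : ∏ j, dd j = D * r := by
        rw [Finset.prod_eq_single (⟨0, by omega⟩ : Fin (2 * i))]
        · rfl
        · exact fun j _ hj => if_neg fun e0 => hj (Fin.ext e0)
        · simp
      exact ⟨L * r * D, by rw [hdd, hpr]; ring⟩
  have hcard : Fintype.card ((Fin h.natDegree ⊕ Fin h.natDegree) ⊕ Fin (2 * i)) = Fintype.card ι := by
    simp only [Fintype.card_sum, Fintype.card_fin, hn]
    omega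
  let ε := Fintype.equivOfCardEq hcard
  have hdd' : (CfsgLib.LinAlg.Witt.gram B (b1.reindex ε)).det = (CfsgLib.LinAlg.Witt.gram B b1).det := by
    rw [show CfsgLib.LinAlg.Witt.gram B (b1.reindex ε) = (CfsgLib.LinAlg.Witt.gram B b1).submatrix ε.symm ε.symm
      from Matrix.ext fun a c => by simp [CfsgLib.LinAlg.Witt.gram_apply], Matrix.det_submatrix_equiv_self]
  haveI : FiniteDimensional F ((AdjoinRoot h × AdjoinRoot h) × (Fin (2 * i) → F)) := inferInstance
  obtain ⟨φ, hφ⟩ := CfsgLib.LinAlg.Witt.exists_isometry_of_det h2 B (polarB hQ) hsymm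
    (fun u v => QuadraticMap.polar_comm Q u v) hkerB (ker_polarB hQ) (b1.reindex ε) (Pi.basisFun F ι)
    (by rwa [hdd'])
  set x := AdjoinRoot.root h
  let G : Module.End F ((AdjoinRoot h × AdjoinRoot h) × (Fin (2 * i) → F)) :=
    { toFun := fun u => ((x * u.1.1 - u.1.2, u.1.1), e • u.2)
      map_add' := fun u v => by ext <;> simp <;> ring
      map_smul' := fun t u => by ext <;> simp [smul_sub, mul_left_comm] }
  let G' : Module.End F ((AdjoinRoot h × AdjoinRoot h) × (Fin (2 * i) → F)) :=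
    { toFun := fun u => ((u.1.2, x * u.1.2 - u.1.1), e • u.2)
      map_add' := fun u v => by ext <;> simp <;> ring
      map_smul' := fun t u => by ext <;> simp [smul_sub, mul_left_comm] }
  have hee : ∀ v : Fin (2 * i) → F, e • e • v = v := fun v => by rw [smul_smul, he, one_smul]
  have hGG' : G * G' = 1 := LinearMap.ext fun u => by
    show ((x * u.1.2 - (x * u.1.2 - u.1.1), u.1.2), e • e • u.2) = u
    rw [sub_sub_cancel, hee]
  have hG'G : G' * G = 1 := LinearMap.ext fun u => by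
    show ((u.1.1, x * u.1.1 - (x * u.1.1 - u.1.2)), e • e • u.2) = u
    rw [sub_sub_cancel, hee]
  have hGB : ∀ u v, B (G u) (G v) = B u v := fun u v => by
    rw [hB, hB]
    refine congrArg₂ (· + ·) ?_ ?_
    · rw [rotForm_apply, rotForm_apply]
      congr 1
      show 2 * ((x * u.1.1 - u.1.2) * (x * v.1.1 - v.1.2)) -
        x * ((x * u.1.1 - u.1.2) * v.1.1 + u.1.1 * (x * v.1.1 - v.1.2)) + 2 * (u.1.1 * v.1.1) = _
      ring
    · show S (e • u.2) (e • v.2) = _
      rw [hS, hS]
      refine Finset.sum_congr rfl fun j _ => ?_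
      simp only [Pi.smul_apply, smul_eq_mul]
      linear_combination (dd j * (u.2 j * v.2 j)) * he
  let bb := Basis.ofEquivFun φ
  let T := LinearMap.toMatrixAlgEquiv bb
  have hMu : ∀ f : Module.End F _, ∀ v, T f *ᵥ v = φ (f (φ.symm v)) := fun f v => by
    have := LinearMap.toMatrix_mulVec_repr bb bb f (φ.symm v)
    simp only [bb, Basis.ofEquivFun_repr_apply] at this
    have hv : ⇑(bb.repr (φ.symm v)) = v := funext fun a => by
      rw [Basis.ofEquivFun_repr_apply, LinearEquiv.apply_symm_apply]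
    rw [hv] at this
    exact this.trans (funext fun a => Basis.ofEquivFun_repr_apply _ _ _)
  let M : GL ι F := ⟨T G, T G', by rw [← map_mul, hGG', map_one], by rw [← map_mul, hG'G, map_one]⟩
  have hmem : M ∈ Cfsg.isometryGroup F Q := fun v w => by
    show Q ((M : Matrix ι ι F) *ᵥ v) = Q v
    refine mul_left_cancel₀ h2 ?_
    rw [← quad_of_polarB h2 hQ, ← quad_of_polarB h2 hQ]
    show polarB hQ (T G *ᵥ v) (T G *ᵥ v) = _
    rw [hMu, hφ, hGB, ← hφ, LinearEquiv.apply_symm_apply]
  refine ⟨⟨M, hmem⟩, fun p => ?_⟩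
  show aeval (T G + T G') p = 0 ↔ _
  rw [← map_add, aeval_algHom_apply, EmbeddingLike.map_eq_zero_iff]
  have hsum : ∀ u, (G + G') u = ((x * u.1.1, x * u.1.2), (2 * e) • u.2) := fun u => by
    show ((x * u.1.1 - u.1.2 + u.1.2, u.1.1 + (x * u.1.2 - u.1.1)), e • u.2 + e • u.2) = _
    rw [sub_add_cancel, add_sub_cancel, ← add_smul, ← two_mul e]
  have hpu : ∀ u, aeval (G + G') p u =
      ((AdjoinRoot.mk h p * u.1.1, AdjoinRoot.mk h p * u.1.2), p.eval (2 * e) • u.2) := by
    induction p using Polynomial.induction_on with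
    | C c =>
      intro u
      rw [aeval_C, Module.algebraMap_end_apply, AdjoinRoot.mk_C, ← AdjoinRoot.algebraMap_eq, ← Algebra.smul_def,
        ← Algebra.smul_def, eval_C]
      rfl
    | add p q hp hq =>
      intro u; rw [map_add, LinearMap.add_apply, hp, hq, map_add, eval_add]; ext <;> simp [add_mul]
    | monomial k c ih =>
      intro u
      rw [show C c * X ^ (k + 1) = (C c * X ^ k) * X by ring, map_mul, map_mul (AdjoinRoot.mk h) _ X, aeval_X,
        Module.End.mul_apply, hsum, ih, AdjoinRoot.mk_X]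
      simp [mul_assoc, smul_smul, x]
  rw [← AdjoinRoot.mk_eq_zero (f := h)]
  constructor
  · intro e0
    refine ⟨?_, ?_⟩
    · have h1 := hpu ((1, 0), 0)
      rw [e0, LinearMap.zero_apply] at h1
      simpa using (congrArg (fun z => z.1.1) h1).symm
    · rcases Nat.eq_zero_or_pos i with hi | hi
      · exact Or.inl hi
      · refine Or.inr ?_
        have h1 := hpu ((0, 0), fun _ => 1)
        rw [e0, LinearMap.zero_apply] at h1
        simpa using (congrFun (congrArg Prod.snd h1) ⟨0, by omega⟩).symm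
  · rintro ⟨e1, hi⟩
    refine LinearMap.ext fun u => ?_
    rw [hpu, e1, LinearMap.zero_apply]
    rcases hi with hi | hi
    · subst hi
      exact Prod.ext (by simp) (funext fun j => (Fin.cast (Nat.mul_zero 2) j).elim0)
    · simp [hi]

end Element

/-! ### Counting -/

section Count

variable [Fintype F]

/-- The admissible values at `2` and `-2`. -/
noncomputable def goodPairs (c : F) : Finset (F × F) :=
  Finset.univ.filter fun p =>
    (p.1 ≠ 0 ∨ p.2 ≠ 0) ∧ (p.1 * p.2 = 0 ∨ IsSquare (c * (p.1 * p.2)))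

theorem card_le_two_mul_goodPairs (hq : 3 ≤ Fintype.card F) {c : F} (hc : c ≠ 0) :
    Fintype.card F ^ 2 ≤ 2 * (goodPairs c).card := by
  set q := Fintype.card F
  set sq : Finset F := Finset.univ.image fun z => z * z
  have hs : q ≤ 2 * sq.card := by
    refine Finset.card_le_mul_card_image Finset.univ 2 fun y hy => ?_
    obtain ⟨z, -, rfl⟩ := Finset.mem_image.1 hy
    refine le_trans (Finset.card_le_card ?_) (Finset.card_le_two (a := z) (b := -z))
    intro w hw
    have := (Finset.mem_filter.1 hw).2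
    rcases mul_self_eq_mul_self_iff.1 this with e | e <;> simp [e]
  set T : Finset (F × F) := ((Finset.univ.erase (0 : F)) ×ˢ sq).image fun p => (p.1, p.2 / (c * p.1))
  set Z : Finset (F × F) := (Finset.univ.erase (0 : F)).image fun v => ((0 : F), v)
  have hZ : Z.card = q - 1 := by
    rw [Finset.card_image_of_injective _ (fun a b e => (Prod.ext_iff.1 e).2), Finset.card_erase_of_mem (Finset.mem_univ _),
      Finset.card_univ]
  have hT : T.card = (q - 1) * sq.card := by
    rw [Finset.card_image_of_injOn, Finset.card_product, Finset.card_erase_of_mem (Finset.mem_univ _),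
      Finset.card_univ]
    intro a ha b hb e
    obtain ⟨e1, e2⟩ := Prod.ext_iff.1 e
    simp only at e1 e2
    have ha0 : a.1 ≠ 0 := (Finset.mem_erase.1 (Finset.mem_product.1 ha).1).1
    rw [← e1, div_left_inj' (mul_ne_zero hc ha0)] at e2
    exact Prod.ext e1 e2
  have hdisj : Disjoint Z T := by
    rw [Finset.disjoint_left]
    rintro p hp hp'
    obtain ⟨v, -, rfl⟩ := Finset.mem_image.1 hp
    obtain ⟨⟨u, w⟩, hu, e⟩ := Finset.mem_image.1 hp'
    exact (Finset.mem_erase.1 (Finset.mem_product.1 hu).1).1 (Prod.ext_iff.1 e).1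
  have hsub : Z ∪ T ⊆ goodPairs c := by
    intro p hp
    refine Finset.mem_filter.2 ⟨Finset.mem_univ _, ?_⟩
    rcases Finset.mem_union.1 hp with hp | hp
    · obtain ⟨v, hv, rfl⟩ := Finset.mem_image.1 hp
      exact ⟨Or.inr (Finset.mem_erase.1 hv).1, Or.inl (zero_mul v)⟩
    · obtain ⟨⟨u, w⟩, hu, rfl⟩ := Finset.mem_image.1 hp
      obtain ⟨hu0', hw⟩ := Finset.mem_product.1 hu
      have hu0 : u ≠ 0 := (Finset.mem_erase.1 hu0').1
      obtain ⟨z, -, rfl⟩ := Finset.mem_image.1 hw
      refine ⟨Or.inl hu0, Or.inr ⟨z, ?_⟩⟩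
      show c * (u * (z * z / (c * u))) = z * z
      field_simp
  have h := Finset.card_le_card hsub
  rw [Finset.card_union_of_disjoint hdisj, hZ, hT] at h
  obtain ⟨t, ht⟩ : ∃ t, q = t + 3 := ⟨q - 3, by omega⟩
  rw [ht] at h hs ⊢
  rw [show t + 3 - 1 = t + 2 by omega] at h
  have h3 : (t + 2) * (t + 4) ≤ (t + 2) * (2 * sq.card) := by
    refine Nat.mul_le_mul_left _ ?_
    -- an odd number of squares: `q` is odd
    by_contra hlt
    have he : 2 * sq.card = t + 3 := by omega
    have hodd : Odd (Fintype.card F) := by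
      rcases Nat.even_or_odd (Fintype.card F) with hev | ho
      · exfalso
        have hbij : ∀ y : F, y ∈ sq := fun y => by
          have h2 : ringChar F = 2 := FiniteField.even_card_iff_char_two.2 (Nat.even_iff.1 hev)
          obtain ⟨z, hz⟩ := FiniteField.isSquare_of_char_two h2 y
          exact Finset.mem_image.2 ⟨z, Finset.mem_univ _, hz.symm⟩
        rw [Finset.eq_univ_of_forall hbij, Finset.card_univ] at he
        omega
      · exact ho
    obtain ⟨j, hj⟩ := hodd
    omega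
  nlinarith

theorem eval_monic_expand {k : ℕ} (f : Fin (k + 2) → F) (x : F) :
    (X ^ (k + 2) + ∑ i : Fin (k + 2), C (f i) * X ^ (i : ℕ) : F[X]).eval x =
      x ^ (k + 2) + (f 0 + (f 1 * x + ∑ j : Fin k, f j.succ.succ * x ^ ((j : ℕ) + 2))) := by
  rw [eval_add, eval_pow, eval_X, eval_finsetSum, Fin.sum_univ_succ, Fin.sum_univ_succ]
  simp

/-- Monic polynomials whose values at `±2` are admissible. -/
theorem card_le_two_mul_good (h2 : (2 : F) ≠ 0) (hq : 3 ≤ Fintype.card F) {c : F} (hc : c ≠ 0) {n : ℕ}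
    (hn : 2 ≤ n) :
    Fintype.card F ^ n ≤ 2 * {f : Fin n → F |
      (((X ^ n + ∑ i : Fin n, C (f i) * X ^ (i : ℕ) : F[X]).eval 2,
        (X ^ n + ∑ i : Fin n, C (f i) * X ^ (i : ℕ) : F[X]).eval (-2)) : F × F) ∈ goodPairs c}.ncard := by
  obtain ⟨k, rfl⟩ := Nat.exists_eq_add_of_le' hn
  set R : (Fin k → F) → F → F := fun t x => x ^ (k + 2) + ∑ j : Fin k, t j * x ^ ((j : ℕ) + 2) with hR
  let Ψ : (F × F) × (Fin k → F) → (Fin (k + 2) → F) := fun p =>
    Fin.cons (((p.1.1 - R p.2 2) + (p.1.2 - R p.2 (-2))) / 2)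
      (Fin.cons (((p.1.1 - R p.2 2) - (p.1.2 - R p.2 (-2))) / 4) p.2)
  have h4 : (4 : F) ≠ 0 := by
    rw [show (4 : F) = 2 * 2 by norm_num]
    exact mul_ne_zero h2 h2
  have hev : ∀ p : (F × F) × (Fin k → F),
      (X ^ (k + 2) + ∑ i : Fin (k + 2), C (Ψ p i) * X ^ (i : ℕ) : F[X]).eval 2 = p.1.1 ∧
      (X ^ (k + 2) + ∑ i : Fin (k + 2), C (Ψ p i) * X ^ (i : ℕ) : F[X]).eval (-2) = p.1.2 := by
    intro p
    have e0 : Ψ p 0 = ((p.1.1 - R p.2 2) + (p.1.2 - R p.2 (-2))) / 2 := rfl
    have e1 : Ψ p 1 = ((p.1.1 - R p.2 2) - (p.1.2 - R p.2 (-2))) / 4 := rfl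
    have es : ∀ j : Fin k, Ψ p j.succ.succ = p.2 j := fun j => rfl
    constructor <;>
    · rw [eval_monic_expand, e0, e1]
      simp only [es, hR]
      field_simp
      ring
  have hinj : Function.Injective Ψ := by
    intro p p' e
    have ht : p.2 = p'.2 := funext fun j => congrFun e j.succ.succ
    refine Prod.ext (Prod.ext ?_ ?_) ht
    · rw [← (hev p).1, ← (hev p').1, e]
    · rw [← (hev p).2, ← (hev p').2, e]
  have hsub : ((goodPairs c ×ˢ (Finset.univ : Finset (Fin k → F))).image Ψ : Set (Fin (k + 2) → F)) ⊆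
      {f | (((X ^ (k + 2) + ∑ i : Fin (k + 2), C (f i) * X ^ (i : ℕ) : F[X]).eval 2,
        (X ^ (k + 2) + ∑ i : Fin (k + 2), C (f i) * X ^ (i : ℕ) : F[X]).eval (-2)) : F × F) ∈ goodPairs c} := by
    intro f hf
    obtain ⟨p, hp, rfl⟩ := Finset.mem_image.1 (Finset.mem_coe.1 hf)
    show ((_, _) : F × F) ∈ goodPairs c
    rw [(hev p).1, (hev p).2]
    exact (Finset.mem_product.1 hp).1
  have h := Set.ncard_le_ncard hsub (Set.toFinite _)
  rw [Set.ncard_coe_finset, Finset.card_image_of_injective _ hinj, Finset.card_product, Finset.card_univ,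
    Fintype.card_fun, Fintype.card_fin] at h
  calc Fintype.card F ^ (k + 2) = Fintype.card F ^ 2 * Fintype.card F ^ k := by rw [← pow_add, add_comm]
    _ ≤ 2 * (goodPairs c).card * Fintype.card F ^ k := Nat.mul_le_mul_right _ (card_le_two_mul_goodPairs hq hc)
    _ ≤ _ := by rw [mul_assoc]; exact Nat.mul_le_mul_left 2 h

end Count

section Bound

variable {ι : Type} [Fintype ι] [DecidableEq ι] {Q : (ι → F) → F}

/-- Splitting off the roots at `2` or `-2`. -/
theorem exists_split (h2 : (2 : F) ≠ 0) {c : F} {P : F[X]} {n : ℕ} (hm : P.Monic) (hd : P.natDegree = n)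
    (h : (P.eval 2 ≠ 0 ∨ P.eval (-2) ≠ 0) ∧
      (P.eval 2 * P.eval (-2) = 0 ∨ IsSquare (c * (P.eval 2 * P.eval (-2))))) :
    ∃ (h₁ : F[X]) (i : ℕ) (e : F), h₁.Monic ∧ e * e = 1 ∧ h₁.natDegree + i = n ∧ h₁.eval 2 ≠ 0 ∧
      h₁.eval (-2) ≠ 0 ∧ P = (X - C (2 * e)) ^ i * h₁ ∧
      (i = 0 → IsSquare (c * (h₁.eval 2 * h₁.eval (-2)))) := by
  by_cases h0 : P.eval 2 * P.eval (-2) = 0
  · obtain ⟨e, he, hz, hnz⟩ : ∃ e : F, e * e = 1 ∧ P.eval (2 * e) = 0 ∧ P.eval (-(2 * e)) ≠ 0 := by
      rcases mul_eq_zero.1 h0 with h1 | h1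
      · refine ⟨1, one_mul 1, by rwa [mul_one], ?_⟩
        rw [mul_one]
        exact h.1.resolve_left (not_not.2 h1)
      · refine ⟨-1, by ring, by rwa [mul_neg, mul_one], ?_⟩
        rw [mul_neg, mul_one, neg_neg]
        exact h.1.resolve_right (not_not.2 h1)
    obtain ⟨g, hg, hnd⟩ := exists_eq_pow_rootMultiplicity_mul_and_not_dvd P hm.ne_zero (2 * e)
    set i := P.rootMultiplicity (2 * e)
    have hgm : g.Monic := ((monic_X_sub_C _).pow i).of_mul_monic_left (hg ▸ hm)
    have hg1 : g.eval (2 * e) ≠ 0 := fun h1 => hnd (dvd_iff_isRoot.2 h1)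
    have hg2 : g.eval (-(2 * e)) ≠ 0 := fun h1 => hnz (by rw [hg, eval_mul, h1, mul_zero])
    have hi : i ≠ 0 := fun h1 => hg1 (by
      have := hz
      rw [hg, h1, pow_zero, one_mul] at this
      exact this)
    refine ⟨g, i, e, hgm, he, ?_, ?_, ?_, hg, fun h1 => absurd h1 hi⟩
    · rw [← hd, hg, Monic.natDegree_mul ((monic_X_sub_C _).pow i) hgm, natDegree_pow, natDegree_X_sub_C]
      ring
    · rcases mul_self_eq_one_iff.1 he with rfl | rfl
      · simpa using hg1
      · simpa using hg2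
    · rcases mul_self_eq_one_iff.1 he with rfl | rfl
      · simpa using hg2
      · simpa using hg1
  · obtain ⟨ha, hb⟩ := mul_ne_zero_iff.1 h0
    exact ⟨P, 0, 1, hm, one_mul 1, by rw [hd, Nat.add_zero], ha, hb, by rw [pow_zero, one_mul],
      fun _ => h.2.resolve_left h0⟩

/-- The lower bound for the class number. -/
theorem le_two_mul_card_classes [Fintype F] (h2 : (2 : F) ≠ 0) (hq : 3 ≤ Fintype.card F)
    (hQ : IsNondegenerateQuadraticForm Q) {n : ℕ} (hn2 : 2 ≤ n) (hn : Fintype.card ι = 2 * n) :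
    Fintype.card F ^ n ≤ 2 * Nat.card (ConjClasses (Cfsg.isometryGroup F Q)) := by
  set c := (CfsgLib.LinAlg.Witt.gram (polarB hQ) (Pi.basisFun F ι)).det * (-1) ^ n with hc
  have hc0 : c ≠ 0 := mul_ne_zero (CfsgLib.LinAlg.Witt.gram_det_ne_zero _ _ (ker_polarB hQ))
    (pow_ne_zero _ (neg_ne_zero.2 one_ne_zero))
  let P : (Fin n → F) → F[X] := fun f => X ^ n + ∑ i : Fin n, C (f i) * X ^ (i : ℕ)
  have hdeg : ∀ f : Fin n → F, (∑ i : Fin n, C (f i) * X ^ (i : ℕ)).degree < (n : WithBot ℕ) := fun f =>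
    degree_sum_fin_lt f
  have hm : ∀ f, (P f).Monic := fun f => monic_X_pow_add (hdeg f)
  have hd : ∀ f, (P f).natDegree = n := fun f => by
    refine natDegree_eq_of_degree_eq_some ?_
    show (X ^ n + ∑ i : Fin n, C (f i) * X ^ (i : ℕ)).degree = _
    rw [degree_add_eq_left_of_degree_lt (by rw [degree_X_pow]; exact hdeg f), degree_X_pow]
  have hPinj : Function.Injective P := fun f f' e => by
    have e' : ∑ i : Fin n, C (f i) * X ^ (i : ℕ) = ∑ i : Fin n, C (f' i) * X ^ (i : ℕ) := add_left_cancel e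
    funext j
    have := congrArg (fun p : F[X] => p.coeff j) e'
    simpa [finsetSum_coeff, Fin.val_inj, Finset.sum_ite_eq] using this
  set S := {f : Fin n → F | ((P f).eval 2, (P f).eval (-2)) ∈ goodPairs c} with hS
  have hcount : Fintype.card F ^ n ≤ 2 * S.ncard := card_le_two_mul_good h2 hq hc0 hn2
  refine hcount.trans (Nat.mul_le_mul_left 2 ?_)
  choose h₁ i e hm₁ he hd₁ hp₁ hn₁ hP hsq using fun f : S =>
    exists_split h2 (c := c) (hm f.1) (hd f.1) (Finset.mem_filter.1 f.2).2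
  choose g hg using fun f : S => exists_orth_element h2 hQ hn (hm₁ f) (he f) (hd₁ f) (hp₁ f) (hn₁ f)
    fun h0 => by
      have := hsq f h0
      rw [hc] at this
      convert this using 1
      ring
  rw [← Nat.card_coe_set_eq]
  refine Nat.card_le_card_of_injective (fun f => ConjClasses.mk (g f)) fun f f' he0 => ?_
  obtain ⟨P0, hP0⟩ := isConj_iff.1 (ConjClasses.mk_eq_mk_iff_isConj.1 he0)
  set A : Cfsg.isometryGroup F Q → Matrix ι ι F := fun g => ((g : GL ι F) : Matrix ι ι F) with hA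
  have hAmul : ∀ a b, A (a * b) = A a * A b := fun a b => rfl
  have e1 : A P0 * (A (g f) + A (g f)⁻¹) = (A (g f') + A (g f')⁻¹) * A P0 := by
    have a1 : P0 * g f = g f' * P0 := by rw [← hP0]; group
    have a2 : P0 * (g f)⁻¹ = (g f')⁻¹ * P0 := by rw [← hP0]; group
    rw [mul_add, add_mul, ← hAmul, ← hAmul, ← hAmul, ← hAmul, a1, a2]
  have e2 : ∀ p : F[X], A P0 * aeval (A (g f) + A (g f)⁻¹) p = aeval (A (g f') + A (g f')⁻¹) p * A P0 := by
    intro p
    induction p using Polynomial.induction_on with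
    | C c => simp [Algebra.commutes]
    | add p q hp hq => rw [map_add, map_add, mul_add, add_mul, hp, hq]
    | monomial k c ih =>
      rw [show C c * X ^ (k + 1) = (C c * X ^ k) * X by ring, map_mul, map_mul (aeval _) _ X, aeval_X, aeval_X,
        ← mul_assoc, ih, mul_assoc, e1, mul_assoc]
  have hu : IsUnit (A P0) := ((P0 : GL ι F)).isUnit
  have key : ∀ p : F[X], (h₁ f ∣ p ∧ (i f = 0 ∨ p.eval (2 * e f) = 0)) ↔
      (h₁ f' ∣ p ∧ (i f' = 0 ∨ p.eval (2 * e f') = 0)) := fun p => by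
    rw [← hg f p, ← hg f' p]
    show aeval (A (g f) + A (g f)⁻¹) p = 0 ↔ aeval (A (g f') + A (g f')⁻¹) p = 0
    rw [← hu.mul_right_eq_zero, e2, hu.mul_left_eq_zero]
  have hdvd : ∀ f f' : S, (∀ p : F[X], (h₁ f' ∣ p ∧ (i f' = 0 ∨ p.eval (2 * e f') = 0)) →
      (h₁ f ∣ p ∧ (i f = 0 ∨ p.eval (2 * e f) = 0))) → h₁ f ∣ h₁ f' ∧
        (i f ≠ 0 → h₁ f' = h₁ f → e f = e f') := by
    intro f f' hh
    obtain ⟨hdv, hev⟩ := hh (h₁ f' * (X - C (2 * e f'))) ⟨dvd_mul_right _ _, Or.inr (by simp)⟩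
    refine ⟨(IsCoprime.dvd_of_dvd_mul_right ?_ hdv), fun hi0 he1 => ?_⟩
    · refine (((irreducible_X_sub_C (2 * e f')).coprime_iff_not_dvd).2 fun hdd => ?_).symm
      have hr := dvd_iff_isRoot.1 hdd
      rcases mul_self_eq_one_iff.1 (he f') with h' | h'
      · exact hp₁ f (by simpa [h'] using hr)
      · exact hn₁ f (by simpa [h'] using hr)
    · have h0 := hev.resolve_left hi0
      rw [eval_mul, he1, mul_eq_zero] at h0
      have hne : (h₁ f).eval (2 * e f) ≠ 0 := by
        rcases mul_self_eq_one_iff.1 (he f) with h' | h' <;> rw [h']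
        · simpa using hp₁ f
        · simpa using hn₁ f
      have h1 := h0.resolve_left hne
      rw [eval_sub, eval_X, eval_C, sub_eq_zero] at h1
      exact mul_left_cancel₀ h2 h1
  obtain ⟨d1, de⟩ := hdvd f f' fun p => (key p).2
  obtain ⟨d2, -⟩ := hdvd f' f fun p => (key p).1
  have hh : h₁ f' = h₁ f := (eq_of_monic_of_associated (hm₁ f) (hm₁ f') (associated_of_dvd_dvd d1 d2)).symm
  have hi : i f = i f' := by
    have h1 := hd₁ f
    have h3 := hd₁ f'
    rw [hh] at h3
    omega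
  apply Subtype.ext
  apply hPinj
  rw [hP f, hP f', hh, ← hi]
  rcases Nat.eq_zero_or_pos (i f) with h0 | h0
  · rw [h0, pow_zero, pow_zero]
  · rw [de h0.ne' hh]

end Bound

end CfsgLib.IsometryClasses
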