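import Cfsg.Agent.IsometryClasses.Quot

/-!
# Cyclic and hyperbolic pieces of isometries of symmetric or alternating forms
-/

set_option autoImplicit false
set_option linter.style.haveILetI false

namespace CfsgLib.IsometryClasses

open Polynomial Module

variable {F : Type*} [Field F] {V : Type*} [AddCommGroup V] [Module F V]

/-- An isometry of a non-degenerate `ε`-symmetric form. -/
structure IsEps (ε : F) (B : LinearMap.BilinForm F V) (g : V ≃ₗ[F] V) : Prop where
  iso : ∀ x y, B (g x) (g y) = B x y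
  symm : ∀ x y, B y x = ε * B x y
  nondeg : ∀ x, (∀ y, B x y = 0) → x = 0

/-- The endomorphism under a linear automorphism. -/
abbrev endo (g : V ≃ₗ[F] V) : Module.End F V := g.toLinearMap

section Psi

variable {ε : F} {B : LinearMap.BilinForm F V} {g : V ≃ₗ[F] V} {f : F[X]}

/-- The orbit map of a vector killed by `f (g)`. -/
noncomputable def psi (g : V ≃ₗ[F] V) (hm : f.Monic) : V →ₗ[F] AdjoinRoot f →ₗ[F] V :=
  ((aeval (endo g)).toLinearMap ∘ₗ AdjoinRoot.modByMonicHom hm).flip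

/-- Vectors killed by `f (g)`. -/
noncomputable def kill (g : V ≃ₗ[F] V) (f : F[X]) : Submodule F V := LinearMap.ker (aeval (endo g) f)

theorem psi_mk (hm : f.Monic) {x : V} (hx : x ∈ kill g f) (p : F[X]) :
    psi g hm x (AdjoinRoot.mk f p) = aeval (endo g) p x := by
  have h : aeval (endo g) (p %ₘ f) x = aeval (endo g) p x := by
    conv_rhs => rw [← modByMonic_add_div p f, map_add, mul_comm, map_mul]
    rw [LinearMap.add_apply, Module.End.mul_apply, LinearMap.mem_ker.1 hx, map_zero, add_zero]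
  exact (by simp [psi] : psi g hm x (AdjoinRoot.mk f p) = aeval (endo g) (p %ₘ f) x).trans h

theorem psi_one (hm : f.Monic) {x : V} (hx : x ∈ kill g f) : psi g hm x 1 = x := by
  rw [← map_one (AdjoinRoot.mk f), psi_mk hm hx, map_one, Module.End.one_apply]

theorem psi_root (hm : f.Monic) {x : V} (hx : x ∈ kill g f) (a : AdjoinRoot f) :
    psi g hm x (AdjoinRoot.root f * a) = g (psi g hm x a) := by
  induction a using AdjoinRoot.induction_on with
  | ih p =>
    rw [← AdjoinRoot.mk_X, ← map_mul, psi_mk hm hx, psi_mk hm hx, map_mul, aeval_X]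
    rfl

theorem psi_mem (hm : f.Monic) {x : V} (hx : x ∈ kill g f) (a : AdjoinRoot f) :
    psi g hm x a ∈ kill g f := by
  induction a using AdjoinRoot.induction_on with
  | ih p =>
    rw [psi_mk hm hx]
    refine LinearMap.mem_ker.2 ?_
    rw [← Module.End.mul_apply, ← map_mul, mul_comm, map_mul, Module.End.mul_apply,
      LinearMap.mem_ker.1 hx, map_zero]

theorem psi_psi (hm : f.Monic) {x : V} (hx : x ∈ kill g f) (a b : AdjoinRoot f) :
    psi g hm (psi g hm x a) b = psi g hm x (b * a) := by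
  induction b using AdjoinRoot.induction_on with
  | ih p =>
    rw [psi_mk hm (psi_mem hm hx a)]
    induction a using AdjoinRoot.induction_on with
    | ih r => rw [psi_mk hm hx, ← map_mul, psi_mk hm hx, map_mul, Module.End.mul_apply]

/-- The functional of a pair of vectors. -/
noncomputable def Phi (B : LinearMap.BilinForm F V) (g : V ≃ₗ[F] V) (hm : f.Monic) (x y : V) :
    AdjoinRoot f →ₗ[F] F := (B.flip y) ∘ₗ psi g hm x

theorem Phi_apply (hm : f.Monic) (x y : V) (a : AdjoinRoot f) : Phi B g hm x y a = B (psi g hm x a) y := rfl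

theorem B_psi (hE : IsEps ε B g) (hf : Recip f) {x y : V} (hx : x ∈ kill g f) (hy : y ∈ kill g f)
    (a b : AdjoinRoot f) :
    B (psi g hf.monic x a) (psi g hf.monic y b) = Phi B g hf.monic x y (a * sig hf b) := by
  induction b using AdjoinRoot.induction_on with
  | ih p =>
    induction p using Polynomial.induction_on generalizing a with
    | C c =>
      have hc : AdjoinRoot.mk f (C c) = algebraMap F (AdjoinRoot f) c := rfl
      rw [hc, AlgHom.commutes, psi_apply_algebraMap hf.monic hy, mul_comm, ← Algebra.smul_def, map_smul,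
        map_smul]
      rfl
    | add p q hp hq => simp only [map_add, mul_add, hp, hq]
    | monomial n c ih =>
      have hsplit : AdjoinRoot.mk f (C c * X ^ (n + 1)) =
          AdjoinRoot.root f * AdjoinRoot.mk f (C c * X ^ n) := by
        rw [← AdjoinRoot.mk_X, ← map_mul]
        congr 1
        ring
      have ha : psi g hf.monic x a = g (psi g hf.monic x (rinv f * a)) := by
        rw [← psi_root hf.monic hx, ← mul_assoc, root_mul_rinv hf.coeff_zero, one_mul]
      rw [hsplit, psi_root hf.monic hy, ha, hE.iso, ih, map_mul (sig hf) (AdjoinRoot.root f), sig_root]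
      congr 1
      ring
where
  psi_apply_algebraMap {c : F} (hm : f.Monic) {y : V} (hy : y ∈ kill g f) :
      psi g hm y (algebraMap F (AdjoinRoot f) c) = c • y := by
    rw [Algebra.algebraMap_eq_smul_one, map_smul, psi_one hm hy]

theorem Phi_symm (hE : IsEps ε B g) (hf : Recip f) {x y : V} (hx : x ∈ kill g f) (hy : y ∈ kill g f)
    (a : AdjoinRoot f) : Phi B g hf.monic y x (sig hf a) = ε * Phi B g hf.monic x y a := by
  have h := hE.symm (psi g hf.monic x a) y
  rw [← Phi_apply] at h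
  rw [← h]
  conv_rhs => arg 1; rw [← psi_one hf.monic hy]
  rw [B_psi hE hf hy hx, one_mul]

theorem Phi_psi (hE : IsEps ε B g) (hf : Recip f) {x y : V} (hx : x ∈ kill g f) (hy : y ∈ kill g f)
    (u v a : AdjoinRoot f) :
    Phi B g hf.monic (psi g hf.monic x u) (psi g hf.monic y v) a =
      Phi B g hf.monic x y (a * (u * sig hf v)) := by
  rw [Phi_apply, psi_psi hf.monic hx, B_psi hE hf hx hy, mul_assoc]

theorem Phi_psi_left (hE : IsEps ε B g) (hf : Recip f) {x y : V} (hx : x ∈ kill g f) (hy : y ∈ kill g f)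
    (u a : AdjoinRoot f) :
    Phi B g hf.monic (psi g hf.monic x u) y a = Phi B g hf.monic x y (a * u) := by
  conv_lhs => rw [← psi_one hf.monic hy]
  rw [Phi_psi hE hf hx hy, map_one, mul_one]

theorem Phi_psi_right (hE : IsEps ε B g) (hf : Recip f) {x y : V} (hx : x ∈ kill g f) (hy : y ∈ kill g f)
    (v a : AdjoinRoot f) :
    Phi B g hf.monic x (psi g hf.monic y v) a = Phi B g hf.monic x y (a * sig hf v) := by
  conv_lhs => rw [← psi_one hf.monic hx]
  rw [Phi_psi hE hf hx hy, one_mul]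

theorem Phi_add_left (hm : f.Monic) (x x' y : V) (a : AdjoinRoot f) :
    Phi B g hm (x + x') y a = Phi B g hm x y a + Phi B g hm x' y a := by
  simp [Phi_apply]

theorem Phi_add_right (hm : f.Monic) (x y y' : V) (a : AdjoinRoot f) :
    Phi B g hm x (y + y') a = Phi B g hm x y a + Phi B g hm x y' a := by
  simp [Phi_apply]

end Psi

/-! ### Normalisation -/

section Normal

variable {ε : F} {B : LinearMap.BilinForm F V} {g : V ≃ₗ[F] V} {H : F[X]} {k : ℕ}

/-- Functionals which can be the Gram functional of one generator. -/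
def GoodFun (ε : F) (hH : Recip H) (k : ℕ) (φ : AdjoinRoot (H ^ k) →ₗ[F] F) : Prop :=
  (∀ a, φ (sig (hH.pow k) a) = ε * φ a) ∧ Nd φ

theorem exists_scale_gen [Finite F] (h2 : (2 : F) ≠ 0) (hε : ε ≠ 0) (hH : Recip H) (hd : H.natDegree ≠ 0)
    (hN : NormSurj hH) (hk : k ≠ 0) {φ ψ : AdjoinRoot (H ^ k) →ₗ[F] F} (hφ : GoodFun ε hH k φ)
    (hψ : GoodFun ε hH k ψ) :
    ∃ b, IsUnit b ∧ ∀ a, ψ a = φ (a * (b * sig (hH.pow k) b)) := by
  obtain ⟨r, hr, hru, hrs⟩ := exists_fixed_rep hε hH hφ hψ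
  obtain ⟨b₀, hb₀⟩ := hN _ (hru.map (red H k hk)) (by rw [← red_sig hH, hrs])
  obtain ⟨b, hb, hbr⟩ := exists_norm_of_red h2 hH hd hk hru hrs hb₀
  exact ⟨b, hb, fun a => by rw [hr, hbr, mul_comm]⟩
where
  exists_fixed_rep (hε : ε ≠ 0) (hH : Recip H) {φ ψ : AdjoinRoot (H ^ k) →ₗ[F] F}
      (hφ : GoodFun ε hH k φ) (hψ : GoodFun ε hH k ψ) :
      ∃ r, (∀ a, ψ a = φ (r * a)) ∧ IsUnit r ∧ sig (hH.pow k) r = r := by
    obtain ⟨r, hr⟩ := exists_rep (hH.pow k).monic hφ.2 ψ
    refine ⟨r, hr, isUnit_of_rep (hH.pow k).monic hψ.2 hr, hφ.2.ext fun a => mul_left_cancel₀ hε ?_⟩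
    have h1 := hφ.1 (sig (hH.pow k) r * a)
    rw [map_mul, sig_sig, ← hr, hψ.1] at h1
    rw [← h1, hr]

theorem red_eq_eval {c : F} (hk : k ≠ 0) (p : F[X]) :
    red (X - C c) k hk (AdjoinRoot.mk _ p) = algebraMap F _ (p.eval c) := by
  rw [red_mk, AdjoinRoot.algebraMap_eq, ← AdjoinRoot.mk_C, AdjoinRoot.mk_eq_mk]
  exact X_sub_C_dvd_sub_C_eval

theorem exists_red_scalar {c : F} (hk : k ≠ 0) (a : AdjoinRoot ((X - C c) ^ k)) :
    ∃ t : F, red (X - C c) k hk a = algebraMap F _ t := by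
  induction a using AdjoinRoot.induction_on with
  | ih p => exact ⟨_, red_eq_eval hk p⟩

theorem sig_red_id {c : F} (hH : Recip (X - C c)) (hk : k ≠ 0) (a : AdjoinRoot ((X - C c) ^ k)) :
    red (X - C c) k hk (sig (hH.pow k) a) = red (X - C c) k hk a := by
  obtain ⟨t, ht⟩ := exists_red_scalar hk a
  rw [red_sig hH, ht, AlgHom.commutes]

theorem atomCond_linear {c : F} (hH : Recip (X - C c)) : AtomCond hH := by
  intro e he
  obtain ⟨t, rfl⟩ : ∃ t : F, e = algebraMap F _ t := by
    obtain ⟨a, rfl⟩ := exists_red_eq (H := X - C c) one_ne_zero e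
    exact exists_red_scalar one_ne_zero a
  exact ⟨algebraMap F _ t⁻¹, 0, by
    rw [zero_mul, add_zero, ← map_mul, inv_mul_cancel₀ (fun h => he (by rw [h, map_zero])), map_one]⟩

/-- The sign of a single generator at `±1`. -/
def SqClass (φ : AdjoinRoot (H ^ k) →ₗ[F] F) (s : Bool) : Prop := IsSquare (φ (top H k)) ↔ s = true

theorem exists_scale_linear [Finite F] (h2 : (2 : F) ≠ 0) (hε : ε ≠ 0) {c : F} (hH : Recip (X - C c))
    (hk : k ≠ 0) {φ ψ : AdjoinRoot ((X - C c) ^ k) →ₗ[F] F} (hφ : GoodFun ε hH k φ)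
    (hψ : GoodFun ε hH k ψ) (hsq : IsSquare (φ (top _ k)) ↔ IsSquare (ψ (top _ k))) :
    ∃ b, IsUnit b ∧ ∀ a, ψ a = φ (a * (b * sig (hH.pow k) b)) := by
  classical
  letI := Fintype.ofFinite F
  have hd : (X - C c).natDegree ≠ 0 := by rw [natDegree_X_sub_C]; exact one_ne_zero
  obtain ⟨r, hr, hru, hrs⟩ := exists_scale_gen.exists_fixed_rep hε hH hφ hψ
  obtain ⟨t, ht⟩ := exists_red_scalar hk r
  have htop : top (X - C c) k * r = t • top (X - C c) k := by
    have h0 := top_mul hk (show red (X - C c) k hk (r - algebraMap F _ t) = 0 by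
      rw [map_sub, ht, AlgHom.commutes, sub_self])
    rw [mul_sub, sub_eq_zero] at h0
    rw [h0, Algebra.smul_def, mul_comm]
  have hne : φ (top _ k) ≠ 0 := by
    intro h0
    obtain ⟨b, hb⟩ := exists_top_ne hH.monic hd hk hφ.2
    obtain ⟨s, hs⟩ := exists_red_scalar hk b
    have h0' := top_mul hk (show red (X - C c) k hk (b - algebraMap F _ s) = 0 by
      rw [map_sub, hs, AlgHom.commutes, sub_self])
    rw [mul_sub, sub_eq_zero] at h0'
    exact hb (by rw [h0', mul_comm, ← Algebra.smul_def, map_smul, h0, smul_zero])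
  have hval : ψ (top _ k) = t * φ (top _ k) := by
    rw [hr, mul_comm, htop, map_smul, smul_eq_mul]
  have ht0 : t ≠ 0 := by
    rintro rfl
    have := hru.map (red (X - C c) k hk)
    rw [ht, map_zero] at this
    haveI inst : Nontrivial (AdjoinRoot (X - C c)) := AdjoinRoot.nontrivial _ (by
      rw [degree_X_sub_C]; exact one_ne_zero)
    exact not_isUnit_zero (M₀ := AdjoinRoot (X - C c)) this
  obtain ⟨w, hw⟩ : IsSquare t := by
    have hF : ringChar F ≠ 2 := fun e => h2 (by
      have := CharP.cast_eq_zero F (ringChar F)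
      rwa [e, Nat.cast_ofNat] at this)
    rw [← quadraticChar_one_iff_isSquare ht0]
    by_cases hq : IsSquare (φ (top _ k))
    · have h' := hsq.1 hq
      rw [hval] at h'
      rw [← quadraticChar_one_iff_isSquare (mul_ne_zero ht0 hne), map_mul,
        (quadraticChar_one_iff_isSquare hne).2 hq, mul_one] at h'
      exact h'
    · have h' : ¬ IsSquare (ψ (top _ k)) := fun e => hq (hsq.2 e)
      rw [hval, ← quadraticChar_neg_one_iff_not_isSquare, map_mul,
        quadraticChar_neg_one_iff_not_isSquare.2 hq] at h'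
      omega
  obtain ⟨b, hb, hbr⟩ := exists_norm_of_red h2 hH hd hk hru hrs (b₀ := algebraMap F _ w) (by
    rw [AlgHom.commutes, ← map_mul, ← hw, ht])
  exact ⟨b, hb, fun a => by rw [hr, hbr, mul_comm]⟩

theorem sig_top_linear {c : F} (hc : c * c = 1) (hH : Recip (X - C c)) (hk : k ≠ 0) :
    sig (hH.pow k) (top (X - C c) k) = (-1 : F) ^ (k - 1) • top (X - C c) k := by
  set A := AdjoinRoot ((X - C c) ^ k)
  set T : A := AdjoinRoot.root _ - algebraMap F A c with hT
  have htop : top (X - C c) k = T ^ (k - 1) := by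
    rw [top, map_pow, map_sub, AdjoinRoot.mk_X, AdjoinRoot.mk_C, ← AdjoinRoot.algebraMap_eq]
  have hcc : algebraMap F A c * algebraMap F A c = 1 := by rw [← map_mul, hc, map_one]
  have hri := root_mul_rinv (hH.pow k).coeff_zero
  have hsig : sig (hH.pow k) T = -(algebraMap F A c * rinv _) * T := by
    rw [hT, map_sub, sig_root, AlgHom.commutes]
    linear_combination (algebraMap F A c) * hri - rinv ((X - C c) ^ k) * hcc
  have hTk : T ^ (k - 1) * T = 0 := by
    rw [← pow_succ, show k - 1 + 1 = k by omega, hT, ← AdjoinRoot.mk_X, AdjoinRoot.algebraMap_eq,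
      ← AdjoinRoot.mk_C, ← map_sub, ← map_pow, AdjoinRoot.mk_self]
  have hone : T ^ (k - 1) * (algebraMap F A c * rinv _) = T ^ (k - 1) := by
    have h1 : T ^ (k - 1) * (algebraMap F A c * rinv ((X - C c) ^ k)) * AdjoinRoot.root _ =
        T ^ (k - 1) * algebraMap F A c := by
      rw [mul_assoc, mul_assoc, mul_comm (rinv _), hri, mul_one]
    have h2 : T ^ (k - 1) * AdjoinRoot.root _ = T ^ (k - 1) * algebraMap F A c := by
      rw [← sub_eq_zero, ← mul_sub, ← hT, hTk]
    exact (IsUnit.of_mul_eq_one _ hri).mul_right_cancel (h1.trans h2.symm)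
  have hpow : ∀ j : ℕ, T ^ (k - 1) * (algebraMap F A c * rinv _) ^ j = T ^ (k - 1) := by
    intro j
    induction j with
    | zero => rw [pow_zero, mul_one]
    | succ j ih => rw [pow_succ, ← mul_assoc, ih, hone]
  rw [htop, map_pow, hsig, mul_pow, neg_pow, Algebra.smul_def, map_pow, map_neg, map_one]
  linear_combination (-1 : A) ^ (k - 1) * hpow (k - 1)

/-- The standard functional between the two generators of a hyperbolic piece. -/
def IsPairFun (c : F) (hH : Recip (X - C c)) (k : ℕ) (δ : AdjoinRoot ((X - C c) ^ k) →ₗ[F] F) : Prop :=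
  (∀ a, δ (sig (hH.pow k) a) = (-1 : F) ^ (k - 1) * δ a) ∧ δ (top _ k) = 1

theorem IsPairFun.nd {c : F} {hH : Recip (X - C c)} {δ : AdjoinRoot ((X - C c) ^ k) →ₗ[F] F}
    (hk : k ≠ 0) (h : IsPairFun c hH k δ) : Nd δ :=
  nd_of_top hH (atomCond_linear hH) hk h.1 ⟨1, by rw [mul_one, h.2]; exact one_ne_zero⟩

theorem exists_isPairFun (h2 : (2 : F) ≠ 0) {c : F} (hc : c * c = 1) (hH : Recip (X - C c)) (hk : k ≠ 0) :
    ∃ δ, IsPairFun c hH k δ := by
  have hne := top_ne_zero hH.monic (k := k) (by rw [natDegree_X_sub_C]; exact one_ne_zero) hk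
  obtain ⟨φ, hφ⟩ : ∃ φ : Module.Dual F (AdjoinRoot ((X - C c) ^ k)), φ (top _ k) ≠ 0 := by
    by_contra hn
    push Not at hn
    exact hne ((Module.forall_dual_apply_eq_zero_iff F _).1 hn)
  set s : F := (-1) ^ (k - 1) with hs
  have hss : s * s = 1 := by rw [hs, ← mul_pow, neg_one_mul, neg_neg, one_pow]
  set t := φ (top _ k)
  refine ⟨(2 * t)⁻¹ • (φ + s • (φ ∘ₗ (sig (hH.pow k)).toLinearMap)), fun a => ?_, ?_⟩
  · simp only [LinearMap.smul_apply, LinearMap.add_apply, LinearMap.comp_apply, AlgHom.toLinearMap_apply,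
      sig_sig, smul_eq_mul]
    linear_combination (-(2 * t)⁻¹ * φ (sig (hH.pow k) a)) * hss
  · simp only [LinearMap.smul_apply, LinearMap.add_apply, LinearMap.comp_apply, AlgHom.toLinearMap_apply,
      sig_top_linear hc hH hk, map_smul, smul_eq_mul]
    rw [← mul_assoc s, hss, one_mul, ← two_mul, inv_mul_cancel₀ (mul_ne_zero h2 hφ)]

theorem exists_hyperbolic [Finite F] (h2 : (2 : F) ≠ 0) (hE : IsEps ε B g) {c : F}
    (hH : Recip (X - C c)) (hk : k ≠ 0) (hεs : ε * (-1) ^ (k - 1) = -1)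
    {δ : AdjoinRoot ((X - C c) ^ k) →ₗ[F] F} (hδ : IsPairFun c hH k δ) {x y : V}
    (hx : x ∈ kill g ((X - C c) ^ k)) (hy : y ∈ kill g ((X - C c) ^ k))
    (hxy : Phi B g (hH.pow k).monic x y (top _ k) ≠ 0) :
    ∃ x' ∈ kill g ((X - C c) ^ k), ∃ y' ∈ kill g ((X - C c) ^ k),
      Phi B g (hH.pow k).monic x' x' = 0 ∧ Phi B g (hH.pow k).monic y' y' = 0 ∧
      (∀ a, Phi B g (hH.pow k).monic x' y' a = δ a) ∧
      ∀ a, Phi B g (hH.pow k).monic y' x' a = -δ a := by
  set hf := hH.pow k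
  set σ := sig hf with hσ
  set Ph := Phi B g hf.monic with hPh
  set s : F := (-1) ^ (k - 1) with hs
  have hss : s * s = 1 := by rw [hs, ← mul_pow, neg_one_mul, neg_neg, one_pow]
  have hnd := hδ.nd hk
  have hdeg : (X - C c).natDegree ≠ 0 := by rw [natDegree_X_sub_C]; exact one_ne_zero
  have hneg : ∀ a, ε * δ (σ a) = -δ a := fun a => by rw [hδ.1, ← mul_assoc, hεs, neg_one_mul]
  have hskew : ∀ {z : V} (A1 : AdjoinRoot ((X - C c) ^ k)), z ∈ kill g ((X - C c) ^ k) →
      (∀ a, Ph z z a = δ (A1 * a)) → σ A1 = -A1 := by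
    intro z A1 hz hA1
    refine hnd.ext fun a => ?_
    have h1 := Phi_symm hE hf hz hz (σ a)
    rw [sig_sig, ← hPh, hA1, hA1] at h1
    have h2' := hδ.1 (A1 * σ a)
    rw [map_mul, sig_sig] at h2'
    rw [h2', neg_mul, map_neg, h1]
    linear_combination (s * δ (A1 * σ a)) * hεs - (ε * δ (A1 * σ a)) * hss
  have hred0 : ∀ a, σ a = -a → red (X - C c) k hk a = 0 := by
    intro a ha
    obtain ⟨t, ht⟩ := exists_red_scalar hk a
    have h1 := sig_red_id hH hk a
    rw [← hσ, ha, map_neg, ht, ← map_neg] at h1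
    haveI : Nontrivial (AdjoinRoot (X - C c)) := AdjoinRoot.nontrivial _ (by
      rw [degree_X_sub_C]; exact one_ne_zero)
    have ht2 : (2 : F) * t = 0 := by linear_combination -((algebraMap F _).injective h1)
    rw [ht, (mul_eq_zero.1 ht2).resolve_left h2, map_zero]
  obtain ⟨C0, hC0⟩ := exists_rep hf.monic hnd (Ph x y)
  obtain ⟨t0, ht0⟩ := exists_red_scalar hk C0
  have hC0u : IsUnit C0 := by
    refine isUnit_of_red hk ?_
    rw [ht0]
    refine (IsUnit.mk0 _ ?_).map _
    rintro rfl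
    apply hxy
    rw [hC0, mul_comm, top_mul hk (by rw [ht0, map_zero]), map_zero]
  obtain ⟨C0', hC0'⟩ := hC0u.exists_left_inv
  set y1 := psi g hf.monic y (σ C0') with hy1
  have hy1k : y1 ∈ kill g ((X - C c) ^ k) := psi_mem hf.monic hy _
  have hxy1 : ∀ a, Ph x y1 a = δ a := fun a => by
    rw [hy1, hPh, Phi_psi_right hE hf hx hy, sig_sig, ← hPh, hC0]
    congr 1
    linear_combination a * hC0'
  have hy1x : ∀ a, Ph y1 x a = -δ a := fun a => by
    rw [← sig_sig hf a, hPh, Phi_symm hE hf hx hy1k, ← hPh, hxy1, sig_sig, hneg]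
  obtain ⟨A1, hA1⟩ := exists_rep hf.monic hnd (Ph x x)
  obtain ⟨B1, hB1⟩ := exists_rep hf.monic hnd (Ph y1 y1)
  have hA1s := hskew A1 hx hA1
  have hB1s := hskew B1 hy1k hB1
  haveI := finite_adjoinRoot hf.monic
  let h : {q : AdjoinRoot ((X - C c) ^ k) // σ q = -q} → {q : AdjoinRoot ((X - C c) ^ k) // σ q = -q} :=
    fun q => ⟨2 * q.1 + q.1 * q.1 * B1, by rw [map_add, map_mul, map_mul, map_mul, hB1s, q.2, map_ofNat]; ring⟩
  have hinj : Function.Injective h := by
    intro q q' he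
    have he' : (2 : AdjoinRoot ((X - C c) ^ k)) * q.1 + q.1 * q.1 * B1 = 2 * q'.1 + q'.1 * q'.1 * B1 :=
      congrArg Subtype.val he
    have hu : IsUnit (2 + (q.1 + q'.1) * B1) := by
      refine isUnit_of_red hk ?_
      rw [map_add, map_mul, hred0 B1 hB1s, mul_zero, add_zero, map_ofNat]
      have := (IsUnit.mk0 _ h2).map (algebraMap F (AdjoinRoot (X - C c)))
      rwa [map_ofNat] at this
    refine Subtype.ext (sub_eq_zero.1 (hu.mul_left_eq_zero.1 ?_))
    linear_combination he'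
  obtain ⟨⟨q, hq⟩, hqA⟩ := Finite.surjective_of_injective hinj ⟨A1, hA1s⟩
  have hqA' : (2 : AdjoinRoot ((X - C c) ^ k)) * q + q * q * B1 = A1 := congrArg Subtype.val hqA
  set x' := x + psi g hf.monic y1 q with hx'
  have hxk : x' ∈ kill g ((X - C c) ^ k) := add_mem hx (psi_mem hf.monic hy1k _)
  have hx'x' : ∀ a, Ph x' x' a = 0 := fun a => by
    rw [hx', hPh, Phi_add_left, Phi_add_right, Phi_add_right, Phi_psi_left hE hf hy1k hx,
      Phi_psi_right hE hf hx hy1k, Phi_psi hE hf hy1k hy1k, ← hPh, hA1, hxy1, hy1x, hB1, ← hσ, hq,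
      ← map_neg, ← map_add, ← map_add, ← map_add, ← map_zero δ]
    congr 1
    linear_combination (-a) * hqA'
  have hx'y1 : ∀ a, Ph x' y1 a = δ ((1 + B1 * q) * a) := fun a => by
    rw [hx', hPh, Phi_add_left, Phi_psi_left hE hf hy1k hy1k, ← hPh, hxy1, hB1, ← map_add]
    congr 1
    ring
  have hCu : IsUnit (1 + B1 * q) := by
    refine isUnit_of_red hk ?_
    rw [map_add, map_mul, hred0 B1 hB1s, zero_mul, add_zero, map_one]
    exact isUnit_one
  obtain ⟨C', hC'⟩ := hCu.exists_left_inv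
  set y2 := psi g hf.monic y1 (σ C') with hy2
  have hy2k : y2 ∈ kill g ((X - C c) ^ k) := psi_mem hf.monic hy1k _
  have hx'y2 : ∀ a, Ph x' y2 a = δ a := fun a => by
    rw [hy2, hPh, Phi_psi_right hE hf hxk hy1k, sig_sig, ← hPh, hx'y1]
    congr 1
    linear_combination a * hC'
  have hy2x' : ∀ a, Ph y2 x' a = -δ a := fun a => by
    rw [← sig_sig hf a, hPh, Phi_symm hE hf hxk hy2k, ← hPh, hx'y2, sig_sig, hneg]
  obtain ⟨B2, hB2⟩ := exists_rep hf.monic hnd (Ph y2 y2)
  have hB2s := hskew B2 hy2k hB2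
  set r := algebraMap F (AdjoinRoot ((X - C c) ^ k)) (-(1 / 2)) * B2 with hr
  have hrs : σ r = -r := by rw [hr, map_mul, AlgHom.commutes, hB2s, mul_neg]
  set y' := y2 + psi g hf.monic x' r with hy'
  have hy'k : y' ∈ kill g ((X - C c) ^ k) := add_mem hy2k (psi_mem hf.monic hxk _)
  have hy'y' : ∀ a, Ph y' y' a = 0 := fun a => by
    rw [hy', hPh, Phi_add_left, Phi_add_right, Phi_add_right, Phi_psi_left hE hf hxk hy2k,
      Phi_psi_right hE hf hy2k hxk, Phi_psi hE hf hxk hxk, ← hPh, hB2, hy2x', hx'y2, hx'x', add_zero,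
      ← hσ, hrs, ← map_neg, ← map_add, ← map_add, ← map_zero δ]
    congr 1
    have hh : algebraMap F (AdjoinRoot ((X - C c) ^ k)) (-(1 / 2)) * 2 = -1 := by
      rw [← map_ofNat (algebraMap F (AdjoinRoot ((X - C c) ^ k))) 2, ← map_mul,
        show (-(1 / 2) : F) * 2 = -1 by field_simp, map_neg, map_one]
    rw [hr]
    linear_combination (a * B2) * hh
  have hx'y' : ∀ a, Ph x' y' a = δ a := fun a => by
    rw [hy', hPh, Phi_add_right, Phi_psi_right hE hf hxk hxk, ← hPh, hx'y2, hx'x', add_zero]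
  exact ⟨x', hxk, y', hy'k, LinearMap.ext hx'x', LinearMap.ext hy'y', hx'y', fun a => by
    rw [← sig_sig hf a, Phi_symm hE hf hxk hy'k, ← hPh, hx'y', sig_sig, hneg]⟩

end Normal

end CfsgLib.IsometryClasses
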