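import Mathlib

/-!
# Quotients of `F[X]` by self-reciprocal polynomials, with the inversion of the root
-/

set_option autoImplicit false
set_option linter.style.haveILetI false

namespace CfsgLib.IsometryClasses

open Polynomial Module

variable {F : Type*} [Field F] {f H : F[X]}

/-- Monic, with invertible constant term, and proportional to the reversed polynomial. -/
structure Recip (f : F[X]) : Prop where
  monic : f.Monic
  coeff_zero : f.coeff 0 ≠ 0
  rev : f.reverse = C (f.coeff 0) * f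

namespace Recip

theorem ne_zero (hf : Recip f) : f ≠ 0 := hf.monic.ne_zero

theorem one : Recip (1 : F[X]) :=
  ⟨monic_one, by simp, by rw [← C_1, reverse_C]; simp⟩

theorem mul {a b : F[X]} (ha : Recip a) (hb : Recip b) : Recip (a * b) :=
  ⟨ha.monic.mul hb.monic, by rw [mul_coeff_zero]; exact mul_ne_zero ha.coeff_zero hb.coeff_zero,
    by rw [reverse_mul_of_domain, ha.rev, hb.rev, mul_coeff_zero, C_mul]; ring⟩

theorem pow (hf : Recip f) : ∀ k : ℕ, Recip (f ^ k)
  | 0 => by rw [pow_zero]; exact one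
  | k + 1 => by rw [pow_succ]; exact (pow hf k).mul hf

theorem coeff_zero_sq (hf : Recip f) : f.coeff 0 * f.coeff 0 = 1 := by
  have h := congrArg (fun p : F[X] => p.coeff 0) hf.rev
  simp only [coeff_zero_reverse, hf.monic.leadingCoeff, coeff_C_mul] at h
  exact h.symm

end Recip

/-- The inverse of the root, as a polynomial. -/
noncomputable def invPoly (f : F[X]) : F[X] := -(C (f.coeff 0)⁻¹ * f.divX)

/-- The inverse of the root. -/
noncomputable def rinv (f : F[X]) : AdjoinRoot f := AdjoinRoot.mk f (invPoly f)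

theorem root_mul_rinv (h0 : f.coeff 0 ≠ 0) : AdjoinRoot.root f * rinv f = 1 := by
  have hc : C (f.coeff 0)⁻¹ * C (f.coeff 0) = (1 : F[X]) := by rw [← C_mul, inv_mul_cancel₀ h0, C_1]
  rw [rinv, ← AdjoinRoot.mk_X, ← map_mul, invPoly, ← map_one (AdjoinRoot.mk f), AdjoinRoot.mk_eq_mk]
  refine ⟨-C (f.coeff 0)⁻¹, ?_⟩
  linear_combination (-C (f.coeff 0)⁻¹) * X_mul_divX_add f + hc

theorem eval₂_rinv_mul {S : Type*} [CommRing S] [Algebra F S] {x y : S}
    (hxy : x * y = 1) {g : F[X]} (hg : Recip g) :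
    algebraMap F S (g.coeff 0) * aeval y g * x ^ g.natDegree = aeval x g := by
  let : Invertible x := ⟨y, by rw [mul_comm]; exact hxy, hxy⟩
  have h := eval₂_reverse_mul_pow (algebraMap F S) x g
  rw [hg.rev, eval₂_mul, eval₂_C] at h
  exact h

theorem aeval_rinv (hf : Recip f) : aeval (rinv f) f = 0 := by
  have h := eval₂_rinv_mul (root_mul_rinv hf.coeff_zero) hf
  rw [AdjoinRoot.aeval_eq, AdjoinRoot.mk_self] at h
  have hu : IsUnit (AdjoinRoot.root f ^ f.natDegree) :=
    (IsUnit.of_mul_eq_one _ (root_mul_rinv hf.coeff_zero)).pow _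
  have h2 := hu.mul_left_eq_zero.1 h
  exact ((IsUnit.mk0 _ hf.coeff_zero).map (algebraMap F _)).mul_right_eq_zero.1 h2

/-- Inversion of the root. -/
noncomputable def sig (hf : Recip f) : AdjoinRoot f →ₐ[F] AdjoinRoot f :=
  AdjoinRoot.liftAlgHom f (Algebra.ofId F _) (rinv f) (aeval_rinv hf)

theorem sig_mk (hf : Recip f) (p : F[X]) : sig hf (AdjoinRoot.mk f p) = aeval (rinv f) p :=
  AdjoinRoot.liftAlgHom_mk f (Algebra.ofId F _) (rinv f) (aeval_rinv hf) p

theorem sig_root (hf : Recip f) : sig hf (AdjoinRoot.root f) = rinv f := by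
  rw [← AdjoinRoot.mk_X, sig_mk, aeval_X]

theorem sig_rinv (hf : Recip f) : sig hf (rinv f) = AdjoinRoot.root f := by
  have h := congrArg (sig hf) (root_mul_rinv hf.coeff_zero)
  rw [map_mul, map_one, sig_root] at h
  calc sig hf (rinv f) = (AdjoinRoot.root f * rinv f) * sig hf (rinv f) := by
        rw [root_mul_rinv hf.coeff_zero, one_mul]
    _ = AdjoinRoot.root f := by rw [mul_assoc, h, mul_one]

theorem sig_sig (hf : Recip f) (a : AdjoinRoot f) : sig hf (sig hf a) = a := by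
  have h : (sig hf).comp (sig hf) = AlgHom.id F _ := AdjoinRoot.algHom_ext (by
    rw [AlgHom.comp_apply, sig_root, sig_rinv, AlgHom.id_apply])
  exact AlgHom.congr_fun h a

theorem aeval_root_rinv (hf : Recip f) {g : F[X]} (hg : Recip g) :
    ∃ w, IsUnit w ∧ sig hf (AdjoinRoot.mk f g) = w * AdjoinRoot.mk f g := by
  have h := eval₂_rinv_mul (root_mul_rinv hf.coeff_zero) hg
  rw [AdjoinRoot.aeval_eq, ← sig_mk hf] at h
  have hu : IsUnit (algebraMap F (AdjoinRoot f) (g.coeff 0) * AdjoinRoot.root f ^ g.natDegree) :=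
    ((IsUnit.mk0 _ hg.coeff_zero).map _).mul ((IsUnit.of_mul_eq_one _ (root_mul_rinv hf.coeff_zero)).pow _)
  obtain ⟨u, hu⟩ := hu
  refine ⟨↑u⁻¹, u⁻¹.isUnit, ?_⟩
  have h' : (u : AdjoinRoot f) * sig hf (AdjoinRoot.mk f g) = AdjoinRoot.mk f g := by rw [hu]; linear_combination h
  conv_rhs => rw [← h']
  rw [← mul_assoc, Units.inv_mul, one_mul]

theorem sig_pow (hf : Recip f) {g : F[X]} (hg : Recip g) (n : ℕ) :
    ∃ w, IsUnit w ∧ sig hf (AdjoinRoot.mk f (g ^ n)) = w * AdjoinRoot.mk f (g ^ n) :=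
  aeval_root_rinv hf (hg.pow n)

/-! ### Non-degenerate functionals -/

/-- The kernel of the functional contains no non-zero ideal. -/
def Nd (φ : AdjoinRoot f →ₗ[F] F) : Prop := ∀ a, (∀ b, φ (a * b) = 0) → a = 0

theorem finite_adjoinRoot [Finite F] (hm : f.Monic) : Finite (AdjoinRoot f) :=
  haveI := (AdjoinRoot.powerBasis' hm).finite
  Module.finite_of_finite F

/-- Every functional is a multiple of a non-degenerate one. -/
theorem exists_rep (hm : f.Monic) {φ : AdjoinRoot f →ₗ[F] F} (h : Nd φ) (ψ : AdjoinRoot f →ₗ[F] F) :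
    ∃ r, ∀ a, ψ a = φ (r * a) := by
  haveI := (AdjoinRoot.powerBasis' hm).finite
  let L : AdjoinRoot f →ₗ[F] Module.Dual F (AdjoinRoot f) := (LinearMap.mul F (AdjoinRoot f)).compr₂ φ
  have hL : Function.Injective L := by
    rw [injective_iff_map_eq_zero]
    exact fun a ha => h a fun b => LinearMap.congr_fun ha b
  obtain ⟨r, hr⟩ := (LinearMap.injective_iff_surjective_of_finrank_eq_finrank
    Subspace.dual_finrank_eq.symm).1 hL ψ
  exact ⟨r, fun a => (LinearMap.congr_fun hr a).symm⟩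

theorem Nd.ext {φ : AdjoinRoot f →ₗ[F] F} (h : Nd φ) {r r' : AdjoinRoot f}
    (he : ∀ a, φ (r * a) = φ (r' * a)) : r = r' :=
  sub_eq_zero.1 (h _ fun b => by rw [sub_mul, map_sub, he, sub_self])

theorem isUnit_of_rep [Finite F] (hm : f.Monic) {φ ψ : AdjoinRoot f →ₗ[F] F} (hψ : Nd ψ)
    {r : AdjoinRoot f} (hr : ∀ a, ψ a = φ (r * a)) : IsUnit r := by
  haveI := finite_adjoinRoot hm
  have hinj : Function.Injective (fun a => r * a) := fun a b (hab : r * a = r * b) => hψ.ext fun c => by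
    rw [hr, hr, ← mul_assoc, ← mul_assoc, hab]
  obtain ⟨b, hb⟩ := Finite.surjective_of_injective hinj 1
  exact IsUnit.of_mul_eq_one b hb

/-! ### Reduction modulo the atom -/

variable {k : ℕ}

/-- Reduction from the quotient by `H ^ k` to the quotient by `H`. -/
noncomputable def red (H : F[X]) (k : ℕ) (hk : k ≠ 0) : AdjoinRoot (H ^ k) →ₐ[F] AdjoinRoot H :=
  AdjoinRoot.liftAlgHom (H ^ k) (Algebra.ofId F _) (AdjoinRoot.root H) (by
    show aeval (AdjoinRoot.root H) (H ^ k) = 0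
    rw [map_pow, AdjoinRoot.aeval_eq, AdjoinRoot.mk_self, zero_pow hk])

theorem red_mk (hk : k ≠ 0) (p : F[X]) :
    red H k hk (AdjoinRoot.mk (H ^ k) p) = AdjoinRoot.mk H p := by
  rw [red, AdjoinRoot.liftAlgHom_mk, ← AdjoinRoot.aeval_eq]
  rfl

theorem red_sig (hH : Recip H) (hk : k ≠ 0) (a : AdjoinRoot (H ^ k)) :
    red H k hk (sig (hH.pow k) a) = sig hH (red H k hk a) := by
  have h : (red H k hk).comp (sig (hH.pow k)) = (sig hH).comp (red H k hk) := AdjoinRoot.algHom_ext (by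
    rw [AlgHom.comp_apply, AlgHom.comp_apply, sig_root, ← AdjoinRoot.mk_X, red_mk, AdjoinRoot.mk_X, sig_root]
    have h1 := congrArg (red H k hk) (root_mul_rinv (hH.pow k).coeff_zero)
    rw [map_mul, map_one, ← AdjoinRoot.mk_X, red_mk, AdjoinRoot.mk_X] at h1
    calc red H k hk (rinv (H ^ k)) = (rinv H * AdjoinRoot.root H) * red H k hk (rinv (H ^ k)) := by
          rw [mul_comm (rinv H), root_mul_rinv hH.coeff_zero, one_mul]
      _ = rinv H := by rw [mul_assoc, h1, mul_one])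
  exact AlgHom.congr_fun h a

theorem exists_red_eq (hk : k ≠ 0) (e : AdjoinRoot H) : ∃ a, red H k hk a = e := by
  induction e using AdjoinRoot.induction_on with
  | ih p => exact ⟨AdjoinRoot.mk _ p, red_mk hk p⟩

theorem red_pow_eq_zero (hk : k ≠ 0) {a : AdjoinRoot (H ^ k)} (ha : red H k hk a = 0) : a ^ k = 0 := by
  induction a using AdjoinRoot.induction_on with
  | ih p =>
    rw [red_mk, AdjoinRoot.mk_eq_zero] at ha
    rw [← map_pow, AdjoinRoot.mk_eq_zero]
    exact pow_dvd_pow_of_dvd ha k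

theorem isUnit_of_red (hk : k ≠ 0) {a : AdjoinRoot (H ^ k)} (ha : IsUnit (red H k hk a)) : IsUnit a := by
  obtain ⟨c, hc⟩ := isUnit_iff_exists_inv.1 ha
  obtain ⟨b, rfl⟩ := exists_red_eq hk c
  have h : red H k hk (a * b - 1) = 0 := by rw [map_sub, map_mul, map_one, hc, sub_self]
  have h1 : IsUnit (1 + (a * b - 1)) := IsNilpotent.isUnit_one_add ⟨k, red_pow_eq_zero hk h⟩
  rw [add_sub_cancel] at h1
  exact isUnit_of_mul_isUnit_left h1

theorem isUnit_red_iff (hk : k ≠ 0) {a : AdjoinRoot (H ^ k)} : IsUnit (red H k hk a) ↔ IsUnit a :=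
  ⟨isUnit_of_red hk, fun h => h.map _⟩

/-- The generator of the socle. -/
noncomputable def top (H : F[X]) (k : ℕ) : AdjoinRoot (H ^ k) := AdjoinRoot.mk (H ^ k) (H ^ (k - 1))

theorem top_mul (hk : k ≠ 0) {a : AdjoinRoot (H ^ k)} (ha : red H k hk a = 0) : top H k * a = 0 := by
  induction a using AdjoinRoot.induction_on with
  | ih p =>
    rw [red_mk, AdjoinRoot.mk_eq_zero] at ha
    obtain ⟨r, rfl⟩ := ha
    rw [top, ← map_mul, AdjoinRoot.mk_eq_zero]
    exact ⟨r, by rw [← mul_assoc, ← pow_succ, show k - 1 + 1 = k by omega]⟩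

theorem top_ne_zero (hH : H.Monic) (hd : H.natDegree ≠ 0) (hk : k ≠ 0) : top H k ≠ 0 := by
  intro h
  rw [top, AdjoinRoot.mk_eq_zero] at h
  have := natDegree_le_of_dvd h (pow_ne_zero _ hH.ne_zero)
  rw [hH.natDegree_pow, hH.natDegree_pow] at this
  have h2 := Nat.le_of_mul_le_mul_right this (Nat.pos_of_ne_zero hd)
  omega

/-- In the residue algebra the sigma-stable ideal generated by a non-zero element is everything. -/
def AtomCond (hH : Recip H) : Prop :=
  ∀ e : AdjoinRoot H, e ≠ 0 → ∃ c d, c * e + d * sig hH e = 1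

/-- A symmetric functional which is non-zero on the socle is non-degenerate. -/
theorem nd_of_top (hH : Recip H) (hA : AtomCond hH) (hk : k ≠ 0) {φ : AdjoinRoot (H ^ k) →ₗ[F] F}
    {ε : F} (hs : ∀ a, φ (sig (hH.pow k) a) = ε * φ a) (h : ∃ b, φ (top H k * b) ≠ 0) : Nd φ := by
  intro a ha
  by_contra ha0
  set P : AdjoinRoot (H ^ k) := AdjoinRoot.mk (H ^ k) H with hP
  have hPk : P ^ k = 0 := by rw [hP, ← map_pow, AdjoinRoot.mk_self]
  classical
  have hex : ∃ m, P ^ m * a = 0 := ⟨k, by rw [hPk, zero_mul]⟩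
  obtain ⟨m, hm⟩ : ∃ m, Nat.find hex = m + 1 := Nat.exists_eq_succ_of_ne_zero fun h0 => ha0 (by
    have := Nat.find_spec hex
    rwa [h0, pow_zero, one_mul] at this)
  have h1 : P ^ m * a ≠ 0 := Nat.find_min hex (by omega)
  have h2 : P * (P ^ m * a) = 0 := by rw [← mul_assoc, ← pow_succ', ← hm]; exact Nat.find_spec hex
  obtain ⟨p, hp⟩ : ∃ p, AdjoinRoot.mk (H ^ k) p = P ^ m * a := AdjoinRoot.mk_surjective _
  have h3 : H ^ (k - 1) ∣ p := by
    rw [← hp, hP, ← map_mul, AdjoinRoot.mk_eq_zero, show k = k - 1 + 1 by omega, pow_succ'] at h2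
    exact (mul_dvd_mul_iff_left hH.ne_zero).1 h2
  obtain ⟨q, rfl⟩ := h3
  set e : AdjoinRoot (H ^ k) := AdjoinRoot.mk (H ^ k) q
  have hte : top H k * e = P ^ m * a := by rw [← hp, top, map_mul]
  have he : red H k hk e ≠ 0 := fun h0 => h1 (by rw [← hte, top_mul hk h0])
  have hK : ∀ b, φ (top H k * e * b) = 0 := fun b => by
    rw [hte, show P ^ m * a * b = a * (P ^ m * b) by ring]
    exact ha _
  have hK' : ∀ b, φ (sig (hH.pow k) (top H k * e) * b) = 0 := fun b => by
    have := hs (top H k * e * sig (hH.pow k) b)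
    rwa [map_mul, sig_sig, hK, mul_zero] at this
  obtain ⟨w, hw, hwt⟩ := sig_pow (hH.pow k) hH (k - 1)
  obtain ⟨c, d, hcd⟩ := hA _ he
  obtain ⟨c, rfl⟩ := exists_red_eq hk c
  obtain ⟨d, rfl⟩ := exists_red_eq hk d
  have hz : red H k hk (c * e + d * sig (hH.pow k) e - 1) = 0 := by
    rw [map_sub, map_add, map_mul, map_mul, red_sig hH, map_one, hcd, sub_self]
  have hz' := top_mul hk hz
  obtain ⟨b, hb⟩ := h
  obtain ⟨w', hw'⟩ := hw.exists_left_inv
  apply hb
  have e1 : top H k * b = (top H k * e) * (c * b) + sig (hH.pow k) (top H k * e) * (w' * d * b) := by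
    have e2 : sig (hH.pow k) (top H k * e) = w * top H k * sig (hH.pow k) e := by
      rw [map_mul, top, hwt]
    rw [e2]
    linear_combination (-b) * hz' - (top H k * sig (hH.pow k) e * d * b) * hw'
  rw [e1, map_add, hK, hK', add_zero]

theorem exists_top_ne (hH : H.Monic) (hd : H.natDegree ≠ 0) (hk : k ≠ 0)
    {φ : AdjoinRoot (H ^ k) →ₗ[F] F} (h : Nd φ) : ∃ b, φ (top H k * b) ≠ 0 := by
  by_contra hc
  push Not at hc
  exact top_ne_zero hH hd hk (h _ hc)

/-- Norms reach every fixed unit of the residue algebra. -/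
def NormSurj (hH : Recip H) : Prop :=
  ∀ r, IsUnit r → sig hH r = r → ∃ b, b * sig hH b = r

/-- Lifting a norm equation through the reduction. -/
theorem exists_norm_of_red [Finite F] (h2 : (2 : F) ≠ 0) (hH : Recip H) (hd : H.natDegree ≠ 0) (hk : k ≠ 0)
    {r : AdjoinRoot (H ^ k)} (hr : IsUnit r) (hs : sig (hH.pow k) r = r)
    {b₀ : AdjoinRoot H} (hb : b₀ * sig hH b₀ = red H k hk r) :
    ∃ b, IsUnit b ∧ b * sig (hH.pow k) b = r := by
  obtain ⟨b, rfl⟩ := exists_red_eq hk b₀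
  set σ := sig (hH.pow k) with hσ
  have hbu : IsUnit b := isUnit_of_red hk (isUnit_of_mul_isUnit_left (hb ▸ hr.map (red H k hk)))
  have hNu : IsUnit (b * σ b) := hbu.mul (hbu.map σ)
  obtain ⟨n', hn'⟩ := hNu.exists_left_inv
  set u := r * n' with hu
  have hun : u * (b * σ b) = r := by rw [hu, mul_assoc, hn', mul_one]
  have hσN : σ (b * σ b) = b * σ b := by rw [map_mul, hσ, sig_sig]; ring
  have hσu : σ u = u := by
    have h1 := congrArg σ hun
    rw [map_mul, hσN, show σ r = r from hs] at h1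
    exact hNu.mul_right_cancel (h1.trans hun.symm)
  have hz : red H k hk (u - 1) = 0 := by
    have h1 := congrArg (red H k hk) hun
    rw [map_mul, map_mul (red H k hk) b, hσ, red_sig hH, hb] at h1
    rw [map_sub, map_one, sub_eq_zero]
    exact (hr.map (red H k hk)).mul_right_cancel (h1.trans (one_mul _).symm)
  set p := ringChar F
  haveI : Fact p.Prime := ⟨CharP.char_is_prime F p⟩
  have hp2 : p ≠ 2 := fun e => h2 (by
    have := CharP.cast_eq_zero F p
    rwa [e, Nat.cast_ofNat] at this)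
  haveI : Nontrivial (AdjoinRoot (H ^ k)) := ⟨⟨top H k, 0, top_ne_zero hH.monic hd hk⟩⟩
  haveI : ExpChar (AdjoinRoot (H ^ k)) p :=
    expChar_of_injective_algebraMap (algebraMap F (AdjoinRoot (H ^ k))).injective p
  have hpk : k ≤ p ^ k := (Nat.lt_pow_self (Fact.out (p := p.Prime)).one_lt).le
  have hupow : u ^ (p ^ k) = 1 := by
    have h1 : (u - 1) ^ (p ^ k) = 0 := pow_eq_zero_of_le hpk (red_pow_eq_zero hk hz)
    rwa [sub_pow_expChar_pow, one_pow, sub_eq_zero] at h1
  obtain ⟨t, ht⟩ : Odd (p ^ k) := ((Fact.out (p := p.Prime)).eq_two_or_odd'.resolve_left hp2).pow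
  have hsq : u ^ (t + 1) * u ^ (t + 1) = u := by
    rw [← pow_add, show t + 1 + (t + 1) = (2 * t + 1) + 1 by omega, pow_succ, ← ht, hupow, one_mul]
  refine ⟨b * u ^ (t + 1), hbu.mul ((isUnit_of_mul_isUnit_left (hun ▸ hr)).pow _), ?_⟩
  rw [map_mul, map_pow, hσu]
  linear_combination (b * σ b) * hsq + hun

end CfsgLib.IsometryClasses
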